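import Cfsg.Agent.PNF.Blk

set_option autoImplicit false
set_option linter.unusedSectionVars false

namespace Cfsg.Agent.PNF

open Classical Finset Cfsg.Agent.FPS Pointwise

/-- two faithful-together actions of the same degree, one of them alternating -/
theorem Alt.core {N α β : Type} [Group N] [Finite N] [Fintype α] [Fintype β] [DecidableEq α]
    (φ : N →* Equiv.Perm α) (ψ : N →* Equiv.Perm β) (hc : Nat.card β = Nat.card α)
    (h5 : 5 ≤ Nat.card α) (h4 : 4 ≤ Nat.card φ.ker) (hf : ∀ n, φ n = 1 → ψ n = 1 → n = 1)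
    (hA : alternatingGroup α ≤ φ.range)
    (h2 : ∀ a b c : α, a ≠ b → a ≠ c → ∃ t, φ t a = a ∧ φ t b = c) :
    ∃ z, ψ z = 1 ∧ (φ z).support.card = 3 := by
  have three : ∀ a b : α, ∃ c, a ≠ c ∧ b ≠ c := by
    intro a b
    have : ({a, b} : Finset α).card < (univ : Finset α).card := by
      rw [card_univ, ← Nat.card_eq_fintype_card]
      exact lt_of_le_of_lt card_le_two (by omega)
    obtain ⟨d, -, hn⟩ := exists_mem_notMem_of_card_lt_card this
    simp only [mem_insert, mem_singleton, not_or] at hn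
    exact ⟨d, Ne.symm hn.1, Ne.symm hn.2⟩
  have hnt : Nontrivial α := Finite.one_lt_card_iff_nontrivial.1 (by omega)
  obtain ⟨x, hx, x1⟩ : ∃ x, ψ x = 1 ∧ x ≠ 1 := by
    by_contra hcon
    push Not at hcon
    have e1 := Nat.card_le_card_of_injective ψ ((injective_iff_map_eq_one ψ).2 hcon)
    rw [Nat.card_perm, hc] at e1
    have e2 : Nat.card φ.ker * Nat.card φ.range = Nat.card N := by
      rw [← Subgroup.index_ker]; exact Subgroup.card_mul_index _
    have e3 := Subgroup.card_le_of_le hA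
    have e4 : 2 * Nat.card (alternatingGroup α) = Nat.card (Equiv.Perm α) := by
      rw [Nat.card_eq_fintype_card, Nat.card_eq_fintype_card]
      convert two_mul_card_alternatingGroup (α := α)
    rw [Nat.card_perm] at e4
    have e5 := Nat.mul_le_mul h4 e3
    have e6 := Nat.factorial_pos (Nat.card α)
    omega
  obtain ⟨a, ha⟩ : ∃ a, φ x a ≠ a := by
    by_contra hcon
    push Not at hcon
    exact x1 (hf x (Equiv.ext hcon) hx)
  obtain ⟨c, c1, c2⟩ := three a (φ x a)
  obtain ⟨t, t1, t2⟩ := h2 a _ c ha.symm c1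
  let M : Subgroup (alternatingGroup α) := (ψ.ker.map φ).subgroupOf _
  have hM : M.Normal := ⟨fun m hm g => by
    obtain ⟨y, hy, e⟩ := hm
    obtain ⟨s, hs⟩ := hA g.2
    refine ⟨s * y * s⁻¹, (MonoidHom.normal_ker ψ).conj_mem y hy s, ?_⟩
    rw [map_mul, map_mul, map_inv, hs, e]
    rfl⟩
  rcases alternatingGroup.normal_subgroup_eq_bot_or_eq_top h5 (N := M) with e | e
  · exfalso
    have s1 : φ (x⁻¹ * (t * x * t⁻¹)) ∈ alternatingGroup α := by
      rw [Equiv.Perm.mem_alternatingGroup]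
      simp only [map_mul, map_inv]
      rw [mul_comm (Equiv.Perm.sign (φ t)), mul_inv_cancel_right, inv_mul_cancel]
    have s2 : (⟨_, s1⟩ : alternatingGroup α) ∈ M :=
      ⟨_, ψ.ker.mul_mem (ψ.ker.inv_mem hx) ((MonoidHom.normal_ker ψ).conj_mem x hx t), rfl⟩
    rw [e, Subgroup.mem_bot] at s2
    have s3 : φ (x⁻¹ * (t * x * t⁻¹)) = 1 := congrArg Subtype.val s2
    rw [map_mul, map_inv, inv_mul_eq_one, map_mul, map_mul, map_inv, eq_mul_inv_iff_mul_eq] at s3
    have s4 := congrArg (fun σ : Equiv.Perm α => σ a) s3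
    simp only [Equiv.Perm.mul_apply, t1, t2] at s4
    exact c2 s4
  · have s1 := Equiv.Perm.isThreeCycle_swap_mul_swap_same ha.symm c1 c2
    have s2 : (⟨_, s1.mem_alternatingGroup⟩ : alternatingGroup α) ∈ M := e ▸ Subgroup.mem_top _
    obtain ⟨z, hz, e'⟩ := s2
    exact ⟨z, hz, by rw [e']; exact s1.card_support⟩

variable {G : Type} [Group G] [Fintype G] {Ω : Type} [Fintype Ω] [MulAction G Ω]
  {K : Subgroup G} {F : Finset Ω}

/-- restriction to an invariant set -/
def Alt.res (C : Finset Ω) (N : Subgroup G) (hN : ∀ n ∈ N, ∀ x, n • x ∈ C ↔ x ∈ C) :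
    N →* Equiv.Perm C where
  toFun n := (MulAction.toPerm (n : G)).subtypePerm fun x => hN n n.2 x
  map_one' := Equiv.ext fun x => Subtype.ext (one_smul G (x : Ω))
  map_mul' a b := Equiv.ext fun x => Subtype.ext (mul_smul (a : G) (b : G) (x : Ω))

theorem Alt.res_apply {C : Finset Ω} {N : Subgroup G} (hN : ∀ n ∈ N, ∀ x, n • x ∈ C ↔ x ∈ C)
    (n : N) (x : C) : (Alt.res C N hN n x : Ω) = (n : G) • (x : Ω) := rfl

theorem Alt.res_one {C : Finset Ω} {N : Subgroup G} (hN : ∀ n ∈ N, ∀ x, n • x ∈ C ↔ x ∈ C)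
    (n : N) : Alt.res C N hN n = 1 ↔ ∀ x ∈ C, (n : G) • x = x :=
  ⟨fun h x hx => congrArg (fun σ : Equiv.Perm C => (σ ⟨x, hx⟩ : Ω)) h,
    fun h => Equiv.ext fun x => Subtype.ext (h x x.2)⟩

theorem Alt.res_supp {C : Finset Ω} {N : Subgroup G} (hN : ∀ n ∈ N, ∀ x, n • x ∈ C ↔ x ∈ C)
    (n : N) : (Alt.res C N hN n).support.card = mv (n : G) C := by
  rw [mv]
  refine card_bij (fun x _ => (x : Ω)) (fun x hx => ?_) (fun a _ b _ e => Subtype.ext e)
    (fun y hy => ?_)
  · exact mem_filter.2 ⟨x.2, fun e => Equiv.Perm.mem_support.1 hx (Subtype.ext e)⟩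
  · rw [mem_filter] at hy
    exact ⟨⟨y, hy.1⟩, Equiv.Perm.mem_support.2 fun e => hy.2 (congrArg Subtype.val e), rfl⟩

theorem MC.alt (h : MC K F) (h5 : 5 ≤ F.card) {g : G} (hg : g • F = F) (h0 : mv g F ≠ 0) :
    4 ≤ mv g F := by
  by_contra h3
  have hN : ∀ n ∈ MulAction.stabilizer G F, ∀ x, n • x ∈ F ↔ x ∈ F := fun n hn x => by
    have e : n • F = F := hn
    conv_lhs => rw [← e]
    exact sm_mem_bl
  have hN' : ∀ n ∈ MulAction.stabilizer G F, ∀ x, n • x ∈ univ \ F ↔ x ∈ univ \ F := fun n hn x => by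
    simp only [mem_sdiff, mem_univ, true_and, hN n hn x]
  set φ := Alt.res F _ hN with hφ
  have cF : Nat.card F = F.card := Nat.card_eq_finsetCard F
  have tr := h.tr3N.tr2 (by omega)
  have tr' : ∀ a b c d : F, a ≠ b → c ≠ d → ∃ t, φ t a = c ∧ φ t b = d := by
    intro a b c d h1 h2
    obtain ⟨t, ht, e1, e2⟩ := tr a a.2 b b.2 c c.2 d d.2 (fun e => h1 (Subtype.ext e))
      (fun e => h2 (Subtype.ext e))
    exact ⟨⟨t, ht⟩, Subtype.ext e1, Subtype.ext e2⟩
  have prim : MulAction.IsPreprimitive φ.range F :=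
    MulAction.isPreprimitive_of_is_two_pretransitive (MulAction.is_two_pretransitive_iff.2
      fun {a b c d} h1 h2 => by
        obtain ⟨t, e1, e2⟩ := tr' a b c d h1 h2
        exact ⟨⟨φ t, t, rfl⟩, e1, e2⟩)
  have hs : (φ ⟨g, hg⟩).support.card = mv g F := Alt.res_supp hN ⟨g, hg⟩
  have hA : alternatingGroup F ≤ φ.range := by
    have n1 := Equiv.Perm.card_support_ne_one (φ ⟨g, hg⟩)
    by_cases e2 : (φ ⟨g, hg⟩).support.card = 2
    · rw [Equiv.Perm.subgroup_eq_top_of_isPreprimitive_of_isSwap_mem prim _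
        (Equiv.Perm.card_support_eq_two.1 e2) ⟨_, rfl⟩]
      exact le_top
    · exact Equiv.Perm.alternatingGroup_le_of_isPreprimitive_of_isThreeCycle_mem prim
        (g := φ ⟨g, hg⟩) (card_support_eq_three_iff.1 (by omega)) ⟨_, rfl⟩
  have hc : Nat.card ↥(univ \ F) = Nat.card F := by
    rw [Nat.card_eq_finsetCard, cF, card_sdiff_of_subset (subset_univ F), card_univ, h.half]
    omega
  have h4 : 4 ≤ Nat.card φ.ker := by
    obtain ⟨y, hy⟩ : (univ \ F).Nonempty := card_pos.1 (by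
      rw [← Nat.card_eq_finsetCard, hc]; omega)
    have o4 := h.orb4 (mem_sdiff.1 hy).2
    have k4 : 4 ≤ Nat.card K := by
      rw [orbstab K y]
      exact o4.trans (Nat.le_mul_of_pos_right _ Nat.card_pos)
    have st : ∀ k ∈ K, k ∈ MulAction.stabilizer G F := fun k hk => by
      change k • F = F
      apply eq_of_subset_of_card_le _ (card_bl k F).ge
      intro x hx
      have hx' := mem_bl.1 hx
      have := (h.fix _).1 hx' k hk
      rw [smul_inv_smul] at this
      rw [this]; exact hx'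
    refine k4.trans (Nat.card_le_card_of_injective
      (fun k : K => (⟨⟨k, st k k.2⟩, (Alt.res_one hN _).2 fun x hx => (h.fix x).1 hx k k.2⟩ : φ.ker))
      fun a b e => Subtype.ext (congrArg (fun z : φ.ker => ((z : MulAction.stabilizer G F) : G)) e))
  obtain ⟨z, z1, z3⟩ := Alt.core φ (Alt.res _ _ hN') hc (by omega) h4 (fun n n1 n2 => by
      refine Subtype.ext (h.faith n fun x => ?_)
      by_cases hx : x ∈ F
      · exact (Alt.res_one hN n).1 n1 x hx
      · exact (Alt.res_one hN' n).1 n2 x (mem_sdiff.2 ⟨mem_univ _, hx⟩)) hA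
    fun a b c h1 h2 => tr' a b a c h1 h2
  rw [Alt.res_supp] at z3
  have z0 : (z : G) ≠ 1 := fun e => by
    rw [e, mv] at z3
    simp at z3
  have s4 := h.small z0
  have : mv (z : G) (univ : Finset Ω) ≤ mv (z : G) F := card_le_card fun y hy => by
    rw [mem_filter] at hy
    refine mem_filter.2 ⟨?_, hy.2⟩
    by_contra hx
    exact hy.2 ((Alt.res_one hN' z).1 z1 y (mem_sdiff.2 ⟨mem_univ _, hx⟩))
  omega

end Cfsg.Agent.PNF
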