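import Cfsg.Agent.PNF.Defs

/-! Blocks of the critical configuration. -/

set_option autoImplicit false
set_option linter.unusedSectionVars false

namespace Cfsg.Agent.PNF

open Classical Finset Cfsg.Agent.FPS Pointwise

variable {G : Type} [Group G] [Fintype G] {Ω : Type} [Fintype Ω] [MulAction G Ω]
  {K : Subgroup G} {F : Finset Ω}

theorem mem_bl {g : G} {B : Finset Ω} {x : Ω} : x ∈ g • B ↔ g⁻¹ • x ∈ B :=
  Finset.inv_smul_mem_iff.symm

theorem sm_mem_bl {g : G} {B : Finset Ω} {x : Ω} : g • x ∈ g • B ↔ x ∈ B :=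
  Finset.smul_mem_smul_finset_iff g

theorem card_bl (g : G) (B : Finset Ω) : (g • B).card = B.card := Finset.card_smul_finset g B

theorem mv_conj (g u : G) (B : Finset Ω) : mv (g * u * g⁻¹) (g • B) = mv u B := by
  unfold mv
  rw [← card_bl g (B.filter _)]
  congr 1
  ext x
  rw [mem_filter, mem_bl, mem_bl, mem_filter, mul_smul, mul_smul, Ne, smul_eq_iff_eq_inv_smul]

/-- double counting of flags -/
theorem bridge (V : Subgroup G) (B : Finset Ω) (x : Ω) :
    (orb V x).card * ((orb V B).filter (x ∈ ·)).card = (orb V B).card * (B ∩ orb V x).card := by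
  have h1 : ∀ y ∈ orb V x, ((orb V B).filter (y ∈ ·)).card = ((orb V B).filter (x ∈ ·)).card := by
    intro y hy
    obtain ⟨g, hg, rfl⟩ := mem_orb.1 hy
    symm
    apply card_bij (fun B' _ => g • B')
    · intro B' hB'
      rw [mem_filter] at hB' ⊢
      exact ⟨orb_inv B g hg _ hB'.1, sm_mem_bl.2 hB'.2⟩
    · intro a _ b _ h; exact MulAction.injective g h
    · intro B' hB'
      rw [mem_filter] at hB'
      refine ⟨g⁻¹ • B', mem_filter.2 ⟨orb_inv B _ (V.inv_mem hg) _ hB'.1, ?_⟩, smul_inv_smul _ _⟩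
      rw [mem_bl, inv_inv]; exact hB'.2
  have h2 : ∀ B' ∈ orb V B, ((orb V x).filter (· ∈ B')).card = (B ∩ orb V x).card := by
    intro B' hB'
    obtain ⟨g, hg, rfl⟩ := mem_orb.1 hB'
    rw [← card_bl g (B ∩ _)]
    congr 1
    ext y
    rw [mem_filter, mem_bl, mem_bl, mem_inter, and_comm]
    refine and_congr_right fun _ => ⟨fun h => orb_inv x _ (V.inv_mem hg) _ h, fun h => ?_⟩
    simpa using orb_inv x _ hg _ h
  have h3 := sum_card_bipartiteAbove_eq_sum_card_bipartiteBelow (s := orb V x) (t := orb V B)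
    (fun y B' => y ∈ B')
  simp only [bipartiteAbove, bipartiteBelow] at h3
  rw [sum_congr rfl h1, sum_congr rfl h2, sum_const, sum_const, smul_eq_mul, smul_eq_mul] at h3
  exact h3

theorem blk_fix (h : MC K F) (g : G) (x : Ω) : x ∈ g • F ↔ Fx (g • K) x := by
  rw [mem_bl, h.fix, ← Fx_sm g, smul_inv_smul]

theorem MC.conj (h : MC K F) (g : G) : MC (g • K) (g • F) where
  ih := h.ih
  faith := h.faith
  pn := h.pn.conj (Subgroup.mem_top g)
  fix := blk_fix h g
  max := fun k hk => mem_sm.2 (h.max _ fun x hx => by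
    rw [mul_smul, mul_smul, hk _ (sm_mem_bl.2 hx), inv_smul_smul])
  ne := fun e => h.ne (by
    rw [eq_bot_iff] at e ⊢
    intro k hk
    have := e (sm_mem (g := g) hk)
    rw [Subgroup.mem_bot] at this ⊢
    simpa using this)
  half := by rw [card_bl]; exact h.half
  tr3 := h.tr3

theorem M4.conj (h : M4 K F) (g : G) : M4 (g • K) (g • F) where
  mc := h.mc.conj g
  big := by rw [card_bl]; exact h.big
  ht := fun k hk h0 => by
    have e : mv k (g • F) = mv (g⁻¹ * k * g) F := by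
      rw [← mv_conj g (g⁻¹ * k * g) F]; congr 1; group
    rw [e] at h0 ⊢
    rw [card_bl]
    refine h.ht _ ?_ h0
    rw [mul_smul, mul_smul, hk, inv_smul_smul]

theorem MC.fx_eq (h : MC K F) (C : Finset Ω) : fx K C = (F ∩ C).card := by
  unfold fx
  congr 1
  ext x
  rw [mem_filter, mem_inter, h.fix, and_comm]

theorem blk_eq (h : MC K F) {g w : G} (hg : w • F = g • F) : w • K = g • K := by
  apply le_antisymm
  · intro k hk
    refine (h.conj g).max k fun x hx => ?_
    rw [← hg] at hx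
    exact (blk_fix h w x).1 hx k hk
  · intro k hk
    refine (h.conj w).max k fun x hx => ?_
    rw [hg] at hx
    exact (blk_fix h g x).1 hx k hk

theorem blk_eq' (h : MC K F) {g w : G} (hg : w • K = g • K) : w • F = g • F := by
  ext x
  rw [blk_fix h, blk_fix h, hg]

theorem MC.norm (h : MC K F) {g : G} (hg : g • F = F) : g • K = K := by
  have := blk_eq h (w := g) (g := 1) (by rw [hg, one_smul])
  rwa [one_smul] at this

theorem MC.l0 (h : MC K F) (g : G) {C : Finset Ω} (hC : Inv K C) (hs : C ⊆ g • F) : C ⊆ F :=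
  fun x hx => (h.fix x).2 (h.pn.l0 (Subgroup.mem_top g) (C := (C : Set Ω)) hC
    (fun y hy => (blk_fix h g y).1 (hs hy)) x hx)

theorem MC.fixK (h : MC K F) {g : G} (hg : ∀ k ∈ K, k • g • F = g • F) : g • F = F := by
  refine eq_of_subset_of_card_le (h.l0 g (fun k hk x hx => ?_) Subset.rfl) (card_bl g F).ge
  rw [← hg k hk]; exact sm_mem_bl.2 hx

theorem MC.witt (h : MC K F) (g : G) :
    ∃ w : G, w • F = g • F ∧ ∀ x ∈ F, x ∈ g • F → w • x = x := by
  obtain ⟨w, -, he, hf⟩ := h.pn.witt (Ω := Ω) (Subgroup.mem_top g)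
  exact ⟨w, blk_eq' h he, fun x hx hx' => hf x ((h.fix x).1 hx) ((blk_fix h g x).1 hx')⟩

theorem MC.witt' (h : MC K F) (g : G) :
    ∃ w : G, w • F = F ∧ ∀ x ∈ F, g • x ∈ F → w • x = g • x := by
  obtain ⟨w, he, hf⟩ := h.witt g
  refine ⟨w⁻¹ * g, by rw [mul_smul, ← he, inv_smul_smul], fun x hx hx' => ?_⟩
  rw [mul_smul, inv_smul_eq_iff, hf _ hx' (sm_mem_bl.2 hx)]

theorem blk_invF (h : MC K F) : Inv K F := fun k hk x hx => by
  rw [(h.fix x).1 hx k hk]; exact hx

theorem blk_compl (h : MC K F) : (univ \ F).card = F.card := by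
  rw [card_univ_diff, h.half]; omega

theorem blk_mv (h : MC K F) : ∃ y, y ∉ F := by
  by_contra hc
  push Not at hc
  apply h.ne
  rw [eq_bot_iff]
  intro k hk
  exact Subgroup.mem_bot.2 (h.faith k fun x => (h.fix x).1 (hc x) k hk)

theorem MC.meet (h : MC K F) (g : G) : (F ∩ g • F).Nonempty := by
  rw [nonempty_iff_ne_empty]
  intro e
  have h1 : g • F ⊆ univ \ F := fun x hx => mem_sdiff.2 ⟨mem_univ x, fun hx' => by
    have : x ∈ F ∩ g • F := mem_inter.2 ⟨hx', hx⟩
    rw [e] at this; exact notMem_empty x this⟩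
  have h2 : g • F = univ \ F :=
    eq_of_subset_of_card_le h1 (by rw [blk_compl h, card_bl])
  obtain ⟨y, hy⟩ := blk_mv h
  have hU : Inv K (univ : Finset Ω) := fun _ _ _ _ => mem_univ _
  have := h.l0 g (hU.sdiff (blk_invF h)) h2.ge (mem_sdiff.2 ⟨mem_univ y, hy⟩)
  exact hy this

theorem blk_two (h : MC K F) : 2 ≤ F.card := by
  obtain ⟨y, hy⟩ := blk_mv h
  rw [h.fix] at hy
  simp only [Fx, not_forall] at hy
  obtain ⟨k, hk, hky⟩ := hy
  have h2 : ({y, k • y} : Finset Ω) ⊆ univ \ F := by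
    intro z hz
    rw [mem_insert, mem_singleton] at hz
    rw [mem_sdiff, h.fix]
    refine ⟨mem_univ _, fun hf => hky ?_⟩
    rcases hz with rfl | rfl
    · exact hf k hk
    · have := hf k⁻¹ (K.inv_mem hk)
      rw [inv_smul_smul] at this
      exact this.symm
  have h3 := card_le_card h2
  rwa [card_pair (Ne.symm hky), blk_compl h] at h3

theorem MC.tr2 (h : MC K F) : Tr2 (⊤ : Subgroup G) (univ : Finset Ω) :=
  h.tr3.tr2 (by have := blk_two h; rw [card_univ, h.half]; omega)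

/-- a block disjoint from `F` -/
theorem blk_no (h : MC K F) {g : G} (hg : ∀ x ∈ F, g • x ∉ F) : False := by
  obtain ⟨x, hx⟩ := h.meet g
  rw [mem_inter, mem_bl] at hx
  exact hg _ hx.2 (by rw [smul_inv_smul]; exact hx.1)

theorem MC.four (h : MC K F) : 4 ≤ F.card := by
  have h2 := blk_two h
  have hc := blk_compl h
  by_contra h4
  rcases (show F.card = 2 ∨ F.card = 3 by omega) with e | e
  · obtain ⟨a, b, hab, rfl⟩ := card_eq_two.1 e
    obtain ⟨a', b', hab', e'⟩ := card_eq_two.1 (hc.trans e)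
    obtain ⟨g, -, k1, k2⟩ := h.tr2 a (mem_univ _) b (mem_univ _) a' (mem_univ _) b' (mem_univ _)
      hab hab'
    refine blk_no h (g := g) fun x hx => ?_
    have : g • x ∈ univ \ ({a, b} : Finset Ω) := by
      rw [e']; rw [mem_insert, mem_singleton] at hx
      rcases hx with rfl | rfl <;> simp [k1, k2]
    exact (mem_sdiff.1 this).2
  · obtain ⟨a, b, c, hab, hac, hbc, rfl⟩ := card_eq_three.1 e
    obtain ⟨a', b', c', hab', hac', hbc', e'⟩ := card_eq_three.1 (hc.trans e)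
    obtain ⟨g, -, k1, k2, k3⟩ := h.tr3 a (mem_univ _) b (mem_univ _) c (mem_univ _) a' (mem_univ _)
      b' (mem_univ _) c' (mem_univ _) hab hac hbc hab' hac' hbc'
    refine blk_no h (g := g) fun x hx => ?_
    have : g • x ∈ univ \ ({a, b, c} : Finset Ω) := by
      rw [e']; simp only [mem_insert, mem_singleton] at hx
      rcases hx with rfl | rfl | rfl <;> simp [k1, k2, k3]
    exact (mem_sdiff.1 this).2

theorem blk_card4 {s : Finset Ω} (h : s.card = 4) :
    ∃ a b c d, a ≠ b ∧ a ≠ c ∧ a ≠ d ∧ b ≠ c ∧ b ≠ d ∧ c ≠ d ∧ s = {a, b, c, d} := by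
  obtain ⟨a, t, ha, rfl, ht⟩ := card_eq_succ.1 h
  obtain ⟨b, c, d, h1, h2, h3, rfl⟩ := card_eq_three.1 ht
  simp only [mem_insert, mem_singleton, not_or] at ha
  exact ⟨a, b, c, d, ha.1, ha.2.1, ha.2.2, h1, h2, h3, rfl⟩

theorem MC.five (h : MC K F) (h4 : Tr4 (⊤ : Subgroup G) (univ : Finset Ω)) : 5 ≤ F.card := by
  have h2 := h.four
  have hc := blk_compl h
  by_contra h5
  have e : F.card = 4 := by omega
  obtain ⟨a, b, c, d, k1, k2, k3, k4, k5, k6, rfl⟩ := blk_card4 e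
  obtain ⟨a', b', c', d', l1, l2, l3, l4, l5, l6, e'⟩ := blk_card4 (hc.trans e)
  obtain ⟨g, -, m1, m2, m3, m4⟩ := h4 a (mem_univ _) b (mem_univ _) c (mem_univ _) d (mem_univ _)
    a' (mem_univ _) b' (mem_univ _) c' (mem_univ _) d' (mem_univ _) k1 k2 k3 k4 k5 k6
    l1 l2 l3 l4 l5 l6
  refine blk_no h (g := g) fun x hx => ?_
  have : g • x ∈ univ \ ({a, b, c, d} : Finset Ω) := by
    rw [e']; simp only [mem_insert, mem_singleton] at hx
    rcases hx with rfl | rfl | rfl | rfl <;> simp [m1, m2, m3, m4]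
  exact (mem_sdiff.1 this).2

theorem MC.tr3N (h : MC K F) : Tr3 (MulAction.stabilizer G F) F := by
  intro a ha b hb c hc a' ha' b' hb' c' hc' h1 h2 h3 h1' h2' h3'
  obtain ⟨g, -, k1, k2, k3⟩ := h.tr3 a (mem_univ _) b (mem_univ _) c (mem_univ _) a' (mem_univ _)
    b' (mem_univ _) c' (mem_univ _) h1 h2 h3 h1' h2' h3'
  obtain ⟨w, hw, hf⟩ := h.witt' g
  exact ⟨w, hw, by rw [hf a ha (k1 ▸ ha'), k1], by rw [hf b hb (k2 ▸ hb'), k2],
    by rw [hf c hc (k3 ▸ hc'), k3]⟩

theorem MC.tr4N (h : MC K F) (h4 : Tr4 (⊤ : Subgroup G) (univ : Finset Ω)) :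
    Tr4 (MulAction.stabilizer G F) F := by
  intro a ha b hb c hc d hd a' ha' b' hb' c' hc' d' hd' k1 k2 k3 k4 k5 k6 l1 l2 l3 l4 l5 l6
  obtain ⟨g, -, m1, m2, m3, m4⟩ := h4 a (mem_univ _) b (mem_univ _) c (mem_univ _) d (mem_univ _)
    a' (mem_univ _) b' (mem_univ _) c' (mem_univ _) d' (mem_univ _) k1 k2 k3 k4 k5 k6
    l1 l2 l3 l4 l5 l6
  obtain ⟨w, hw, hf⟩ := h.witt' g
  exact ⟨w, hw, by rw [hf a ha (m1 ▸ ha'), m1], by rw [hf b hb (m2 ▸ hb'), m2],
    by rw [hf c hc (m3 ▸ hc'), m3], by rw [hf d hd (m4 ▸ hd'), m4]⟩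

/-- a set of at most three points lies in a set of three points -/
theorem blk_three {s t : Finset Ω} (hs : s.card ≤ 3) (hst : s ⊆ t) (ht : 3 ≤ t.card) :
    ∃ a ∈ t, ∃ b ∈ t, ∃ c ∈ t, a ≠ b ∧ a ≠ c ∧ b ≠ c ∧ s ⊆ {a, b, c} := by
  obtain ⟨u, h1, h2, h3⟩ := exists_subsuperset_card_eq hst hs ht
  obtain ⟨a, b, c, k1, k2, k3, rfl⟩ := card_eq_three.1 h3
  exact ⟨a, h2 (by simp), b, h2 (by simp), c, h2 (by simp), k1, k2, k3, h1⟩

/-- the orbits of `K` outside `F` have at least four points -/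
theorem MC.orb4 (h : MC K F) {y : Ω} (hy : y ∉ F) : 4 ≤ (orb K y).card := by
  by_contra h4
  have hF := h.four
  obtain ⟨a, -, b, -, c, -, k1, k2, k3, hs⟩ := blk_three (s := orb K y) (t := univ) (by omega)
    (subset_univ _) (by rw [card_univ, h.half]; omega)
  obtain ⟨a', ha', b', hb', c', hc', l1, l2, l3, -⟩ := blk_three (s := ∅) (t := F) (by simp)
    (empty_subset _) (by omega)
  obtain ⟨g, -, m1, m2, m3⟩ := h.tr3 a' (mem_univ _) b' (mem_univ _) c' (mem_univ _) a (mem_univ _)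
    b (mem_univ _) c (mem_univ _) l1 l2 l3 k1 k2 k3
  refine hy (h.l0 g (orb_inv y) (hs.trans fun z hz => ?_) (self_mem y))
  simp only [mem_insert, mem_singleton] at hz
  rcases hz with rfl | rfl | rfl
  · rw [← m1]; exact sm_mem_bl.2 ha'
  · rw [← m2]; exact sm_mem_bl.2 hb'
  · rw [← m3]; exact sm_mem_bl.2 hc'

theorem MC.small (h : MC K F) {g : G} (hg : g ≠ 1) : 4 ≤ mv g (univ : Finset Ω) := by
  by_contra h4
  have hF := h.four
  obtain ⟨x0, hx0⟩ : ∃ x : Ω, g • x ≠ x := by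
    by_contra hc; push Not at hc; exact hg (h.faith g hc)
  -- the support lies in `{x0, g x0, z0}`
  obtain ⟨z0, hz1, hz2, hz⟩ : ∃ z : Ω, x0 ≠ z ∧ g • x0 ≠ z ∧
      ∀ w : Ω, w ≠ x0 → w ≠ g • x0 → w ≠ z → g • w = w := by
    have hsub : ({x0, g • x0} : Finset Ω) ⊆ univ.filter fun x => g • x ≠ x := by
      intro w hw
      rw [mem_insert, mem_singleton] at hw
      rcases hw with rfl | rfl
      · exact mem_filter.2 ⟨mem_univ _, hx0⟩
      · exact mem_filter.2 ⟨mem_univ _, fun e => hx0 (MulAction.injective g e)⟩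
    obtain ⟨u, h1, -, h3⟩ := exists_subsuperset_card_eq
      (subset_univ (univ.filter fun x : Ω => g • x ≠ x)) (show _ ≤ 3 by unfold mv at h4; omega)
      (by rw [card_univ, h.half]; omega)
    have h5 : (u \ {x0, g • x0}).card = 1 := by
      rw [card_sdiff_of_subset (hsub.trans h1), h3, card_pair (Ne.symm hx0)]
    obtain ⟨z, hz⟩ := card_eq_one.1 h5
    have hz' : z ∈ u \ {x0, g • x0} := by rw [hz]; exact mem_singleton_self z
    simp only [mem_sdiff, mem_insert, mem_singleton, not_or] at hz'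
    refine ⟨z, Ne.symm hz'.2.1, Ne.symm hz'.2.2, fun w w1 w2 w3 => ?_⟩
    by_contra hw
    have : w ∈ u \ {x0, g • x0} := by
      simp only [mem_sdiff, mem_insert, mem_singleton, not_or]
      exact ⟨h1 (mem_filter.2 ⟨mem_univ _, hw⟩), w1, w2⟩
    rw [hz, mem_singleton] at this
    exact w3 this
  obtain ⟨s, -, hs⟩ := exists_min_image (univ : Finset G) (fun s => (F ∩ s • F).card) univ_nonempty
  obtain ⟨x, hx⟩ := h.meet s
  have hcU : (F ∪ s • F).card < (univ : Finset Ω).card := by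
    have := card_union_add_card_inter F (s • F)
    have h2 := card_pos.2 ⟨x, hx⟩
    rw [card_bl] at this
    rw [card_univ, h.half]; omega
  obtain ⟨y, -, hy⟩ := exists_mem_notMem_of_card_lt_card hcU
  have hcU2 : (insert y (s • F)).card < (univ : Finset Ω).card := by
    have := card_insert_le y (s • F)
    rw [card_bl] at this
    rw [card_univ, h.half]; omega
  obtain ⟨z, -, hzz⟩ := exists_mem_notMem_of_card_lt_card hcU2
  rw [mem_union, not_or] at hy
  rw [mem_insert, not_or] at hzz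
  rw [mem_inter] at hx
  obtain ⟨t, -, t1, t2, t3⟩ := h.tr3 x0 (mem_univ _) (g • x0) (mem_univ _) z0 (mem_univ _)
    x (mem_univ _) y (mem_univ _) z (mem_univ _) (Ne.symm hx0) hz1 hz2
    (fun e => hy.1 (e ▸ hx.1)) (fun e => hzz.2 (e ▸ hx.2)) (Ne.symm hzz.1)
  have hv : ∀ w ∈ s • F, w ≠ x → (t * g * t⁻¹) • w = w := by
    intro w hw hwx
    rw [mul_smul, mul_smul, hz (t⁻¹ • w), smul_inv_smul]
    · intro e; apply hwx; rw [← t1, ← e, smul_inv_smul]
    · intro e; apply hy.2; rw [← t2, ← e, smul_inv_smul]; exact hw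
    · intro e; apply hzz.2; rw [← t3, ← e, smul_inv_smul]; exact hw
  have hvx : (t * g * t⁻¹) • x = y := by
    rw [mul_smul, mul_smul, ← t1, inv_smul_smul, t2]
  have hlt : F ∩ (t * g * t⁻¹ * s) • F ⊆ (F ∩ s • F).erase x := by
    intro w hw
    rw [mem_inter, mul_smul] at hw
    obtain ⟨w', hw', rfl⟩ := mem_smul_finset.1 hw.2
    by_cases e : w' = x
    · rw [e, hvx] at hw; exact absurd hw.1 hy.1
    · rw [hv w' hw' e] at hw ⊢
      exact mem_erase.2 ⟨e, mem_inter.2 ⟨hw.1, hw'⟩⟩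
  have h1 := card_le_card hlt
  have h2 := hs (t * g * t⁻¹ * s) (mem_univ _)
  have h3 := card_erase_add_one (mem_inter.2 hx)
  omega

theorem MC.half_bl (h : MC K F) (a : Ω) :
    (orb (⊤ : Subgroup G) F).card = 2 * ((orb (⊤ : Subgroup G) F).filter (a ∈ ·)).card := by
  have h1 := bridge (⊤ : Subgroup G) F a
  have h2 : orb (⊤ : Subgroup G) a = univ :=
    eq_univ_of_forall fun y => mem_orb.2 (h.tr2.tr1 (mem_univ a) (mem_univ y))
  rw [h2, inter_univ, card_univ, h.half] at h1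
  have h3 := h.four
  apply Nat.eq_of_mul_eq_mul_right (show 0 < F.card by omega)
  rw [← h1]; ring

end Cfsg.Agent.PNF
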