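import Cfsg.Agent.PNF.BoA

/-! Bochert's bound for the minimal degree of a 4-transitive group. -/

set_option autoImplicit false
set_option linter.unusedSectionVars false

namespace Cfsg.Agent.PNF

open Classical Finset Cfsg.Agent.FPS Pointwise

variable {G : Type} [Group G] [Fintype G] {Ω : Type} [MulAction G Ω] {n : ℕ}

private def boQ (Z : Subgroup G) (C : Finset Ω) (c : ℕ) (a b a' b' : Ω) : Prop :=
      (Gm Z a b a' b').card = c * (C.card - 2) * (C.card - 3) ∧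
      (∀ x ∈ C, x ≠ a → x ≠ b → ∀ Y ⊆ (C.erase a').erase b',
        ((Gm Z a b a' b').filter fun g => g • x ∈ Y).card = c * (C.card - 3) * Y.card) ∧
      (∀ x ∈ C, ∀ x' ∈ C, x ≠ a → x ≠ b → x' ≠ a → x' ≠ b → x ≠ x' → ∀ R : Finset (Ω × Ω),
        (∀ y ∈ R, y.1 ∈ (C.erase a').erase b' ∧ y.2 ∈ (C.erase a').erase b' ∧ y.1 ≠ y.2) →
        ((Gm Z a b a' b').filter fun g => (g • x, g • x') ∈ R).card = c * R.card)

private def boBA (Z : Subgroup G) (C : Finset Ω) (c : ℕ) : Prop :=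
  ∀ a ∈ C, ∀ b ∈ C, ∀ a' ∈ C, ∀ b' ∈ C, a ≠ b → a' ≠ b' → boQ Z C c a b a' b'

private theorem bo_swap (Γ : Finset G) (C : Finset Ω) (P : G → Ω → Prop)
    [∀ g x, Decidable (P g x)] :
    ∑ g ∈ Γ, (C.filter fun x => P g x).card = ∑ x ∈ C, (Γ.filter fun g => P g x).card := by
  simp only [card_filter]; exact sum_comm

private theorem bo_sum2 {T : Finset Ω} {a b : Ω} (ha : a ∈ T) (hb : b ∈ T) (hab : a ≠ b)
    (f : Ω → ℕ) (k e : ℕ) (h : ∀ x ∈ T, x ≠ a → x ≠ b → f x + e ≤ k) :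
    ∑ x ∈ T, f x + (T.card - 2) * e ≤ f a + f b + (T.card - 2) * k := by
  have hb' : b ∈ T.erase a := mem_erase.2 ⟨hab.symm, hb⟩
  rw [← add_sum_erase T f ha, ← add_sum_erase _ f hb']
  have h1 : ((T.erase a).erase b).card = T.card - 2 := by
    rw [card_erase_of_mem hb', card_erase_of_mem ha]; omega
  have h2 := sum_le_card_nsmul ((T.erase a).erase b) (fun x => f x + e) k fun x hx => by
    simp only [mem_erase] at hx
    exact h x hx.2.2 hx.2.1 hx.1
  rw [sum_add_distrib, sum_const, smul_eq_mul, smul_eq_mul, h1] at h2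
  omega

private theorem bo_sum3 {T : Finset Ω} {a b d : Ω} (ha : a ∈ T) (hb : b ∈ T) (hd : d ∈ T)
    (hab : a ≠ b) (had : a ≠ d) (hbd : b ≠ d)
    (f : Ω → ℕ) (k : ℕ) (h : ∀ x ∈ T, x ≠ a → x ≠ b → x ≠ d → f x ≤ k) :
    ∑ x ∈ T, f x ≤ f a + f b + f d + (T.card - 3) * k := by
  rw [← add_sum_erase T f hd]
  have h1 := bo_sum2 (T := T.erase d) (mem_erase.2 ⟨had, ha⟩) (mem_erase.2 ⟨hbd, hb⟩) hab f k 0
    fun x hx h1 h2 => h x (mem_erase.1 hx).2 h1 h2 (mem_erase.1 hx).1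
  rw [card_erase_of_mem hd, show T.card - 1 - 2 = T.card - 3 by omega] at h1
  omega

/-- the configuration of the averaging argument -/
private structure BoC (Z : Subgroup G) (C T : Finset Ω) (c : ℕ) (u : G) (α b : Ω) : Prop where
  hC : Inv Z C
  ba : boBA Z C c
  hu : u ∈ Z
  hT : ∀ x, x ∈ T ↔ x ∈ C ∧ u • x ≠ x
  hα : α ∈ T
  hb : b ∈ C
  hb' : u • b = b

section
variable {Z : Subgroup G} {C T : Finset Ω} {c : ℕ} {u : G} {α b : Ω}

private theorem BoC.sub (h : BoC Z C T c u α b) : T ⊆ C := fun x hx => ((h.hT x).1 hx).1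

private theorem BoC.um (h : BoC Z C T c u α b) {x : Ω} (hx : x ∈ T) : u • x ∈ T := by
  rw [h.hT] at hx ⊢
  exact ⟨h.hC u h.hu x hx.1, fun e => hx.2 (MulAction.injective u e)⟩

private theorem BoC.uim (h : BoC Z C T c u α b) {x : Ω} (hx : x ∈ T) : u⁻¹ • x ∈ T := by
  rw [h.hT] at hx ⊢
  refine ⟨h.hC _ (Z.inv_mem h.hu) x hx.1, fun e => hx.2 ?_⟩
  rw [smul_inv_smul] at e
  conv_lhs => rw [e]
  rw [smul_inv_smul]

private theorem BoC.nb (h : BoC Z C T c u α b) {x : Ω} (hx : x ∈ T) : x ≠ b := by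
  rintro rfl
  exact ((h.hT _).1 hx).2 h.hb'

private theorem BoC.ne (h : BoC Z C T c u α b) {x : Ω} (hx : x ∈ T) : u • x ≠ x :=
  ((h.hT _).1 hx).2

private theorem BoC.g1 (h : BoC Z C T c u α b) : boQ Z C c α (u • α) α b :=
  h.ba α (h.sub h.hα) (u • α) (h.sub (h.um h.hα)) α (h.sub h.hα) b h.hb (h.ne h.hα).symm
    (h.nb h.hα)

private theorem BoC.g2 (h : BoC Z C T c u α b) : boQ Z C c α b α (u • α) :=
  h.ba α (h.sub h.hα) b h.hb α (h.sub h.hα) (u • α) (h.sub (h.um h.hα)) (h.nb h.hα)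
    (h.ne h.hα).symm

private theorem BoC.y1 (h : BoC Z C T c u α b) : T.erase α ⊆ (C.erase α).erase b := by
  intro y hy
  rw [mem_erase] at hy
  exact mem_erase.2 ⟨h.nb hy.2, mem_erase.2 ⟨hy.1, h.sub hy.2⟩⟩

private theorem BoC.y2 (h : BoC Z C T c u α b) : (C \ T).erase b ⊆ (C.erase α).erase b := by
  intro y hy
  rw [mem_erase, mem_sdiff] at hy
  exact mem_erase.2 ⟨hy.1, mem_erase.2 ⟨fun e => hy.2.2 (e ▸ h.hα), hy.2.1⟩⟩

private theorem BoC.c2 (h : BoC Z C T c u α b) : ((C \ T).erase b).card = C.card - T.card - 1 := by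
  rw [card_erase_of_mem (mem_sdiff.2 ⟨h.hb, fun e => h.nb e rfl⟩), card_sdiff_of_subset h.sub]

/-- `g • x` lies in `T \ α` -/
private theorem BoC.inT (h : BoC Z C T c u α b) {g : G} (hg : g ∈ Z) (hα : g • α = α) {x : Ω}
    (hx : x ∈ C) (hxa : x ≠ α) (hv : u • g • x ≠ g • x) : g • x ∈ T.erase α :=
  mem_erase.2 ⟨fun e => hxa (MulAction.injective g (e.trans hα.symm)),
    (h.hT _).2 ⟨h.hC g hg x hx, hv⟩⟩

private theorem bo_v (g u : G) (x : Ω) : (g⁻¹ * u * g) • x = x ↔ u • g • x = g • x := by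
  rw [mul_smul, mul_smul, inv_smul_eq_iff]

private theorem BoC.m3 (h : BoC Z C T c u α b) (e : ℕ)
    (he : e = 0 ∨ ((∀ x ∈ C, u • u • x = x) ∧ e = c * (T.card - 2))) :
    ∑ g ∈ Gm Z α (u • α) α b, (C.filter fun x => u • x ≠ x ∧ (g⁻¹ * u * g) • x ≠ x ∧
      u • (g⁻¹ * u * g) • x ≠ (g⁻¹ * u * g) • u • x).card + (T.card - 2) * e ≤
      c * (C.card - 2) * (C.card - 3) + (T.card - 2) * (c * (C.card - 3) * (T.card - 1)) := by
  have e1 : ∀ g : G, (C.filter fun x => u • x ≠ x ∧ (g⁻¹ * u * g) • x ≠ x ∧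
      u • (g⁻¹ * u * g) • x ≠ (g⁻¹ * u * g) • u • x) = T.filter fun x => (g⁻¹ * u * g) • x ≠ x ∧
      u • (g⁻¹ * u * g) • x ≠ (g⁻¹ * u * g) • u • x := fun g => by
    ext x; simp only [mem_filter, h.hT, and_assoc]
  simp only [e1]
  rw [bo_swap]
  refine (bo_sum2 h.hα (h.um h.hα) (h.ne h.hα).symm _ (c * (C.card - 3) * (T.card - 1)) e
    ?_).trans (Nat.add_le_add_right ?_ _)
  · intro x hx hxa hxb
    have k1 := h.g1.2.1 x (h.sub hx) hxa hxb _ h.y1
    rw [card_erase_of_mem h.hα] at k1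
    rw [← k1]
    have s1 : ((Gm Z α (u • α) α b).filter fun g => (g⁻¹ * u * g) • x ≠ x ∧
        u • (g⁻¹ * u * g) • x ≠ (g⁻¹ * u * g) • u • x) ⊆
        (Gm Z α (u • α) α b).filter fun g => g • x ∈ T.erase α := by
      intro g hg
      rw [mem_filter] at hg ⊢
      have hg' := mem_Gm.1 hg.1
      exact ⟨hg.1, h.inT hg'.1 hg'.2.1 (h.sub hx) hxa (fun e => hg.2.1 ((bo_v g u x).2 e))⟩
    rcases he with rfl | ⟨h2, rfl⟩
    · exact card_le_card s1
    · have hβ : u • α ∈ T.erase α := mem_erase.2 ⟨h.ne h.hα, h.um h.hα⟩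
      have k2 := h.g1.2.2 x (h.sub hx) (u • x) (h.sub (h.um hx)) hxa hxb
        (fun e => hxb (by rw [← e, h2 x (h.sub hx)])) (fun e => hxa (MulAction.injective u e))
        (h.ne hx).symm (((T.erase α).erase (u • α)).image fun y => (y, u • y)) (by
          intro y hy
          obtain ⟨z, hz, rfl⟩ := mem_image.1 hy
          simp only [mem_erase] at hz
          exact ⟨h.y1 (mem_erase.2 hz.2), h.y1 (mem_erase.2
            ⟨fun e => hz.1 (by rw [← e, h2 z (h.sub hz.2.2)]), h.um hz.2.2⟩), (h.ne hz.2.2).symm⟩)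
      rw [card_image_of_injective _ (fun y z e => congrArg Prod.fst e), card_erase_of_mem hβ,
        card_erase_of_mem h.hα, show T.card - 1 - 1 = T.card - 2 by omega] at k2
      rw [← k2, ← card_union_of_disjoint]
      · refine card_le_card (union_subset s1 fun g hg => ?_)
        rw [mem_filter] at hg ⊢
        obtain ⟨z, hz, e⟩ := mem_image.1 hg.2
        refine ⟨hg.1, ?_⟩
        rw [← show z = g • x from congrArg Prod.fst e]
        exact (mem_erase.1 hz).2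
      · rw [disjoint_left]
        intro g hg hg'
        rw [mem_filter] at hg hg'
        obtain ⟨z, hz, e⟩ := mem_image.1 hg'.2
        have e1 : z = g • x := congrArg Prod.fst e
        have e2 : u • z = g • u • x := congrArg Prod.snd e
        rw [e1] at e2
        apply hg.2.2
        have hgx := h.hC g (mem_Gm.1 hg.1).1 x (h.sub hx)
        rw [mul_smul, mul_smul, e2, inv_smul_smul, h2 x (h.sub hx), mul_smul, mul_smul, ← e2,
          h2 _ hgx, inv_smul_smul]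
  · have z1 : ((Gm Z α (u • α) α b).filter fun g => (g⁻¹ * u * g) • u • α ≠ u • α ∧
        u • (g⁻¹ * u * g) • u • α ≠ (g⁻¹ * u * g) • u • u • α).card = 0 := by
      rw [card_eq_zero, filter_eq_empty_iff]
      intro g hg hh
      apply hh.1
      rw [bo_v, (mem_Gm.1 hg).2.2, h.hb']
    rw [z1, ← h.g1.1]
    exact card_filter_le _ _

private theorem BoC.m1g (h : BoC Z C T c u α b) {x : Ω} (hx : x ∈ T) (hxa : x ≠ α)
    (hxb : x ≠ u • α) (hxc : u • x ≠ α) :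
    ((Gm Z α (u • α) α b).filter fun g => (g⁻¹ * u * g) • x = x ∧
      (g⁻¹ * u * g) • u • x ≠ u • x).card ≤ c * ((C.card - T.card - 1) * (T.card - 1)) := by
  have k2 := h.g1.2.2 x (h.sub hx) (u • x) (h.sub (h.um hx)) hxa hxb hxc
    (fun e => hxa (MulAction.injective u e)) (h.ne hx).symm (((C \ T).erase b) ×ˢ (T.erase α)) (by
      intro y hy
      rw [mem_product] at hy
      refine ⟨h.y2 hy.1, h.y1 hy.2, fun e => ?_⟩
      exact (mem_sdiff.1 (mem_erase.1 hy.1).2).2 (e ▸ (mem_erase.1 hy.2).2))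
  rw [card_product, h.c2, card_erase_of_mem h.hα] at k2
  rw [← k2]
  refine card_le_card fun g hg => ?_
  rw [mem_filter] at hg ⊢
  have hg' := mem_Gm.1 hg.1
  refine ⟨hg.1, mem_product.2 ⟨mem_erase.2 ⟨fun e => hxb (MulAction.injective g
    (e.trans hg'.2.2.symm)), mem_sdiff.2 ⟨h.hC g hg'.1 x (h.sub hx),
      fun e => h.ne e ((bo_v g u x).1 hg.2.1)⟩⟩, ?_⟩⟩
  exact h.inT hg'.1 hg'.2.1 (h.sub (h.um hx)) hxc fun e => hg.2.2 ((bo_v g u _).2 e)

private theorem BoC.m1z (h : BoC Z C T c u α b) :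
    ((Gm Z α (u • α) α b).filter fun g => (g⁻¹ * u * g) • α = α ∧
      (g⁻¹ * u * g) • u • α ≠ u • α).card = 0 := by
  rw [card_eq_zero, filter_eq_empty_iff]
  intro g hg hh
  have := (bo_v g u α).1 hh.1
  rw [(mem_Gm.1 hg).2.1] at this
  exact h.ne h.hα this

private theorem BoC.m1e (h : BoC Z C T c u α b) :
    ∑ g ∈ Gm Z α (u • α) α b, (C.filter fun x => u • x ≠ x ∧ (g⁻¹ * u * g) • x = x ∧
      (g⁻¹ * u * g) • u • x ≠ u • x).card = ∑ x ∈ T, ((Gm Z α (u • α) α b).filter fun g =>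
      (g⁻¹ * u * g) • x = x ∧ (g⁻¹ * u * g) • u • x ≠ u • x).card := by
  have e1 : ∀ g : G, (C.filter fun x => u • x ≠ x ∧ (g⁻¹ * u * g) • x = x ∧
      (g⁻¹ * u * g) • u • x ≠ u • x) = T.filter fun x => (g⁻¹ * u * g) • x = x ∧
      (g⁻¹ * u * g) • u • x ≠ u • x := fun g => by
    ext x; simp only [mem_filter, h.hT, and_assoc]
  simp only [e1]
  rw [bo_swap]

private theorem BoC.m1I (h : BoC Z C T c u α b) (h2 : ∀ x ∈ C, u • u • x = x) :
    ∑ g ∈ Gm Z α (u • α) α b, (C.filter fun x => u • x ≠ x ∧ (g⁻¹ * u * g) • x = x ∧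
      (g⁻¹ * u * g) • u • x ≠ u • x).card ≤
      c * (C.card - 2) * (C.card - 3) +
        (T.card - 2) * (c * ((C.card - T.card - 1) * (T.card - 1))) := by
  rw [h.m1e]
  refine le_trans (Nat.le_add_right _ _) ((bo_sum2 h.hα (h.um h.hα) (h.ne h.hα).symm _
    (c * ((C.card - T.card - 1) * (T.card - 1))) 0 ?_).trans (Nat.add_le_add_right ?_ _))
  · intro x hx hxa hxb
    exact h.m1g hx hxa hxb fun e => hxb (by rw [← e, h2 x (h.sub hx)])
  · rw [h.m1z, zero_add, ← h.g1.1]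
    exact card_filter_le _ _

private theorem BoC.m1O (h : BoC Z C T c u α b) (h2 : u • u • α ≠ α) :
    ∑ g ∈ Gm Z α (u • α) α b, (C.filter fun x => u • x ≠ x ∧ (g⁻¹ * u * g) • x = x ∧
      (g⁻¹ * u * g) • u • x ≠ u • x).card ≤
      c * (C.card - 3) * (T.card - 1) + c * (C.card - 3) * (C.card - T.card - 1) +
        (T.card - 3) * (c * ((C.card - T.card - 1) * (T.card - 1))) := by
  rw [h.m1e]
  have n1 : α ≠ u⁻¹ • α := fun e => h.ne h.hα (by conv_lhs => rw [e]; rw [smul_inv_smul])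
  have n2 : u • α ≠ u⁻¹ • α := fun e => h2 (by rw [e, smul_inv_smul])
  refine (bo_sum3 h.hα (h.um h.hα) (h.uim h.hα) (h.ne h.hα).symm n1 n2 _
    (c * ((C.card - T.card - 1) * (T.card - 1))) ?_).trans (Nat.add_le_add_right ?_ _)
  · intro x hx hxa hxb hxc
    exact h.m1g hx hxa hxb fun e => hxc (by rw [← e, inv_smul_smul])
  · rw [h.m1z, zero_add]
    refine Nat.add_le_add ?_ ?_
    · have k1 := h.g1.2.1 (u • u • α) (h.sub (h.um (h.um h.hα))) h2 (h.ne (h.um h.hα)) _ h.y1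
      rw [card_erase_of_mem h.hα] at k1
      rw [← k1]
      refine card_le_card fun g hg => ?_
      rw [mem_filter] at hg ⊢
      have hg' := mem_Gm.1 hg.1
      exact ⟨hg.1, h.inT hg'.1 hg'.2.1 (h.sub (h.um (h.um h.hα))) h2
        fun e => hg.2.2 ((bo_v g u _).2 e)⟩
    · have k1 := h.g1.2.1 (u⁻¹ • α) (h.sub (h.uim h.hα)) n1.symm n2.symm _ h.y2
      rw [h.c2] at k1
      rw [← k1]
      refine card_le_card fun g hg => ?_
      rw [mem_filter] at hg ⊢
      have hg' := mem_Gm.1 hg.1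
      exact ⟨hg.1, mem_erase.2 ⟨fun e => n2.symm (MulAction.injective g
        (e.trans hg'.2.2.symm)), mem_sdiff.2 ⟨h.hC g hg'.1 _ (h.sub (h.uim h.hα)),
          fun e => h.ne e ((bo_v g u _).1 hg.2.1)⟩⟩⟩

private theorem BoC.m2 (h : BoC Z C T c u α b) :
    ∑ g ∈ Gm Z α (u • α) α b, (C.filter fun x => u • x = x ∧ (g⁻¹ * u * g) • x ≠ x ∧
      u • (g⁻¹ * u * g) • x ≠ (g⁻¹ * u * g) • x).card ≤
      c * (C.card - 3) * (C.card - T.card) +
        (T.card - 2) * (c * ((C.card - T.card) * (T.card - 2))) := by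
  have s1 : ∑ g ∈ Gm Z α (u • α) α b, (C.filter fun x => u • x = x ∧ (g⁻¹ * u * g) • x ≠ x ∧
      u • (g⁻¹ * u * g) • x ≠ (g⁻¹ * u * g) • x).card ≤ ∑ g ∈ Gm Z α (u • α) α b,
      (T.filter fun y => u • g⁻¹ • y = g⁻¹ • y ∧ u • g⁻¹ • u • y ≠ g⁻¹ • u • y).card := by
    refine sum_le_sum fun g hg => card_le_card_of_injOn (g • ·) (fun x hx => ?_)
      (MulAction.injective g).injOn
    rw [mem_coe, mem_filter] at hx ⊢
    refine ⟨(h.hT _).2 ⟨h.hC g (mem_Gm.1 hg).1 x hx.1, fun e => hx.2.2.1 ((bo_v g u x).2 e)⟩,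
      by simpa using hx.2.1, ?_⟩
    have := hx.2.2.2
    rwa [mul_smul, mul_smul] at this
  have s2 : ∑ g ∈ Gm Z α (u • α) α b,
      (T.filter fun y => u • g⁻¹ • y = g⁻¹ • y ∧ u • g⁻¹ • u • y ≠ g⁻¹ • u • y).card =
      ∑ g ∈ Gm Z α b α (u • α),
      (T.filter fun y => u • g • y = g • y ∧ u • g • u • y ≠ g • u • y).card := by
    refine sum_nbij' (·⁻¹) (·⁻¹) (fun g hg => ?_) (fun g hg => ?_) (fun g _ => inv_inv g)
      (fun g _ => inv_inv g) fun g _ => rfl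
    all_goals
      rw [mem_Gm] at hg ⊢
      exact ⟨Z.inv_mem hg.1, by rw [inv_smul_eq_iff, hg.2.1], by rw [inv_smul_eq_iff, hg.2.2]⟩
  replace s1 := s1.trans_eq (s2.trans (bo_swap _ _ _))
  have n1 : α ≠ u⁻¹ • α := fun e => h.ne h.hα (by conv_lhs => rw [e]; rw [smul_inv_smul])
  have y3 : C \ T ⊆ (C.erase α).erase (u • α) := by
    intro y hy
    rw [mem_sdiff] at hy
    exact mem_erase.2 ⟨fun e => hy.2 (e ▸ h.um h.hα), mem_erase.2 ⟨fun e => hy.2 (e ▸ h.hα), hy.1⟩⟩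
  refine s1.trans (le_trans (Nat.le_add_right _ _) ((bo_sum2 h.hα (h.uim h.hα) n1 _
    (c * ((C.card - T.card) * (T.card - 2))) 0 ?_).trans (Nat.add_le_add_right ?_ _)))
  · intro x hx hxa hxb
    have hxc : u • x ≠ α := fun e => hxb (by rw [← e, inv_smul_smul])
    have hβ : u • α ∈ T.erase α := mem_erase.2 ⟨h.ne h.hα, h.um h.hα⟩
    have k2 := h.g2.2.2 x (h.sub hx) (u • x) (h.sub (h.um hx)) hxa (h.nb hx) hxc
      (h.nb (h.um hx)) (h.ne hx).symm ((C \ T) ×ˢ ((T.erase α).erase (u • α))) (by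
        intro y hy
        rw [mem_product] at hy
        refine ⟨y3 hy.1, erase_subset_erase _ (erase_subset_erase _ h.sub) hy.2, fun e => ?_⟩
        exact (mem_sdiff.1 hy.1).2 (e ▸ (mem_erase.1 (mem_erase.1 hy.2).2).2))
    rw [card_product, card_sdiff_of_subset h.sub, card_erase_of_mem hβ, card_erase_of_mem h.hα,
      show T.card - 1 - 1 = T.card - 2 by omega] at k2
    rw [← k2, add_zero]
    refine card_le_card fun g hg => ?_
    rw [mem_filter] at hg ⊢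
    have hg' := mem_Gm.1 hg.1
    refine ⟨hg.1, mem_product.2 ⟨mem_sdiff.2 ⟨h.hC g hg'.1 x (h.sub hx),
      fun e => h.ne e hg.2.1⟩, mem_erase.2 ⟨fun e => h.nb (h.um hx) (MulAction.injective g
        (e.trans hg'.2.2.symm)), h.inT hg'.1 hg'.2.1 (h.sub (h.um hx)) hxc hg.2.2⟩⟩⟩
  · have z1 : ((Gm Z α b α (u • α)).filter fun g =>
        u • g • α = g • α ∧ u • g • u • α ≠ g • u • α).card = 0 := by
      rw [card_eq_zero, filter_eq_empty_iff]
      intro g hg hh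
      have := hh.1
      rw [(mem_Gm.1 hg).2.1] at this
      exact h.ne h.hα this
    rw [z1, zero_add]
    have k1 := h.g2.2.1 (u⁻¹ • α) (h.sub (h.uim h.hα)) n1.symm (h.nb (h.uim h.hα)) _ y3
    rw [card_sdiff_of_subset h.sub] at k1
    rw [← k1]
    refine card_le_card fun g hg => ?_
    rw [mem_filter] at hg ⊢
    exact ⟨hg.1, mem_sdiff.2 ⟨h.hC g (mem_Gm.1 hg.1).1 _ (h.sub (h.uim h.hα)),
      fun e => h.ne e hg.2.1⟩⟩

private theorem BoC.low (h : BoC Z C T c u α b) {m : ℕ}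
    (hmin : ∀ g ∈ Z, mv g C ≠ 0 → m ≤ mv g C) :
    c * (C.card - 2) * (C.card - 3) * m ≤
    ∑ g ∈ Gm Z α (u • α) α b, (C.filter fun x => u • x ≠ x ∧ (g⁻¹ * u * g) • x = x ∧
      (g⁻¹ * u * g) • u • x ≠ u • x).card +
    ∑ g ∈ Gm Z α (u • α) α b, (C.filter fun x => u • x = x ∧ (g⁻¹ * u * g) • x ≠ x ∧
      u • (g⁻¹ * u * g) • x ≠ (g⁻¹ * u * g) • x).card +
    ∑ g ∈ Gm Z α (u • α) α b, (C.filter fun x => u • x ≠ x ∧ (g⁻¹ * u * g) • x ≠ x ∧
      u • (g⁻¹ * u * g) • x ≠ (g⁻¹ * u * g) • u • x).card := by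
  rw [← sum_add_distrib, ← sum_add_distrib, ← h.g1.1, ← smul_eq_mul]
  refine card_nsmul_le_sum _ _ _ fun g hg => le_trans (hmin _ ?_ ?_) (boB u (g⁻¹ * u * g) C)
  · have hg' := (mem_Gm.1 hg).1
    have hv := Z.mul_mem (Z.mul_mem (Z.inv_mem hg') h.hu) hg'
    exact Z.mul_mem (Z.mul_mem (Z.mul_mem (Z.inv_mem h.hu) (Z.inv_mem hv)) h.hu) hv
  · have hg' := (mem_Gm.1 hg).2
    refine card_ne_zero.2 ⟨α, mem_filter.2 ⟨h.sub h.hα, fun e => h.ne h.hα ?_⟩⟩
    rw [mul_smul, mul_smul, mul_smul, inv_smul_eq_iff, inv_smul_eq_iff,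
      (bo_v g u (u • α)).2 (by rw [hg'.2, h.hb'])] at e
    have := (bo_v g u α).1 (MulAction.injective u e)
    rwa [hg'.1] at this

end

/-- Bochert's bound for the minimal degree of a 4-transitive group -/
theorem bochert {Z : Subgroup G} {C : Finset Ω} (hC : Inv Z C) (h4 : Tr4 Z C) {m : ℕ} (hm : 4 ≤ m)
    (hmin : ∀ g ∈ Z, mv g C ≠ 0 → m ≤ mv g C) {u : G} (hu : u ∈ Z) (hum : mv u C = m) :
    C.card ≤ 2 * m + 3 := by
  by_contra hn
  obtain ⟨c, hc, hba⟩ := boA hC h4 (by omega)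
  set T := C.filter fun x => u • x ≠ x with hT
  have hTm : T.card = m := hum
  obtain ⟨b, hb, hbT⟩ := exists_mem_notMem_of_card_lt_card (s := T) (t := C) (by omega)
  have hb' : u • b = b := by
    by_contra e
    exact hbT (mem_filter.2 ⟨hb, e⟩)
  obtain ⟨t, ht⟩ : ∃ t, C.card = 2 * m + 4 + t := ⟨C.card - (2 * m + 4), by omega⟩
  by_cases h2 : ∀ x ∈ C, u • u • x = x
  · by_cases h5 : m ≤ 5
    · obtain ⟨g, hg, h0, h3⟩ := boC hC h4 hu h2 (by omega) (by omega) (by omega)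
      have := hmin g hg h0
      omega
    · obtain ⟨α, hα⟩ : T.Nonempty := card_pos.1 (by omega)
      have h : BoC Z C T c u α b := ⟨hC, hba, hu, fun x => mem_filter, hα, hb, hb'⟩
      have k0 := h.low hmin
      have k1 := h.m1I h2
      have k2 := h.m2
      have k3 := h.m3 _ (Or.inr ⟨h2, rfl⟩)
      obtain ⟨s, rfl⟩ : ∃ s, m = s + 6 := ⟨m - 6, by omega⟩
      rw [hTm, ht] at k1 k2 k3
      rw [ht] at k0
      rw [show 2 * (s + 6) + 4 + t - 2 = 2 * s + t + 14 by omega,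
        show 2 * (s + 6) + 4 + t - 3 = 2 * s + t + 13 by omega] at k0 k1 k3
      rw [show 2 * (s + 6) + 4 + t - 3 = 2 * s + t + 13 by omega,
        show 2 * (s + 6) + 4 + t - (s + 6) = s + t + 10 by omega] at k2
      rw [show 2 * (s + 6) + 4 + t - (s + 6) - 1 = s + t + 9 by omega] at k1
      rw [show s + 6 - 2 = s + 4 by omega] at k1 k2 k3
      rw [show s + 6 - 1 = s + 5 by omega] at k1 k3
      have key : c * ((2 * s + t + 14) * (2 * s + t + 13) * (s + 6) + (s + 4) * (s + 4)) ≤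
          c * (2 * ((2 * s + t + 14) * (2 * s + t + 13)) + (s + 4) * ((s + t + 9) * (s + 5)) +
            (2 * s + t + 13) * (s + t + 10) + (s + 4) * ((s + t + 10) * (s + 4)) +
            (s + 4) * ((2 * s + t + 13) * (s + 5))) := by
        linarith
      have := Nat.le_of_mul_le_mul_left key hc
      nlinarith [Nat.zero_le (s * t), Nat.zero_le (s * s), Nat.zero_le (t * t),
        Nat.zero_le (s * s * t), Nat.zero_le (s * t * t)]
  · push Not at h2
    obtain ⟨α, hαC, hα2⟩ := h2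
    have hα : α ∈ T := mem_filter.2 ⟨hαC, fun e => hα2 (by rw [e, e])⟩
    have h : BoC Z C T c u α b := ⟨hC, hba, hu, fun x => mem_filter, hα, hb, hb'⟩
    have k0 := h.low hmin
    have k1 := h.m1O hα2
    have k2 := h.m2
    have k3 := h.m3 _ (Or.inl rfl)
    obtain ⟨s, rfl⟩ : ∃ s, m = s + 4 := ⟨m - 4, by omega⟩
    rw [hTm, ht] at k1 k2 k3
    rw [ht] at k0
    rw [show 2 * (s + 4) + 4 + t - 2 = 2 * s + t + 10 by omega] at k0 k3
    rw [show 2 * (s + 4) + 4 + t - 3 = 2 * s + t + 9 by omega] at k0 k1 k2 k3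
    rw [show 2 * (s + 4) + 4 + t - (s + 4) - 1 = s + t + 7 by omega] at k1
    rw [show 2 * (s + 4) + 4 + t - (s + 4) = s + t + 8 by omega] at k2
    rw [show s + 4 - 2 = s + 2 by omega] at k2 k3
    rw [show s + 4 - 1 = s + 3 by omega] at k1 k3
    rw [show s + 4 - 3 = s + 1 by omega] at k1
    have key : c * ((2 * s + t + 10) * (2 * s + t + 9) * (s + 4)) ≤
        c * ((2 * s + t + 9) * (s + 3) + (2 * s + t + 9) * (s + t + 7) +
          (s + 1) * ((s + t + 7) * (s + 3)) + (2 * s + t + 9) * (s + t + 8) +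
          (s + 2) * ((s + t + 8) * (s + 2)) + (2 * s + t + 10) * (2 * s + t + 9) +
          (s + 2) * ((2 * s + t + 9) * (s + 3))) := by
      linarith
    have := Nat.le_of_mul_le_mul_left key hc
    nlinarith [Nat.zero_le (s * t), Nat.zero_le (s * s), Nat.zero_le (t * t),
      Nat.zero_le (s * s * t), Nat.zero_le (s * t * t)]

end Cfsg.Agent.PNF
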