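import Cfsg.Agent.PNF.Defs

set_option autoImplicit false
set_option linter.unusedSectionVars false

namespace Cfsg.Agent.PNF

open Classical Finset Cfsg.Agent.FPS Pointwise

variable {G : Type} [Group G] [Fintype G] {Ω : Type} [MulAction G Ω] {n : ℕ}

theorem boA_new {C : Finset Ω} (h : 4 ≤ C.card) (x y z : Ω) : ∃ d ∈ C, d ≠ x ∧ d ≠ y ∧ d ≠ z := by
  have : ({x, y, z} : Finset Ω).card < C.card := lt_of_le_of_lt card_le_three (by omega)
  obtain ⟨d, hd, hn⟩ := exists_mem_notMem_of_card_lt_card this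
  simp only [mem_insert, mem_singleton, not_or] at hn
  exact ⟨d, hd, hn⟩

theorem boA_mem {Z : Subgroup G} {C : Finset Ω} (hC : Inv Z C) {a b a' b' x : Ω} {g : G}
    (hg : g ∈ Gm Z a b a' b') (hx : x ∈ C) (h1 : x ≠ a) (h2 : x ≠ b) : g • x ∈ (C.erase a').erase b' := by
  obtain ⟨h3, rfl, rfl⟩ := mem_Gm.1 hg
  exact mem_erase.2 ⟨(smul_left_cancel_iff g).not.2 h2,
    mem_erase.2 ⟨(smul_left_cancel_iff g).not.2 h1, hC g h3 x hx⟩⟩

theorem boA_tr {Z : Subgroup G} {s t : G} (hs : s ∈ Z) (ht : t ∈ Z) (a b c d a' b' c' d' : Ω) :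
    ((Gm Z a b (s • a') (s • b')).filter fun g => g • c = s • c' ∧ g • d = s • d').card =
      ((Gm Z (t • a) (t • b) a' b').filter fun g => g • t • c = c' ∧ g • t • d = d').card := by
  refine card_nbij' (fun g => s⁻¹ * g * t⁻¹) (fun g => s * g * t) (fun g hg => ?_) (fun g hg => ?_)
    (fun g _ => by group) (fun g _ => by group)
  · simp only [coe_filter, mem_Gm, Set.mem_setOf_eq] at hg ⊢
    obtain ⟨⟨h0, h1, h2⟩, h3, h4⟩ := hg
    simp only [mul_smul, inv_smul_smul, h1, h2, h3, h4, and_self, and_true]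
    exact mul_mem (mul_mem (inv_mem hs) h0) (inv_mem ht)
  · simp only [coe_filter, mem_Gm, Set.mem_setOf_eq] at hg ⊢
    obtain ⟨⟨h0, h1, h2⟩, h3, h4⟩ := hg
    simp only [mul_smul, h1, h2, h3, h4, and_self, and_true]
    exact mul_mem (mul_mem hs h0) ht

/-- counting in a 4-transitive group -/
theorem boA {Z : Subgroup G} {C : Finset Ω} (hC : Inv Z C) (h4 : Tr4 Z C) (h : 4 ≤ C.card) :
    ∃ c : ℕ, 0 < c ∧ ∀ a ∈ C, ∀ b ∈ C, ∀ a' ∈ C, ∀ b' ∈ C, a ≠ b → a' ≠ b' →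
      (Gm Z a b a' b').card = c * (C.card - 2) * (C.card - 3) ∧
      (∀ x ∈ C, x ≠ a → x ≠ b → ∀ Y ⊆ (C.erase a').erase b',
        ((Gm Z a b a' b').filter fun g => g • x ∈ Y).card = c * (C.card - 3) * Y.card) ∧
      (∀ x ∈ C, ∀ x' ∈ C, x ≠ a → x ≠ b → x' ≠ a → x' ≠ b → x ≠ x' → ∀ R : Finset (Ω × Ω),
        (∀ y ∈ R, y.1 ∈ (C.erase a').erase b' ∧ y.2 ∈ (C.erase a').erase b' ∧ y.1 ≠ y.2) →
        ((Gm Z a b a' b').filter fun g => (g • x, g • x') ∈ R).card = c * R.card) := by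
  obtain ⟨p, hp⟩ := card_pos.1 (show 0 < C.card by omega)
  obtain ⟨q, hq, e1, -, -⟩ := boA_new h p p p
  obtain ⟨r, hr, e2, e3, -⟩ := boA_new h p q q
  obtain ⟨s, hs, e4, e5, e6⟩ := boA_new h p q r
  refine ⟨((Gm Z p q p q).filter fun g => g • r = r ∧ g • s = s).card,
    card_pos.2 ⟨1, by simp [mem_Gm]⟩, fun a ha b hb a' ha' b' hb' hab hab' => ?_⟩
  generalize hc : ((Gm Z p q p q).filter fun g => g • r = r ∧ g • s = s).card = c
  have hD : ((C.erase a').erase b').card = C.card - 2 := by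
    rw [card_erase_of_mem (mem_erase.2 ⟨hab'.symm, hb'⟩), card_erase_of_mem ha']; omega
  have k3 : ∀ x ∈ C, ∀ x' ∈ C, x ≠ a → x ≠ b → x' ≠ a → x' ≠ b → x ≠ x' → ∀ R : Finset (Ω × Ω),
      (∀ y ∈ R, y.1 ∈ (C.erase a').erase b' ∧ y.2 ∈ (C.erase a').erase b' ∧ y.1 ≠ y.2) →
      ((Gm Z a b a' b').filter fun g => (g • x, g • x') ∈ R).card = c * R.card := by
    intro x hx x' hx' h1 h2 h3 h5 h6 R hR
    rw [card_eq_sum_card_fiberwise (f := fun g : G => (g • x, g • x')) (t := R)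
      (s := (Gm Z a b a' b').filter fun g => (g • x, g • x') ∈ R)
      (fun g hg => (mem_filter.1 hg).2), mul_comm, ← smul_eq_mul, ← sum_const]
    refine sum_congr rfl fun ⟨y, y'⟩ hy => ?_
    obtain ⟨f1, f2, f3⟩ := hR _ hy
    simp only [mem_erase] at f1 f2
    obtain ⟨u, hu, rfl, rfl, rfl, rfl⟩ := h4 p hp q hq r hr s hs a' ha' b' hb' y f1.2.2 y' f2.2.2 e1.symm e2.symm
      e4.symm e3.symm e5.symm e6.symm hab' f1.2.1.symm f2.2.1.symm f1.1.symm f2.1.symm f3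
    obtain ⟨t, ht, t1, t2, t3, t4⟩ := h4 a ha b hb x hx x' hx' p hp q hq r hr s hs hab h1.symm h3.symm h2.symm
      h5.symm h6 e1.symm e2.symm e4.symm e3.symm e5.symm e6.symm
    have := boA_tr hu ht a b x x' p q r s
    rw [t1, t2, t3, t4, hc] at this
    rw [← this, filter_filter]
    refine congrArg card (filter_congr fun g _ => ?_)
    rw [Prod.mk.injEq]
    exact ⟨fun h => h.2, fun h => ⟨by rw [h.1, h.2]; exact hy, h⟩⟩
  have k2 : ∀ x ∈ C, x ≠ a → x ≠ b → ∀ Y ⊆ (C.erase a').erase b',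
      ((Gm Z a b a' b').filter fun g => g • x ∈ Y).card = c * (C.card - 3) * Y.card := by
    intro x hx h1 h2 Y hY
    obtain ⟨x', hx', f1, f2, f3⟩ := boA_new h a b x
    let R := (Y.sigma fun y => ((C.erase a').erase b').erase y).map (Equiv.sigmaEquivProd Ω Ω).toEmbedding
    have hR : ∀ y y', (y, y') ∈ R ↔ y ∈ Y ∧ y' ≠ y ∧ y' ∈ (C.erase a').erase b' := fun y y' => by
      rw [mem_map_equiv, mem_sigma, mem_erase]; rfl
    have := k3 x hx x' hx' h1 h2 f1 f2 f3.symm R fun ⟨y, y'⟩ hy =>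
      ⟨hY ((hR _ _).1 hy).1, ((hR _ _).1 hy).2.2, ((hR _ _).1 hy).2.1.symm⟩
    rw [card_map, card_sigma, sum_congr rfl (g := fun _ => C.card - 3) (fun y hy => by
      rw [card_erase_of_mem (hY hy), hD]; omega), sum_const, smul_eq_mul] at this
    rw [mul_assoc, mul_comm _ Y.card, ← this]
    refine congrArg card (filter_congr fun g hg => ?_)
    rw [hR]
    exact ⟨fun h => ⟨h, (smul_left_cancel_iff g).not.2 f3, boA_mem hC hg hx' f1 f2⟩, fun h => h.1⟩
  refine ⟨?_, k2, k3⟩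
  obtain ⟨x, hx, f1, f2, -⟩ := boA_new h a b b
  have := k2 x hx f1 f2 _ subset_rfl
  rw [filter_true_of_mem fun g hg => boA_mem hC hg hx f1 f2, hD] at this
  rw [this, mul_right_comm]

/-- the points moved by a commutator -/
theorem boB (u v : G) (C : Finset Ω) : mv (u⁻¹ * v⁻¹ * u * v) C ≤
    (C.filter fun x => u • x ≠ x ∧ v • x = x ∧ v • u • x ≠ u • x).card +
    (C.filter fun x => u • x = x ∧ v • x ≠ x ∧ u • v • x ≠ v • x).card +
    (C.filter fun x => u • x ≠ x ∧ v • x ≠ x ∧ u • v • x ≠ v • u • x).card := by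
  refine (card_le_card ?_).trans ((card_union_le _ _).trans (Nat.add_le_add_right (card_union_le _ _) _))
  intro x hx
  obtain ⟨h1, h2⟩ := mem_filter.1 hx
  have h3 : u • v • x ≠ v • u • x := fun e => h2 (by
    rw [mul_smul, mul_smul, mul_smul, e, inv_smul_smul, inv_smul_smul])
  simp only [mem_union, mem_filter]
  by_cases hu : u • x = x <;> by_cases hv : v • x = x
  · exact absurd (by rw [hu, hv, hu]) h3
  · exact Or.inl (Or.inr ⟨h1, hu, hv, by rwa [hu] at h3⟩)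
  · exact Or.inl (Or.inl ⟨h1, hu, hv, by rw [hv] at h3; exact h3.symm⟩)
  · exact Or.inr ⟨h1, hu, hv, h3⟩

/-- involutions of degree four -/
theorem boC {Z : Subgroup G} {C : Finset Ω} (hC : Inv Z C) (h4 : Tr4 Z C) {u : G} (hu : u ∈ Z)
    (h2 : ∀ x ∈ C, u • u • x = x) (h4' : 4 ≤ mv u C) (h5 : mv u C ≤ 5) (hlt : mv u C < C.card) :
    ∃ g ∈ Z, mv g C ≠ 0 ∧ mv g C ≤ 3 := by
  obtain ⟨a, ha, -⟩ : ∃ d ∈ C.filter fun x => u • x ≠ x, True :=
    (card_pos.1 (show 0 < mv u C by omega)).imp fun _ h => ⟨h, trivial⟩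
  obtain ⟨c, hc, e1, e2, -⟩ := boA_new h4' a (u • a) a
  obtain ⟨e, he, he'⟩ := exists_mem_notMem_of_card_lt_card hlt
  have hm : ∀ x ∈ C.filter fun x => u • x ≠ x, u • x ∈ C.filter fun x => u • x ≠ x := fun x hx =>
    mem_filter.2 ⟨hC u hu x (mem_filter.1 hx).1, (smul_left_cancel_iff u).not.2 (mem_filter.1 hx).2⟩
  obtain ⟨a1, a2⟩ := mem_filter.1 ha
  obtain ⟨c1, c2⟩ := mem_filter.1 hc
  have e3 : u • c ≠ a := fun h => e2 (by rw [← h, h2 c c1])
  have e4 : u • c ≠ u • a := (smul_left_cancel_iff u).not.2 e1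
  have e5 : u • e = e := by simpa [he] using he'
  have hT : ∀ x ∈ C, x ≠ a → x ≠ u • a → x ≠ c → x ≠ u • c → u • x = x := fun x hx f1 f2 f3 f4 => by
    by_contra f5
    have f6 : ({a, u • a, c, u • c, x, u • x} : Finset Ω) ⊆ C.filter fun x => u • x ≠ x := by
      have : x ∈ C.filter fun x => u • x ≠ x := mem_filter.2 ⟨hx, f5⟩
      simp only [insert_subset_iff, singleton_subset_iff]
      exact ⟨ha, hm a ha, hc, hm c hc, this, hm x this⟩
    have f7 : u • x ≠ a := fun h => f2 (by rw [← h, h2 x hx])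
    have f8 : u • x ≠ c := fun h => f4 (by rw [← h, h2 x hx])
    have f9 := card_le_card f6
    rw [card_insert_of_notMem (by simp [a2.symm, e1.symm, e3.symm, f1.symm, f7.symm]),
      card_insert_of_notMem (by simp [e2.symm, e1.symm, f1.symm, f2.symm]),
      card_insert_of_notMem (by simp [c2.symm, f3.symm, f8.symm]),
      card_insert_of_notMem (by simp [f3.symm, f4.symm]), card_pair (Ne.symm f5)] at f9
    unfold mv at h5
    omega
  have n1 : a ≠ e := fun h => a2 (by rw [h, e5])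
  have n2 : u • a ≠ e := fun h => n1 (smul_left_cancel u (h.trans e5.symm))
  have n3 : c ≠ e := fun h => c2 (by rw [h, e5])
  have n4 : u • c ≠ e := fun h => n3 (smul_left_cancel u (h.trans e5.symm))
  obtain ⟨g, hg, g1, g2, g3, g4⟩ := h4 a a1 _ (hC u hu a a1) c c1 _ (hC u hu c c1) a a1 _ (hC u hu a a1) c c1 e he
    a2.symm e1.symm e3.symm e2.symm e4.symm c2.symm a2.symm e1.symm n1 e2.symm n2 n3
  have i : ∀ {x y : Ω}, g • x = y → g⁻¹ • y = x := fun h => inv_smul_eq_iff.2 h.symm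
  refine ⟨u * (g * u * g⁻¹), mul_mem hu (mul_mem (mul_mem hg hu) (inv_mem hg)),
    card_ne_zero.2 ⟨c, mem_filter.2 ⟨c1, ?_⟩⟩, (card_le_card (t := {c, u • c, e}) fun x hx => ?_).trans card_le_three⟩
  · rw [mul_smul, mul_smul, mul_smul, i g3, g4, e5]; exact n3.symm
  obtain ⟨x1, x2⟩ := mem_filter.1 hx
  by_contra hn
  simp only [mem_insert, mem_singleton, not_or] at hn
  apply x2
  rw [mul_smul, mul_smul, mul_smul]
  by_cases f1 : x = a
  · rw [f1, i g1, g2, h2 a a1]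
  by_cases f2 : x = u • a
  · rw [f2, i g2, h2 a a1, g1]
  rw [hT _ (hC _ (inv_mem hg) x x1) (fun h => f1 (by rw [← g1, ← h, smul_inv_smul]))
    (fun h => f2 (by rw [← g2, ← h, smul_inv_smul])) (fun h => hn.1 (by rw [← g3, ← h, smul_inv_smul]))
    (fun h => hn.2.2 (by rw [← g4, ← h, smul_inv_smul])), smul_inv_smul, hT x x1 f1 f2 hn.1 hn.2.1]

end Cfsg.Agent.PNF
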