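import Cfsg.Agent.PNF.Defs

set_option autoImplicit false
set_option linter.unusedSectionVars false

namespace Cfsg.Agent.PNF

open Classical Finset Cfsg.Agent.FPS Pointwise

variable {G : Type} [Group G] [Fintype G] {Ω : Type} [MulAction G Ω] {n : ℕ}

theorem cls_sm {Z K : Subgroup G} {C : Finset Ω} (hC : Inv Z C) {g : G} (hg : g ∈ Z) (b : Ω) :
    Dc Z K C (g • b) = g • Dc Z K C b := by
  ext y
  rw [← Finset.inv_smul_mem_iff, mem_Dc', mem_Dc']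
  constructor
  · rintro ⟨h1, h2⟩
    refine ⟨hC _ (Z.inv_mem hg) _ h1, fun h hh hb => ?_⟩
    rw [← Fx_sm g, smul_inv_smul, smul_smul]
    refine h2 _ (Z.mul_mem hg hh) ?_
    rw [mul_smul, Fx_sm]; exact hb
  · rintro ⟨h1, h2⟩
    refine ⟨by simpa using hC _ hg _ h1, fun h hh hb => ?_⟩
    rw [← Fx_sm g⁻¹, smul_smul]
    refine h2 _ (Z.mul_mem (Z.inv_mem hg) hh) ?_
    rw [mul_smul, ← Fx_sm g, smul_inv_smul]; exact hb

theorem cls_self {Z K : Subgroup G} {C : Finset Ω} {b : Ω} (hb : b ∈ C) : b ∈ Dc Z K C b :=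
  mem_Dc'.2 ⟨hb, fun _ _ h => h⟩

theorem cls_card {Z K : Subgroup G} {x a b : Ω} (ha : a ∈ orb Z x) (hb : b ∈ orb Z x) :
    (Dc Z K (orb Z x) b).card = (Dc Z K (orb Z x) a).card := by
  obtain ⟨g, hg, rfl⟩ := orb_tr ha hb
  rw [cls_sm (orb_inv x) hg, Finset.card_smul_finset]

theorem cls_eq {Z K : Subgroup G} {x b y : Ω} (hb : b ∈ orb Z x) (hy : y ∈ Dc Z K (orb Z x) b) :
    Dc Z K (orb Z x) y = Dc Z K (orb Z x) b := by
  obtain ⟨h1, h2⟩ := mem_Dc'.1 hy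
  refine eq_of_subset_of_card_le (fun z hz => ?_) (cls_card h1 hb).le
  obtain ⟨h3, h4⟩ := mem_Dc'.1 hz
  exact mem_Dc'.2 ⟨h3, fun h hh hf => h4 h hh (h2 h hh hf)⟩

theorem cls_cnt {Z K : Subgroup G} {x a : Ω} (ha : a ∈ orb Z x) {T : Finset Ω} (hT : T ⊆ orb Z x)
    (hc : ∀ y ∈ T, Dc Z K (orb Z x) y ⊆ T) :
    T.card = (Dc Z K (orb Z x) a).card * (T.image (Dc Z K (orb Z x))).card := by
  rw [card_eq_sum_card_image (Dc Z K (orb Z x)) T, mul_comm, ← smul_eq_mul, ← sum_const]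
  refine sum_congr rfl fun D hD => ?_
  obtain ⟨y, hy, rfl⟩ := mem_image.1 hD
  rw [← cls_card ha (hT hy)]
  congr 1
  ext z
  rw [mem_filter]
  exact ⟨fun ⟨h1, h2⟩ => h2 ▸ cls_self (hT h1), fun h => ⟨hc y hy h, cls_eq (hT hy) h⟩⟩

theorem cls (ih : IH n) {Z K : Subgroup G} (h : PN Z K) {x a : Ω} (hn : (orb Z x).card ≤ n)
    (hm : Mv K (orb Z x)) (ha : a ∈ orb Z x) (hf : Fx K a)
    (h2 : 2 ≤ (Dc Z K (orb Z x) a).card) :
    ((Dc Z K (orb Z x) a).card : ℤ) ≤ dd K (orb Z x) := by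
  have e1 : orb Z (Dc Z K (orb Z x) a) = (orb Z x).image (Dc Z K (orb Z x)) := by
    ext D
    rw [mem_orb, mem_image]
    constructor
    · rintro ⟨g, hg, rfl⟩
      exact ⟨g • a, orb_inv x g hg a ha, cls_sm (orb_inv x) hg a⟩
    · rintro ⟨b, hb, rfl⟩
      obtain ⟨g, hg, rfl⟩ := orb_tr ha hb
      exact ⟨g, hg, (cls_sm (orb_inv x) hg a).symm⟩
  have e2 : ∀ b ∈ orb Z x, Fx K (Dc Z K (orb Z x) b) ↔ Fx K b := by
    intro b hb
    constructor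
    · intro hD
      obtain ⟨g, hg, rfl⟩ := orb_tr ha hb
      refine h.l0 hg (C := ↑(Dc Z K (orb Z x) (g • a))) (fun k hk y hy => ?_) (fun y hy => ?_) _
        (mem_coe.2 (cls_self hb))
      · rw [mem_coe, ← hD k hk]
        exact smul_mem_smul_finset (mem_coe.1 hy)
      · exact (mem_Dc'.1 (mem_coe.1 hy)).2 g hg ((Fx_sm g).2 hf)
    · intro hb' k hk
      rw [← cls_sm (orb_inv x) (h.1 hk), hb' k hk]
  have e3 : (orb Z (Dc Z K (orb Z x) a)).filter (Fx K) =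
      ((orb Z x).filter (Fx K)).image (Dc Z K (orb Z x)) := by
    ext D
    rw [e1, mem_filter, mem_image, mem_image]
    constructor
    · rintro ⟨⟨b, hb, rfl⟩, hD⟩
      exact ⟨b, mem_filter.2 ⟨hb, (e2 b hb).1 hD⟩, rfl⟩
    · rintro ⟨b, hb, rfl⟩
      obtain ⟨hb1, hb2⟩ := mem_filter.1 hb
      exact ⟨⟨b, hb1, rfl⟩, (e2 b hb1).2 hb2⟩
  have c1 := cls_cnt (K := K) ha (Subset.refl (orb Z x)) (fun y _ z hz => (mem_Dc'.1 hz).1)
  have c2 := cls_cnt (K := K) ha (filter_subset (Fx K) (orb Z x)) (fun y hy z hz => by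
    obtain ⟨h1, h2⟩ := mem_Dc'.1 hz
    exact mem_filter.2 ⟨h1, by simpa using h2 1 Z.one_mem (by simpa using (mem_filter.1 hy).2)⟩)
  rw [← e1] at c1
  rw [← e3] at c2
  have hpos : 0 < (orb Z (Dc Z K (orb Z x) a)).card := card_pos.2 ⟨_, self_mem _⟩
  have hlt : (orb Z (Dc Z K (orb Z x) a)).card < n := by nlinarith
  have hm' : Mv K (orb Z (Dc Z K (orb Z x) a)) := by
    obtain ⟨y, hy, hy'⟩ := hm
    exact ⟨_, e1 ▸ mem_image_of_mem _ hy, fun hD => hy' ((e2 y hy).1 hD)⟩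
  have key := (ih.orb h _ hlt hm').1
  unfold dd fx at key ⊢
  have c1' : ((orb Z x).card : ℤ) = (Dc Z K (orb Z x) a).card * (orb Z (Dc Z K (orb Z x) a)).card := by
    exact_mod_cast c1
  have c2' : ((((orb Z x).filter (Fx K)).card : ℕ) : ℤ) = (Dc Z K (orb Z x) a).card *
      (((orb Z (Dc Z K (orb Z x) a)).filter (Fx K)).card : ℕ) := by
    exact_mod_cast c2
  rw [c1', c2']
  have : (0 : ℤ) ≤ (Dc Z K (orb Z x) a).card := Nat.cast_nonneg _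
  nlinarith

end Cfsg.Agent.PNF
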