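import Cfsg.Agent.FPS.Bas

/-! Fixed points of pronormal subgroups (Praeger): definitions and local lemmas. -/

set_option autoImplicit false
set_option linter.unusedSectionVars false

namespace Cfsg.Agent.PNF

open Classical Finset Cfsg.Agent.FPS Pointwise

variable {G : Type*} [Group G] {Ω : Type*} [MulAction G Ω]

/-- `K` is pronormal in `Z` -/
def PN (Z K : Subgroup G) : Prop := K ≤ Z ∧ ∀ g ∈ Z, ∃ w ∈ K ⊔ g • K, w • K = g • K

/-- defect of `K` on `C` -/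
noncomputable def dd (K : Subgroup G) (C : Finset Ω) : ℤ := (C.card : ℤ) - 2 * (fx K C : ℤ)

/-- `K` moves a point of `C` -/
def Mv (K : Subgroup G) (C : Finset Ω) : Prop := ∃ y ∈ C, ¬ Fx K y

def Tr2 (Z : Subgroup G) (C : Finset Ω) : Prop :=
  ∀ a ∈ C, ∀ b ∈ C, ∀ a' ∈ C, ∀ b' ∈ C, a ≠ b → a' ≠ b' → ∃ g ∈ Z, g • a = a' ∧ g • b = b'

def Tr3 (Z : Subgroup G) (C : Finset Ω) : Prop :=
  ∀ a ∈ C, ∀ b ∈ C, ∀ c ∈ C, ∀ a' ∈ C, ∀ b' ∈ C, ∀ c' ∈ C, a ≠ b → a ≠ c → b ≠ c →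
    a' ≠ b' → a' ≠ c' → b' ≠ c' → ∃ g ∈ Z, g • a = a' ∧ g • b = b' ∧ g • c = c'

def Tr4 (Z : Subgroup G) (C : Finset Ω) : Prop :=
  ∀ a ∈ C, ∀ b ∈ C, ∀ c ∈ C, ∀ d ∈ C, ∀ a' ∈ C, ∀ b' ∈ C, ∀ c' ∈ C, ∀ d' ∈ C,
    a ≠ b → a ≠ c → a ≠ d → b ≠ c → b ≠ d → c ≠ d →
    a' ≠ b' → a' ≠ c' → a' ≠ d' → b' ≠ c' → b' ≠ d' → c' ≠ d' →
    ∃ g ∈ Z, g • a = a' ∧ g • b = b' ∧ g • c = c' ∧ g • d = d'

/-- number of points of `C` moved by `g` -/
noncomputable def mv (g : G) (C : Finset Ω) : ℕ := (C.filter fun x => g • x ≠ x).card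

/-- points of `C` fixed by every `Z`-conjugate of `K` which fixes `a` -/
noncomputable def Dc (Z K : Subgroup G) (C : Finset Ω) (a : Ω) : Finset Ω :=
  C.filter fun y => ∀ h ∈ Z, Fx (h • K) a → Fx (h • K) y

/-- the theorem (with its equality case) for orbits of length `n` -/
def St1 (n : ℕ) : Prop :=
  ∀ (G : Type) [Group G] [Fintype G] (Ω : Type) [MulAction G Ω] (Z K : Subgroup G) (x : Ω),
    PN Z K → (orb Z x).card = n → Mv K (orb Z x) →
      1 ≤ dd K (orb Z x) ∧ (dd K (orb Z x) = 1 → Tr2 Z (orb Z x))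

def IH (n : ℕ) : Prop := ∀ m < n, St1 m

/-- the critical configuration: a faithful 3-transitive group of degree `2 * #F` -/
structure MC [Fintype Ω] (K : Subgroup G) (F : Finset Ω) : Prop where
  ih : IH (Fintype.card Ω)
  faith : ∀ g : G, (∀ x : Ω, g • x = x) → g = 1
  pn : PN ⊤ K
  fix : ∀ x, x ∈ F ↔ Fx K x
  max : ∀ g : G, (∀ x ∈ F, g • x = x) → g ∈ K
  ne : K ≠ ⊥
  half : Fintype.card Ω = 2 * F.card
  tr3 : Tr3 (⊤ : Subgroup G) (univ : Finset Ω)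

/-- the critical configuration with the two minimal degree bounds -/
structure M4 [Fintype Ω] (K : Subgroup G) (F : Finset Ω) : Prop where
  mc : MC K F
  big : ∀ g : G, g ≠ 1 → F.card ≤ mv g (univ : Finset Ω) + 1
  ht : ∀ g : G, g • F = F → mv g F ≠ 0 → 4 ≤ mv g F ∧ F.card < 3 * mv g F

/-- elements of `Z` mapping `a, b` to `a', b'` -/
noncomputable def Gm [Fintype G] (Z : Subgroup G) (a b a' b' : Ω) : Finset G :=
  (els Z).filter fun g => g • a = a' ∧ g • b = b'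

theorem mem_Gm [Fintype G] {Z : Subgroup G} {a b a' b' : Ω} {g : G} :
    g ∈ Gm Z a b a' b' ↔ g ∈ Z ∧ g • a = a' ∧ g • b = b' := by
  rw [Gm, mem_filter, mem_els]

theorem mem_Dc' {Z K : Subgroup G} {C : Finset Ω} {a y : Ω} :
    y ∈ Dc Z K C a ↔ y ∈ C ∧ ∀ h ∈ Z, Fx (h • K) a → Fx (h • K) y := mem_filter

theorem PN.mono {Z V K : Subgroup G} (h : PN Z K) (hK : K ≤ V) (hV : V ≤ Z) : PN V K :=
  ⟨hK, fun g hg => h.2 g (hV hg)⟩

theorem PN.st {Z K : Subgroup G} (h : PN Z K) {a : Ω} (ha : Fx K a) : PN (St Z a) K :=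
  h.mono (le_St.2 ⟨h.1, ha⟩) St_le

theorem sm_sup (g : G) (H K : Subgroup G) : g • (H ⊔ K) = g • H ⊔ g • K := by
  apply le_antisymm
  · rw [← sm_le_iff (g := g⁻¹), inv_smul_smul, sup_le_iff]
    constructor
    · rw [le_sm_iff, inv_inv]; exact le_sup_left
    · rw [le_sm_iff, inv_inv]; exact le_sup_right
  · exact sup_le (sm_mono le_sup_left) (sm_mono le_sup_right)

theorem PN.conj {Z K : Subgroup G} (h : PN Z K) {g : G} (hg : g ∈ Z) : PN Z (g • K) := by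
  refine ⟨sm_le hg h.1, fun k hk => ?_⟩
  obtain ⟨w, hw, he⟩ := h.2 (g⁻¹ * k * g) (Z.mul_mem (Z.mul_mem (Z.inv_mem hg) hk) hg)
  refine ⟨g * w * g⁻¹, ?_, ?_⟩
  · have := sm_mem (g := g) hw
    rwa [sm_sup, smul_smul, show g * (g⁻¹ * k * g) = k * g by group, mul_smul] at this
  · rw [smul_smul, inv_mul_cancel_right, mul_smul, he, smul_smul, smul_smul]
    congr 1; group

/-- the setwise stabilizer of a set of points, as a subgroup -/
def SS (G : Type*) [Group G] {Ω : Type*} [MulAction G Ω] (C : Set Ω) : Subgroup G where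
  carrier := {g | ∀ x, g • x ∈ C ↔ x ∈ C}
  one_mem' := by simp
  mul_mem' := fun {a b} ha hb x => by rw [mul_smul, ha, hb]
  inv_mem' := fun {a} ha x => by rw [← ha, smul_inv_smul]

theorem le_SS {V : Subgroup G} {C : Set Ω} (h : ∀ g ∈ V, ∀ x ∈ C, g • x ∈ C) : V ≤ SS G C :=
  fun g hg x => ⟨fun hx => by simpa using h g⁻¹ (V.inv_mem hg) _ hx, h g hg x⟩

/-- an invariant set fixed pointwise by a conjugate of `K` is fixed pointwise by `K` -/
theorem PN.l0 {Z K : Subgroup G} (h : PN Z K) {g : G} (hg : g ∈ Z) {C : Set Ω}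
    (hC : ∀ k ∈ K, ∀ x ∈ C, k • x ∈ C) (hg' : ∀ x ∈ C, Fx (g • K) x) : ∀ x ∈ C, Fx K x := by
  obtain ⟨w, hw, he⟩ := h.2 g hg
  have h1 : K ⊔ g • K ≤ SS G C :=
    sup_le (le_SS hC) (le_SS fun k hk x hx => by rw [hg' x hx k hk]; exact hx)
  intro x hx
  rw [← Fx_sm w, he]
  exact hg' _ ((h1 hw x).2 hx)

/-- Witt's property -/
theorem PN.witt {Z K : Subgroup G} (h : PN Z K) {g : G} (hg : g ∈ Z) :
    ∃ w ∈ Z, w • K = g • K ∧ ∀ x : Ω, Fx K x → Fx (g • K) x → w • x = x := by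
  obtain ⟨w, hw, he⟩ := h.2 g hg
  refine ⟨w, sup_le h.1 (sm_le hg h.1) hw, he, fun x h1 h2 => ?_⟩
  have : K ⊔ g • K ≤ MulAction.stabilizer G x := sup_le (fun k hk => h1 k hk) (fun k hk => h2 k hk)
  exact this hw

theorem dd_split (K : Subgroup G) {C D : Finset Ω} (h : D ⊆ C) :
    dd K C = dd K (C \ D) + dd K D := by
  unfold dd
  rw [fx_split K h, ← card_sdiff_add_card_eq_card h]
  push_cast; ring

theorem dd_erase {K : Subgroup G} {C : Finset Ω} {a : Ω} (ha : a ∈ C) (h : Fx K a) :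
    dd K C = dd K (C.erase a) - 1 := by
  unfold dd
  rw [fx_erase ha h, ← card_erase_add_one ha]
  push_cast; ring

theorem dd_empty (K : Subgroup G) : dd K (∅ : Finset Ω) = 0 := by simp [dd, fx]

/-- a set with a moved point and defect one has at least three points -/
theorem three_le {K : Subgroup G} {C : Finset Ω} (hC : Inv K C) (hm : Mv K C) (h : dd K C = 1) :
    3 ≤ C.card := by
  obtain ⟨y, hy, hm⟩ := hm
  simp only [Fx, not_forall] at hm
  obtain ⟨k, hk, hky⟩ := hm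
  have h2 : ({y, k • y} : Finset Ω) ⊆ C.filter fun x => ¬ Fx K x := by
    intro z hz
    rw [mem_insert, mem_singleton] at hz
    rcases hz with rfl | rfl
    · exact mem_filter.2 ⟨hy, fun hf => hky (hf k hk)⟩
    · refine mem_filter.2 ⟨hC k hk y hy, fun hf => hky ?_⟩
      have := hf k⁻¹ (K.inv_mem hk)
      rw [inv_smul_smul] at this
      exact this.symm
  have h3 := card_le_card h2
  rw [card_pair (Ne.symm hky)] at h3
  have h4 := card_filter_add_card_filter_not (s := C) (Fx K)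
  unfold dd fx at h
  omega

theorem IH.mono {n m : ℕ} (h : IH n) (hm : m ≤ n) : IH m := fun k hk => h k (hk.trans_le hm)

theorem Tr4.tr3 {Z : Subgroup G} {C : Finset Ω} (h : Tr4 Z C) (h4 : 4 ≤ C.card) : Tr3 Z C := by
  intro a ha b hb c hc a' ha' b' hb' c' hc' h1 h2 h3 h1' h2' h3'
  have key : ∀ x y z : Ω, ∃ d ∈ C, x ≠ d ∧ y ≠ d ∧ z ≠ d := by
    intro x y z
    have : ({x, y, z} : Finset Ω).card < C.card := lt_of_le_of_lt card_le_three (by omega)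
    obtain ⟨d, hd, hn⟩ := exists_mem_notMem_of_card_lt_card this
    simp only [mem_insert, mem_singleton, not_or] at hn
    exact ⟨d, hd, Ne.symm hn.1, Ne.symm hn.2.1, Ne.symm hn.2.2⟩
  obtain ⟨d, hd, e1, e2, e3⟩ := key a b c
  obtain ⟨d', hd', e1', e2', e3'⟩ := key a' b' c'
  obtain ⟨g, hg, k1, k2, k3, -⟩ :=
    h a ha b hb c hc d hd a' ha' b' hb' c' hc' d' hd' h1 h2 e1 h3 e2 e3 h1' h2' e1' h3' e2' e3'
  exact ⟨g, hg, k1, k2, k3⟩

theorem Tr3.tr2 {Z : Subgroup G} {C : Finset Ω} (h : Tr3 Z C) (h3 : 3 ≤ C.card) : Tr2 Z C := by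
  intro a ha b hb a' ha' b' hb' h1 h1'
  have key : ∀ x y : Ω, ∃ d ∈ C, x ≠ d ∧ y ≠ d := by
    intro x y
    have : ({x, y} : Finset Ω).card < C.card := lt_of_le_of_lt card_le_two (by omega)
    obtain ⟨d, hd, hn⟩ := exists_mem_notMem_of_card_lt_card this
    simp only [mem_insert, mem_singleton, not_or] at hn
    exact ⟨d, hd, Ne.symm hn.1, Ne.symm hn.2⟩
  obtain ⟨d, hd, e1, e2⟩ := key a b
  obtain ⟨d', hd', e1', e2'⟩ := key a' b'
  obtain ⟨g, hg, k1, k2, -⟩ := h a ha b hb d hd a' ha' b' hb' d' hd' h1 e1 e2 h1' e1' e2'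
  exact ⟨g, hg, k1, k2⟩

theorem Tr2.tr1 {Z : Subgroup G} {C : Finset Ω} (h : Tr2 Z C) {a a' : Ω} (ha : a ∈ C)
    (ha' : a' ∈ C) : ∃ g ∈ Z, g • a = a' := by
  by_cases e : a = a'
  · exact ⟨1, Z.one_mem, by rw [one_smul, e]⟩
  · obtain ⟨g, hg, k, -⟩ := h a ha a' ha' a' ha' a ha e (Ne.symm e)
    exact ⟨g, hg, k⟩

section
variable {G : Type} [Group G] [Fintype G] {Ω : Type} [MulAction G Ω] {n : ℕ}

/-- the induction hypothesis for one orbit -/
theorem IH.orb (ih : IH n) {Z K : Subgroup G} (h : PN Z K) (x : Ω) (hx : (orb Z x).card < n)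
    (hm : Mv K (orb Z x)) : 1 ≤ dd K (orb Z x) ∧ (dd K (orb Z x) = 1 → Tr2 Z (orb Z x)) :=
  ih _ hx G Ω Z K x h rfl hm

theorem IH.nonneg (ih : IH n) {V K : Subgroup G} (h : PN V K) :
    ∀ C : Finset Ω, Inv V C → C.card < n → (∀ y ∈ C, Mv K (FPS.orb V y)) → 0 ≤ dd K C := by
  intro C hC
  refine orb_ind (Z := V) (fun C => Inv V C → C.card < n → (∀ y ∈ C, Mv K (FPS.orb V y)) →
    0 ≤ dd K C) (fun _ _ _ => (dd_empty K).ge) ?_ C hC hC
  intro C x hC hx ihC _ hn hm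
  have hs := orb_sub hC hx
  rw [dd_split K hs]
  have h1 := ihC (hC.sdiff (orb_inv x)) ((card_le_card sdiff_subset).trans_lt hn)
    fun y hy => hm y (mem_sdiff.1 hy).1
  have h2 := (ih.orb h x ((card_le_card hs).trans_lt hn) (hm x hx)).1
  omega

/-- a non-empty invariant set without dead orbits has positive defect -/
theorem IH.pos (ih : IH n) {V K : Subgroup G} (h : PN V K) {C : Finset Ω} (hC : Inv V C)
    (hn : C.card < n) (hm : ∀ y ∈ C, Mv K (FPS.orb V y)) (hne : C.Nonempty) : 1 ≤ dd K C := by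
  obtain ⟨x, hx⟩ := hne
  have hs := orb_sub hC hx
  rw [dd_split K hs]
  have h1 := ih.nonneg h _ (hC.sdiff (orb_inv x)) ((card_le_card sdiff_subset).trans_lt hn)
    fun y hy => hm y (mem_sdiff.1 hy).1
  have h2 := (ih.orb h x ((card_le_card hs).trans_lt hn) (hm x hx)).1
  omega

/-- `y` is in the closure of the fixed point `a` iff `K` is trivial on its `Z_a`-orbit -/
theorem mem_Dc {Z K : Subgroup G} (h : PN Z K) {C : Finset Ω} {a : Ω} (ha : Fx K a) {y : Ω} :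
    y ∈ Dc Z K C a ↔ y ∈ C ∧ ¬ Mv K (FPS.orb (St Z a) y) := by
  rw [mem_Dc']
  refine and_congr_right fun _ => ⟨fun hy ⟨z, hz, hm⟩ => hm ?_, fun hy g hg hga => ?_⟩
  · obtain ⟨g, hg, rfl⟩ := mem_orb.1 hz
    rw [mem_St] at hg
    have := hy g⁻¹ (Z.inv_mem hg.1) (by
      rw [← Fx_sm g, smul_inv_smul, hg.2]; exact ha)
    rwa [← Fx_sm g, smul_inv_smul] at this
  · obtain ⟨w, hw, he, hf⟩ := h.witt (Ω := Ω) hg
    rw [← he, ← Fx_sm w⁻¹, inv_smul_smul]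
    by_contra hc
    refine hy ⟨_, mem_orb.2 ⟨w⁻¹, mem_St.2 ⟨Z.inv_mem hw, ?_⟩, rfl⟩, hc⟩
    rw [inv_smul_eq_iff, hf a ha hga]

end

end Cfsg.Agent.PNF
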