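/-
Project PNF: a non-trivial element fixes at most one block pointwise.
-/
import Cfsg.Agent.PNF.Blk
import Cfsg.Agent.H42.SylIn

set_option autoImplicit false
set_option linter.unusedSectionVars false

namespace Cfsg.Agent.PNF

open Classical Finset Cfsg.Agent.FPS Pointwise

variable {G : Type} [Group G] [Fintype G] {Ω : Type} [Fintype Ω] [MulAction G Ω]
  {K : Subgroup G} {F : Finset Ω}

/-- a non-trivial element fixes at most `#F + 1` points -/
theorem p1_card (h : M4 K F) {u : G} (hu : u ≠ 1) {C : Finset Ω} (hC : ∀ y ∈ C, u • y = y) :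
    C.card ≤ F.card + 1 := by
  have h1 := h.big u hu
  have h2 := card_filter_add_card_filter_not (s := (univ : Finset Ω)) (fun x => u • x ≠ x)
  have h3 : C ⊆ univ.filter fun x => ¬ u • x ≠ x := fun y hy =>
    mem_filter.2 ⟨mem_univ _, not_not.2 (hC y hy)⟩
  have h4 := card_le_card h3
  have h5 := h.mc.half
  rw [card_univ] at h2
  unfold mv at h1
  omega

theorem p1_two (h : M4 K F) {u : G} (hu : u ≠ 1) (hF : ∀ y ∈ F, u • y = y) {γ δ : Ω} (hγ : γ ∉ F)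
    (hδ : δ ∉ F) (e1 : u • γ = γ) (e2 : u • δ = δ) : δ = γ := by
  by_contra hne
  have := p1_card h hu (C := insert δ (insert γ F)) (by
    intro y hy
    rcases mem_insert.1 hy with rfl | hy
    · exact e2
    rcases mem_insert.1 hy with rfl | hy
    · exact e1
    exact hF y hy)
  rw [card_insert_of_notMem (by simp [hne, hδ]), card_insert_of_notMem hγ] at this
  omega

theorem p1_fix (h : M4 K F) {u : G} (hu : u ≠ 1) (hF : ∀ y ∈ F, u • y = y) {γ : Ω} (hγ : γ ∉ F)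
    (e : u • γ = γ) (y : Ω) : u • y = y ↔ y ∈ F ∨ y = γ := by
  refine ⟨fun hy => ?_, ?_⟩
  · by_cases hF' : y ∈ F
    · exact Or.inl hF'
    · exact Or.inr (p1_two h hu hF hγ hF' e hy)
  · rintro (hy | rfl)
    · exact hF y hy
    · exact e

theorem p1_comm (h : M4 K F) {u z : G} (hu : u ≠ 1) (hF : ∀ y ∈ F, u • y = y) {γ : Ω} (hγ : γ ∉ F)
    (e : u • γ = γ) (hz : ∀ y ∈ F, z • y = y) (c : u * z = z * u) : z • γ = γ := by
  rcases (p1_fix h hu hF hγ e (z • γ)).1 (by rw [smul_smul, c, mul_smul, e]) with h1 | h1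
  · exact smul_left_cancel z (hz _ h1)
  · exact h1

theorem p1_star (h : M4 K F) {x : G} (hx : x ≠ 1) (hF : ∀ y ∈ F, x • y = y) {γ : Ω} (hγ : γ ∉ F)
    (e : x • γ = γ) {w : G} (hw : ∀ y ∈ F, w • y ∈ F ∨ w • y = γ) :
    ∃ w' : G, (∀ y ∈ F, w' • y = w • y) ∧ (w' • γ ∈ F ∨ w' • γ = γ) := by
  obtain ⟨q, hq, hd⟩ := Nat.exists_prime_and_dvd (mt orderOf_eq_one_iff.1 hx)
  have : Fact q.Prime := ⟨hq⟩
  have o := orderOf_pow_orderOf_div (orderOf_pos x).ne' hd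
  have pw : ∀ (n : ℕ) (y : Ω), x • y = y → x ^ n • y = y := fun n y hy =>
    (MulAction.stabilizer G y).pow_mem hy n
  set u := x ^ (orderOf x / q) with hu
  have u1 : u ≠ 1 := by
    intro h1
    rw [h1, orderOf_one] at o
    exact hq.one_lt.ne o
  have uF : ∀ y ∈ F, u • y = y := fun y hy => pw _ y (hF y hy)
  have uγ : u • γ = γ := pw _ γ e
  have KF : ∀ k ∈ K, ∀ y ∈ F, k • y = y := fun k hk y hy => (h.mc.fix y).1 hy k hk
  have pz : ∀ v : G, orderOf v = q → IsPGroup q (Subgroup.zpowers v) := fun v hv =>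
    IsPGroup.of_card (n := 1) (by rw [Nat.card_zpowers, hv, pow_one])
  obtain ⟨Q, hQ, uQ⟩ := H42.exists_sylIn (pz u o) (Subgroup.zpowers_le.2 (h.mc.max u uF))
  rw [Subgroup.zpowers_le] at uQ
  have : Nontrivial Q := ⟨⟨⟨u, uQ⟩, 1, fun h1 => u1 (congrArg Subtype.val h1)⟩⟩
  have := hQ.isP.center_nontrivial
  obtain ⟨⟨z, zc⟩, z1⟩ := exists_ne (1 : Subgroup.center Q)
  have z1' : (z : G) ≠ 1 := fun h1 => z1 (Subtype.ext (Subtype.ext h1))
  have zc' : ∀ y ∈ Q, y * z = z * y := fun y hy =>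
    congrArg Subtype.val (Subgroup.mem_center_iff.1 zc ⟨y, hy⟩)
  have zF := KF z (hQ.le z.2)
  have zγ := p1_comm h u1 uF hγ uγ zF (zc' u uQ)
  have Qγ : ∀ y ∈ Q, y • γ = γ := fun y hy =>
    p1_comm h z1' zF hγ zγ (KF y (hQ.le hy)) (zc' y hy).symm
  have vK : w⁻¹ * u * w⁻¹⁻¹ ∈ K := h.mc.max _ fun y hy => by
    rw [inv_inv, mul_smul, mul_smul, (p1_fix h u1 uF hγ uγ _).2 (hw y hy), inv_smul_smul]
  obtain ⟨k, hk, hkQ⟩ := hQ.exists_conj (pz (w⁻¹ * u * w⁻¹⁻¹) (by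
    rw [← MulAut.conj_apply, MulEquiv.orderOf_eq, o])) (Subgroup.zpowers_le.2 vK)
  have e2 := Qγ _ (hkQ _ (Subgroup.mem_zpowers _))
  refine ⟨w * k⁻¹, fun y hy => by rw [mul_smul, KF _ (K.inv_mem hk) y hy],
    (p1_fix h u1 uF hγ uγ _).1 ?_⟩
  rw [inv_inv, mul_smul, mul_smul, smul_eq_iff_eq_inv_smul, mul_smul, mul_smul,
    inv_smul_eq_iff] at e2
  rw [mul_smul, e2]

/-- a non-trivial element fixes at most one block pointwise -/
theorem M4.p1 (h : M4 K F) {x g : G} (hx : x ≠ 1) (h1 : ∀ y ∈ F, x • y = y)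
    (h2 : ∀ y ∈ g • F, x • y = y) : g • F = F := by
  by_contra hne
  have hc := card_bl g F
  obtain ⟨γ, γ1, γ2⟩ : ∃ γ, γ ∈ g • F ∧ γ ∉ F := by
    by_contra hn
    push Not at hn
    exact hne (eq_of_subset_of_card_le hn hc.ge)
  obtain ⟨α, α1, α2⟩ : ∃ α, α ∈ F ∧ α ∉ g • F := by
    by_contra hn
    push Not at hn
    exact hne (eq_of_subset_of_card_le hn hc.le).symm
  have xγ := h2 γ γ1
  have sub : ∀ y ∈ g • F, y ∈ F ∨ y = γ := fun y hy => (p1_fix h hx h1 γ2 xγ y).1 (h2 y hy)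
  have eqF : g • F = insert γ (F.erase α) := eq_of_subset_of_card_le (fun y hy => by
      rcases sub y hy with h3 | h3
      · exact mem_insert_of_mem (mem_erase.2 ⟨fun e => α2 (e ▸ hy), h3⟩)
      · exact h3 ▸ mem_insert_self _ _) (by
      rw [card_insert_of_notMem (fun h3 => γ2 (mem_of_mem_erase h3)), card_erase_add_one α1, hc])
  have inF : ∀ y ∈ F, y ≠ α → y ∈ g • F := fun y hy hy' =>
    eqF ▸ mem_insert_of_mem (mem_erase.2 ⟨hy', hy⟩)
  obtain ⟨w, w1, w2⟩ := h.mc.witt g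
  have wF : ∀ y ∈ F, w • y ∈ g • F := fun y hy => w1 ▸ sm_mem_bl.2 hy
  obtain ⟨w', a1, a2⟩ := p1_star h hx h1 γ2 xγ (w := w) fun y hy => sub _ (wF y hy)
  have b1 : ∀ y ∈ F, y ≠ α → w' • y = y := fun y hy hy' => by
    rw [a1 y hy, w2 y hy (inF y hy hy')]
  have b2 : w' • α = γ := by
    have h3 := wF α α1
    rw [← a1 α α1] at h3
    refine (sub _ h3).resolve_left fun h4 => ?_
    have h5 : w' • α ≠ α := fun e => α2 (e ▸ h3)
    exact h5 (smul_left_cancel w' (b1 _ h4 h5))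
  have αγ : α ≠ γ := fun e => γ2 (e ▸ α1)
  have b3 : w' • γ = α := by
    by_contra h5
    rcases a2 with h4 | h4
    · exact γ2 (smul_left_cancel w' (b1 _ h4 h5) ▸ h4)
    · exact αγ (smul_left_cancel w' (b2.trans h4.symm))
  have four := h.mc.four
  obtain ⟨β, β1, β2⟩ := exists_mem_ne (s := F) (by omega) α
  obtain ⟨s, s1, s2⟩ := (h.mc.tr3N.tr2 (by omega)).tr1 α1 β1
  have sF : ∀ y, s • y ∈ F ↔ y ∈ F := fun y => by
    conv_lhs => rw [← MulAction.mem_stabilizer_iff.1 s1]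
    exact sm_mem_bl
  obtain ⟨s', c1, c2⟩ := p1_star h hx h1 γ2 xγ (w := s) fun y hy => Or.inl ((sF y).2 hy)
  have c0 : ∀ y ∈ F, s'⁻¹ • y = s⁻¹ • y ∧ s⁻¹ • y ∈ F := fun y hy => by
    have h3 : s⁻¹ • y ∈ F := (sF _).1 (by rwa [smul_inv_smul])
    exact ⟨by rw [inv_smul_eq_iff, c1 _ h3, smul_inv_smul], h3⟩
  have c3 : s' • γ = γ := c2.resolve_left fun h3 => by
    obtain ⟨h4, h5⟩ := c0 _ h3
    rw [← h4, inv_smul_smul] at h5
    exact γ2 h5
  have c4 : s' • α = β := by rw [c1 α α1, s2]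
  have v1 : ∀ y ∈ F, y ≠ β → (s' * w' * s'⁻¹) • y = y := fun y hy hy' => by
    obtain ⟨h4, h5⟩ := c0 y hy
    rw [← h4] at h5
    rw [mul_smul, mul_smul, b1 _ h5 fun e => hy' (by rw [← c4, ← e, smul_inv_smul]), smul_inv_smul]
  have v2 : (s' * w' * s'⁻¹) • β = γ := by
    rw [mul_smul, mul_smul, ← c4, inv_smul_smul, b2, c3]
  have v3 : (s' * w' * s'⁻¹) • γ = β := by
    rw [mul_smul, mul_smul, inv_smul_eq_iff.2 c3.symm, b3, c4]
  generalize s' * w' * s'⁻¹ = v at v1 v2 v3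
  have t1 : (w' * v * w'⁻¹) • α = β := by
    rw [mul_smul, mul_smul, inv_smul_eq_iff.2 b3.symm, v3, b1 β β1 β2]
  have t2 : (w' * v * w'⁻¹) • β = α := by
    rw [mul_smul, mul_smul, inv_smul_eq_iff.2 (b1 β β1 β2).symm, v2, b3]
  have t3 : ∀ y ∈ F, y ≠ α → y ≠ β → (w' * v * w'⁻¹) • y = y := fun y hy e1 e2 => by
    rw [mul_smul, mul_smul, inv_smul_eq_iff.2 (b1 y hy e1).symm, v1 y hy e2, b1 y hy e1]
  generalize w' * v * w'⁻¹ = t at t1 t2 t3
  have tF : t • F = F := eq_of_subset_of_card_le (fun y hy => by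
      obtain ⟨z, hz, rfl⟩ := mem_smul_finset.1 hy
      by_cases e1 : z = α
      · rw [e1, t1]; exact β1
      by_cases e2 : z = β
      · rw [e2, t2]; exact α1
      rw [t3 z hz e1 e2]; exact hz) (card_bl t F).ge
  have m1 : mv t F ≤ 2 := by
    refine (card_le_card (t := {α, β}) fun y hy => ?_).trans card_le_two
    obtain ⟨hy1, hy2⟩ := mem_filter.1 hy
    by_contra hn
    simp only [mem_insert, mem_singleton, not_or] at hn
    exact hy2 (t3 y hy1 hn.1 hn.2)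
  have m2 : mv t F ≠ 0 := card_ne_zero.2 ⟨α, mem_filter.2 ⟨α1, by rw [t1]; exact β2⟩⟩
  have := (h.ht t tF m2).1
  omega

end Cfsg.Agent.PNF
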