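/-
Project PNF: counting fixed points with the Frobenius kernel.
-/
import Cfsg.Agent.PNF.P1
import Cfsg.Agent.S0035

set_option autoImplicit false
set_option linter.unusedSectionVars false

namespace Cfsg.Agent.PNF

open Classical Finset Cfsg.Agent.FPS Pointwise

variable {G : Type} [Group G] [Fintype G] {Ω : Type} [Fintype Ω] [MulAction G Ω]
  {K : Subgroup G} {F : Finset Ω}

theorem frob_dvd {P H M : Subgroup G} (hP : P ≤ H) (hM : M ≤ H)
    (hN : H ≤ Subgroup.normalizer (M : Set G)) : P.relIndex M ∣ P.relIndex H := by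
  have hPM : P ⊔ M ≤ H := sup_le hP hM
  have h1 : P.relIndex (P ⊔ M) ∣ P.relIndex H :=
    Dvd.intro _ (Subgroup.relIndex_mul_relIndex _ _ _ le_sup_left hPM)
  have : (M.subgroupOf (P ⊔ M)).Normal :=
    Subgroup.normal_subgroupOf_of_le_normalizer (hPM.trans hN)
  have e1 : M.relIndex (P ⊔ M) = M.relIndex P := by
    have := Subgroup.relIndex_sup_right (P.subgroupOf (P ⊔ M)) (M.subgroupOf (P ⊔ M))
    rw [← Subgroup.subgroupOf_sup le_sup_left le_sup_right, Subgroup.relIndex_subgroupOf le_rfl,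
      Subgroup.relIndex_subgroupOf le_sup_left] at this
    exact this
  have e2 := Subgroup.relIndex_mul_relIndex (P ⊓ M) P (P ⊔ M) inf_le_left le_sup_left
  have e3 := Subgroup.relIndex_mul_relIndex (P ⊓ M) M (P ⊔ M) inf_le_right le_sup_right
  rw [Subgroup.inf_relIndex_left] at e2
  rw [e1, ← e2, mul_comm, Subgroup.inf_relIndex_right] at e3
  have hne : M.relIndex P ≠ 0 := Subgroup.index_ne_zero_of_finite
  rwa [Nat.eq_of_mul_eq_mul_left (Nat.pos_of_ne_zero hne) e3]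

/-- the regular normal subgroup of `K` on an orbit outside `F` -/
theorem frob_ker (h : M4 K F) {y : Ω} (hy : y ∉ F) : ∃ R : Subgroup G, R ≤ K ∧
    (∀ k ∈ K, k ∈ R ↔ k = 1 ∨ ∀ z ∈ orb K y, k • z ≠ z) ∧ ∀ k ∈ K, ∃ r ∈ R, r • y = k • y := by
  have KF : ∀ k ∈ K, ∀ y ∈ F, k • y = y := fun k hk y hy => (h.mc.fix y).1 hy k hk
  by_cases hU : St K y = ⊥
  · refine ⟨K, le_rfl, fun k hk => ⟨fun _ => ?_, fun _ => hk⟩, fun k hk => ⟨k, hk, rfl⟩⟩
    by_contra hn
    push Not at hn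
    obtain ⟨k1, z, hz, e⟩ := hn
    obtain ⟨g, hg, rfl⟩ := mem_orb.1 hz
    have : g⁻¹ * k * g ∈ St K y := mem_St.2 ⟨K.mul_mem (K.mul_mem (K.inv_mem hg) hk) hg, by
      rw [mul_smul, mul_smul, e, inv_smul_smul]⟩
    rw [hU, Subgroup.mem_bot] at this
    exact k1 (by rw [show k = g * (g⁻¹ * k * g) * g⁻¹ by group, this]; group)
  have mH : ∀ g k : K, k ∈ MulAut.conj g • (St K y).subgroupOf K ↔
      (k : G) • (g : G) • y = (g : G) • y := fun g k => by
    rw [Subgroup.mem_pointwise_smul_iff_inv_smul_mem, Subgroup.mem_subgroupOf, mem_St,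
      and_iff_right (SetLike.coe_mem _)]
    show ((g : G)⁻¹ * k * g) • y = y ↔ _
    rw [mul_smul, mul_smul, inv_smul_eq_iff]
  obtain ⟨N, hN, -, hc⟩ := S0035.result ((St K y).subgroupOf K) ⟨fun e => hU (by
      rw [Subgroup.subgroupOf_eq_bot] at e
      exact disjoint_self.1 (e.mono_right St_le)), fun e => hy ((h.mc.fix y).2 fun k hk =>
      (mem_St.1 (Subgroup.subgroupOf_eq_top.1 e hk)).2), fun g hg => by
      rw [eq_bot_iff]
      rintro k ⟨k1, k2⟩
      rw [Subgroup.mem_bot]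
      by_contra k0
      have k1' : (k : G) • y = y := (mem_St.1 (Subgroup.mem_subgroupOf.1 k1)).2
      have := p1_two h (u := k) (fun e => k0 (Subtype.ext e)) (KF _ k.2) hy (δ := (g : G) • y)
        (fun e => hy (smul_left_cancel (g : G) (KF _ g.2 _ e) ▸ e)) k1' ((mH g k).1 k2)
      exact hg (Subgroup.mem_subgroupOf.2 (mem_St.2 ⟨g.2, this⟩))⟩
  have mN : ∀ k : K, k ∈ N ↔ (k : G) = 1 ∨ ∀ z ∈ orb K y, (k : G) • z ≠ z := fun k => by
    rw [← SetLike.mem_coe, hN]
    refine or_congr (by simp) ⟨fun H z hz => ?_, fun H g e => ?_⟩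
    · obtain ⟨g, hg, rfl⟩ := mem_orb.1 hz
      exact fun e => H ⟨g, hg⟩ ((mH _ _).2 e)
    · exact H _ (mem_orb.2 ⟨g, g.2, rfl⟩) ((mH _ _).1 e)
  refine ⟨N.map K.subtype, Subgroup.map_subtype_le _, fun k hk => ?_, fun k hk => ?_⟩
  · rw [← mN ⟨k, hk⟩]
    exact Subgroup.mem_map_iff_mem (f := K.subtype) (x := ⟨k, hk⟩) Subtype.val_injective
  · obtain ⟨⟨n, u⟩, e⟩ := hc.2 ⟨k, hk⟩
    refine ⟨n.1, ⟨n.1, n.2, rfl⟩, ?_⟩
    have e' : ((n.1 : K) : G) * (u.1 : K) = k := congrArg Subtype.val e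
    rw [← e', mul_smul, (mem_St.1 (Subgroup.mem_subgroupOf.1 u.2)).2]

theorem frob_orb (h : M4 K F) {b : G} (hb : b • F = F)
    (hodd : Odd ((Subgroup.centralizer ({b} : Set G)).relIndex K))
    (hne : ¬ K ≤ Subgroup.centralizer ({b} : Set G)) {y : Ω} (hy : y ∉ F) (e : b • y = y) :
    3 * ((orb K y).filter fun z => b • z = z).card ≤ (orb K y).card := by
  have KF : ∀ k ∈ K, ∀ y ∈ F, k • y = y := fun k hk y hy => (h.mc.fix y).1 hy k hk
  obtain ⟨R, RK, mR, tr⟩ := frob_ker h hy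
  have bK := h.mc.norm hb
  have b1 : ∀ k ∈ K, b * k * b⁻¹ ∈ K := fun k hk => bK ▸ sm_mem hk
  have b2 : ∀ k ∈ K, b⁻¹ * k * b ∈ K := fun k hk => mem_sm.1 (bK.symm ▸ hk)
  have nrm : ∀ g : G, (∀ k ∈ K, g * k * g⁻¹ ∈ K) → (∀ z ∈ orb K y, g⁻¹ • z ∈ orb K y) →
      ∀ r ∈ R, g * r * g⁻¹ ∈ R := fun g g1 g2 r hr => by
    refine (mR _ (g1 r (RK hr))).2 (((mR r (RK hr)).1 hr).imp (fun e => by simp [e])
      fun H z hz e => H _ (g2 z hz) ?_)
    rw [eq_inv_smul_iff, ← mul_smul, ← mul_smul, e]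
  have bO : ∀ z ∈ orb K y, b⁻¹ • z ∈ orb K y := fun z hz => by
    obtain ⟨g, hg, rfl⟩ := mem_orb.1 hz
    exact mem_orb.2 ⟨_, b2 g hg, by rw [mul_smul, mul_smul, e]⟩
  have bR := nrm b b1 bO
  have KR : K ≤ Subgroup.normalizer (R : Set G) := fun g hg => H42.mem_normalizer_of_conj_mem
    (nrm g (fun k hk => K.mul_mem (K.mul_mem hg hk) (K.inv_mem hg))
      fun z hz => orb_inv y _ (K.inv_mem hg) z hz)
  have free : ∀ r ∈ R, r • y = y → r = 1 := fun r hr e =>
    ((mR r (RK hr)).1 hr).resolve_right fun H => H y (self_mem y) e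
  have crd : ∀ X : Subgroup G, X ≤ R → Nat.card X = (orb X y).card := fun X hX => by
    have : St X y = ⊥ := eq_bot_iff.2 fun r hr =>
      Subgroup.mem_bot.2 (free r (hX (mem_St.1 hr).1) (mem_St.1 hr).2)
    rw [orbstab X y, this, Subgroup.card_bot, mul_one]
  set C := Subgroup.centralizer ({b} : Set G) with hC
  have mC : ∀ r, r ∈ C ↔ r * b = b * r := fun r => Subgroup.mem_centralizer_singleton_iff
  have o1 : orb R y = orb K y := Subset.antisymm (orb_mono RK y) fun z hz => by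
    obtain ⟨g, hg, rfl⟩ := mem_orb.1 hz
    exact mem_orb.2 (tr g hg)
  have o2 : orb (C ⊓ K ⊓ R) y = (orb K y).filter fun z => b • z = z := by
    ext z
    rw [mem_filter, ← o1, mem_orb, mem_orb]
    constructor
    · rintro ⟨r, ⟨⟨r1, -⟩, r2⟩, rfl⟩
      exact ⟨⟨r, r2, rfl⟩, by rw [← mul_smul, ← (mC r).1 r1, mul_smul, e]⟩
    · rintro ⟨⟨r, r2, rfl⟩, e2⟩
      refine ⟨r, ⟨⟨(mC r).2 ?_, RK r2⟩, r2⟩, rfl⟩
      have := free _ (R.mul_mem (R.inv_mem r2) (bR r r2)) (by
        rw [mul_smul, mul_smul, mul_smul, inv_smul_eq_iff.2 e.symm, e2, inv_smul_smul])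
      rw [inv_mul_eq_one, eq_mul_inv_iff_mul_eq] at this
      exact this
  have e1 := H42.card_mul_relIndex (X := C ⊓ K ⊓ R) (Y := R) inf_le_right
  rw [crd _ inf_le_right, crd R le_rfl, o1, o2, Subgroup.inf_relIndex_right] at e1
  have d := frob_dvd (P := C ⊓ K) inf_le_right RK KR
  rw [Subgroup.inf_relIndex_right] at d
  have od := hodd.of_dvd_nat d
  have n1 : (C ⊓ K).relIndex R ≠ 1 := by
    intro h1
    rw [h1, mul_one] at e1
    have fx := filter_card_eq e1
    refine hne fun k hk => (mC k).2 ?_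
    obtain ⟨z, hz, zy⟩ := exists_mem_ne (s := orb K y) (by have := h.mc.orb4 hy; omega) y
    have oF : ∀ z ∈ orb K y, z ∉ F := fun z hz hF => by
      obtain ⟨g, hg, rfl⟩ := mem_orb.1 hz
      exact hy (smul_left_cancel g (KF g hg _ hF) ▸ hF)
    have u : ∀ z ∈ orb K y, (k⁻¹ * (b⁻¹ * k * b)) • z = z := fun z hz => by
      rw [mul_smul, mul_smul, mul_smul, fx z hz, inv_smul_eq_iff.2 (fx _ (orb_inv y k hk z hz)).symm,
        inv_smul_smul]
    by_contra hn
    refine zy (p1_two h (u := k⁻¹ * (b⁻¹ * k * b)) (fun h2 => hn ?_)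
      (KF _ (K.mul_mem (K.inv_mem hk) (b2 k hk))) hy (oF z hz) (u y (self_mem y)) (u z hz))
    rw [inv_mul_eq_one, mul_assoc, eq_inv_mul_iff_mul_eq] at h2
    exact h2.symm
  obtain ⟨m, hm⟩ := od
  rw [← e1, mul_comm]
  exact Nat.mul_le_mul_left _ (by omega)

theorem M4.frob (h : M4 K F) {b : G} (hb : b • F = F)
    (hodd : Odd ((Subgroup.centralizer ({b} : Set G)).relIndex K))
    (hne : ¬ K ≤ Subgroup.centralizer ({b} : Set G)) :
    3 * ((univ \ F).filter fun y => b • y = y).card ≤ F.card := by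
  have key := orb_ind (Z := K) (fun C : Finset Ω => Inv K C → (∀ y ∈ C, y ∉ F) →
    3 * (C.filter fun y => b • y = y).card ≤ C.card) (fun _ _ => by simp) (by
      intro C x hC hx ih _ hF
      have hs := orb_sub hC hx
      have h1 := ih (hC.sdiff (orb_inv x)) fun y hy => hF y (mem_sdiff.1 hy).1
      have h2 : 3 * ((orb K x).filter fun z => b • z = z).card ≤ (orb K x).card := by
        rcases ((orb K x).filter fun z => b • z = z).eq_empty_or_nonempty with h0 | ⟨y, hy⟩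
        · simp [h0]
        · obtain ⟨y1, y2⟩ := mem_filter.1 hy
          rw [← orb_eq y1]
          exact frob_orb h hb hodd hne (hF y (hs y1)) y2
      have h3 := card_sdiff_add_card_eq_card hs
      have h4 : (C.filter fun y => b • y = y).card ≤
          ((C \ orb K x).filter fun y => b • y = y).card +
            ((orb K x).filter fun z => b • z = z).card := by
        refine le_trans (card_le_card ?_) (card_union_le _ _)
        rw [← filter_union, sdiff_union_of_subset hs]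
      omega)
  have hI : Inv K (univ \ F) := fun k hk y hy => mem_sdiff.2 ⟨mem_univ _, fun hF =>
    (mem_sdiff.1 hy).2 (smul_left_cancel k ((h.mc.fix _).1 hF k hk) ▸ hF)⟩
  have h1 := key _ hI hI fun y hy => (mem_sdiff.1 hy).2
  have h2 := card_sdiff_add_card_eq_card (subset_univ F)
  have h3 := h.mc.half
  rw [card_univ] at h2
  omega

end Cfsg.Agent.PNF
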