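import Cfsg.Agent.PNF.P1
import Cfsg.Agent.PNF.Frob

set_option autoImplicit false
set_option linter.unusedSectionVars false

namespace Cfsg.Agent.PNF

open Classical Finset Cfsg.Agent.FPS Pointwise

variable {G : Type} [Group G] [Fintype G] {Ω : Type} [Fintype Ω] [MulAction G Ω]
  {K : Subgroup G} {F : Finset Ω}

theorem Parg.stab (h : MC K F) {u : G} (hu : u ∈ K) : u • F = F := by
  ext x
  rw [mem_bl]
  constructor
  · intro hx
    have := (h.fix _).1 hx u hu
    rw [smul_inv_smul] at this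
    rw [this]; exact hx
  · intro hx
    rw [(h.fix _).1 hx u⁻¹ (K.inv_mem hu)]; exact hx

theorem Parg.prime {n : ℕ} (h1 : n ≠ 1) :
    ∃ p : ℕ, p.Prime ∧ p ∣ n ∧ ∀ d : ℕ, d ∣ n → ¬ p ∣ d → Odd d := by
  rcases Nat.even_or_odd n with he | ho
  · exact ⟨2, Nat.prime_two, he.two_dvd, fun d _ hd =>
      Nat.not_even_iff_odd.1 fun e => hd e.two_dvd⟩
  · obtain ⟨p, hp, hd⟩ := Nat.exists_prime_and_dvd h1
    exact ⟨p, hp, hd, fun d hd' _ => ho.of_dvd_nat hd'⟩

/-- a `p`-subgroup of `K` fixes a second block -/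
theorem Parg.second (h : MC K F) {p : ℕ} [hp : Fact p.Prime] {P : Subgroup G} (hP : IsPGroup p P)
    (hle : P ≤ K) : ∃ g : G, g • F ≠ F ∧ ∀ u ∈ P, u • g • F = g • F := by
  by_contra hcon
  push Not at hcon
  obtain ⟨a, ha⟩ : F.Nonempty := card_pos.1 (by have := h.four; omega)
  have i1 : Inv P (orb (⊤ : Subgroup G) F) := (orb_inv F).mono le_top
  have i2 : Inv P ((orb (⊤ : Subgroup G) F).filter (a ∈ ·)) := by
    intro u hu B hB
    rw [mem_filter] at hB ⊢
    refine ⟨i1 u hu B hB.1, ?_⟩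
    rw [← (h.fix a).1 ha u (hle hu)]
    exact sm_mem_bl.2 hB.2
  have key : ∀ C : Finset (Finset Ω), C ⊆ orb (⊤ : Subgroup G) F → F ∈ C → fx P C = 1 := by
    intro C h1 h2
    rw [fx, card_eq_one]
    refine ⟨F, eq_singleton_iff_unique_mem.2 ⟨mem_filter.2 ⟨h2, fun u hu => Parg.stab h (hle hu)⟩, ?_⟩⟩
    intro B hB
    rw [mem_filter] at hB
    obtain ⟨g, -, rfl⟩ := mem_orb.1 (h1 hB.1)
    by_contra hne
    obtain ⟨u, hu, hu'⟩ := hcon g hne
    exact hu' (hB.2 u hu)
  have m1 := card_modEq hP i1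
  have m2 := card_modEq hP i2
  rw [key _ Subset.rfl (self_mem F), h.half_bl a] at m1
  rw [key _ (filter_subset _ _) (mem_filter.2 ⟨self_mem F, ha⟩)] at m2
  have m3 : 1 ≡ 2 [MOD p] := m1.symm.trans (m2.mul_left 2)
  exact hp.out.one_lt.ne' (Nat.dvd_one.1 ((Nat.modEq_iff_dvd' (by norm_num)).1 m3))

/-- a `p`-group normalising `L` centralises a non-trivial element of `L` -/
theorem Parg.cent {p : ℕ} [hp : Fact p.Prime] {P L : Subgroup G} (hP : IsPGroup p P)
    (hn : ∀ u ∈ P, u • L = L) (hd : p ∣ Nat.card L) :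
    ∃ b ∈ L, b ≠ 1 ∧ ∀ u ∈ P, u * b = b * u := by
  let : MulAction P L :=
    { smul := fun u k => ⟨(u : G) * k * (u : G)⁻¹, by
        have := sm_mem (g := (u : G)) k.2
        rwa [hn u u.2] at this⟩
      one_smul := fun k => Subtype.ext (by
        change ((1 : P) : G) * k * ((1 : P) : G)⁻¹ = k
        simp)
      mul_smul := fun u v k => Subtype.ext (by
        change ((u * v : P) : G) * k * ((u * v : P) : G)⁻¹ =
          (u : G) * ((v : G) * k * (v : G)⁻¹) * (u : G)⁻¹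
        simp [mul_assoc]) }
  have h1 : (1 : L) ∈ MulAction.fixedPoints P L := fun u => Subtype.ext (by
    change (u : G) * ((1 : L) : G) * (u : G)⁻¹ = ((1 : L) : G)
    simp)
  obtain ⟨b, hb, hne⟩ := hP.exists_fixed_point_of_prime_dvd_card_of_fixed_point L hd h1
  refine ⟨b, b.2, fun e => hne (Subtype.ext e.symm), fun u hu => ?_⟩
  have : u * (b : G) * u⁻¹ = b := congrArg Subtype.val (hb ⟨u, hu⟩)
  exact mul_inv_eq_iff_eq_mul.1 this

theorem M4.false (h : M4 K F) : False := by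
  have k1 : Nat.card K ≠ 1 := fun e => h.mc.ne (Subgroup.card_eq_one.1 e)
  obtain ⟨p, hp, hpd, hodd⟩ := Parg.prime k1
  have := Fact.mk hp
  obtain ⟨P₀⟩ : Nonempty (Sylow p K) := inferInstance
  set P : Subgroup G := (P₀ : Subgroup K).map K.subtype with hPdef
  have hP : IsPGroup p P := P₀.isPGroup'.map _
  have hle : P ≤ K := Subgroup.map_subtype_le _
  obtain ⟨x, hx, x1⟩ : ∃ x ∈ P, x ≠ 1 := by
    by_contra hcon
    push Not at hcon
    refine P₀.ne_bot_of_dvd_card hpd ((Subgroup.eq_bot_iff_forall _).2 fun y hy => ?_)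
    exact Subtype.ext (hcon y ⟨y, hy, rfl⟩)
  obtain ⟨g, hg, hfix⟩ := Parg.second h.mc hP hle
  have h' := h.conj g
  obtain ⟨b, hb, b1, hc⟩ := Parg.cent (L := g • K) hP (fun u hu => h'.mc.norm (hfix u hu))
    (by rwa [card_sm])
  have bF' : ∀ y ∈ g • F, b • y = y := fun y hy => (h'.mc.fix y).1 hy b hb
  have xF : ∀ y ∈ F, x • y = y := fun y hy => (h.mc.fix y).1 hy x (hle hx)
  have comm : ∀ (u v : G) (B : Finset Ω), u * v = v * u → (∀ y ∈ B, u • y = y) →
      ∀ y ∈ v • B, u • y = y := by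
    intro u v B e hB y hy
    have := hB _ (mem_bl.1 hy)
    rw [← smul_inv_smul v y, ← mul_smul, e, mul_smul, this]
  have hbF : b • F = F := h.p1 x1 xF (comm x b F (hc x hx) xF)
  have h0 : mv b F ≠ 0 := by
    intro e
    rw [mv, card_eq_zero, filter_eq_empty_iff] at e
    exact hg (h.p1 b1 (fun y hy => not_not.1 (e hy)) bF')
  have hne : ¬ K ≤ Subgroup.centralizer ({b} : Set G) := by
    intro hK
    refine hg (h.mc.fixK fun k hk => h'.p1 b1 bF' (comm b k _ ?_ bF'))
    exact (Subgroup.mem_centralizer_singleton_iff.1 (hK hk)).symm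
  have ho : Odd ((Subgroup.centralizer ({b} : Set G)).relIndex K) := by
    refine hodd _ (Subgroup.index_dvd_card _) fun hd => P₀.not_dvd_index (hd.trans ?_)
    refine Subgroup.index_dvd_of_le fun y hy => ?_
    exact Subgroup.mem_subgroupOf.2 (Subgroup.mem_centralizer_singleton_iff.2 (hc y ⟨y, hy, rfl⟩))
  have f1 := h.frob hbF ho hne
  have f2 := (h.ht b hbF h0).2
  have f3 : mv b F ≤ (F \ g • F).card := card_le_card fun y hy => by
    rw [mem_filter] at hy
    exact mem_sdiff.2 ⟨hy.1, fun e => hy.2 (bF' y e)⟩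
  have f4 : (g • F \ F).card ≤ ((univ \ F).filter fun y => b • y = y).card :=
    card_le_card fun y hy => by
      rw [mem_sdiff] at hy
      exact mem_filter.2 ⟨mem_sdiff.2 ⟨mem_univ _, hy.2⟩, bF' y hy.1⟩
  have f5 : (F \ g • F).card = (g • F \ F).card := card_sdiff_comm (card_bl g F).symm
  omega

end Cfsg.Agent.PNF
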