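import Cfsg.Agent.PNF.Defs

set_option autoImplicit false
set_option linter.unusedSectionVars false

namespace Cfsg.Agent.PNF

open Classical Finset Cfsg.Agent.FPS Pointwise

variable {G : Type} [Group G] [Fintype G] {Ω : Type} [MulAction G Ω] {n : ℕ}

theorem ram_sub {Z : Subgroup G} {x a b : Ω} (hb : b ∈ (orb Z x).erase a) :
    orb (St Z a) b ⊆ (orb Z x).erase a := orb_sub (((orb_inv x).mono St_le).erase Fx_St) hb

theorem ram_tr (ih : IH n) {Z K : Subgroup G} (h : PN Z K) {x a b : Ω} (hn : (orb Z x).card ≤ n)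
    (ha : a ∈ orb Z x) (hf : Fx K a) (hb : b ∈ (orb Z x).erase a)
    (hm : Mv K (orb (St Z a) b)) (h1 : dd K (orb (St Z a) b) = 1) :
    Tr2 (St Z a) (orb (St Z a) b) :=
  (ih.orb (h.st hf) b ((card_le_card (ram_sub hb)).trans_lt ((card_erase_lt_of_mem ha).trans_le hn))
    hm).2 h1

theorem r1 (ih : IH n) {Z K : Subgroup G} (h : PN Z K) {x a b : Ω} (hn : (orb Z x).card ≤ n)
    (ha : a ∈ orb Z x) (hf : Fx K a) (hb : b ∈ (orb Z x).erase a)
    (hm : Mv K (orb (St Z a) b)) (h1 : dd K (orb (St Z a) b) = 1)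
    (hne : orb (St Z a) b ≠ (orb Z x).erase a) {d e : Ω} (hd : d ∈ orb (St Z a) b)
    (he : e ∈ orb (St Z a) b) (hde : d ≠ e) {g : G} (hg : g ∈ Z) (hga : g • a = d) :
    g • b ≠ e := by
  intro hgb
  have tr := ram_tr ih h hn ha hf hb hm h1
  have hsub := ram_sub hb
  have hlt := card_lt_card (ssubset_of_subset_of_ne hsub hne)
  have hc := card_erase_add_one ha
  set A := orb (St Z a) b with hA
  have aA : a ∉ A := fun c => notMem_erase a _ (hsub c)
  have bA : b ∈ A := self_mem b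
  obtain ⟨t, ht, t1, t2⟩ := tr d hd e he e he d hd hde hde.symm
  have key : ∀ δ ∈ A, ∃ u ∈ Z, u • a = δ ∧ u ∈ SS G ((insert a A : Finset Ω) : Set Ω) := by
    intro δ hδ
    obtain ⟨k, hk, rfl⟩ := mem_orb.1 hδ
    have mu : k * (g⁻¹ * t * g) ∈ Z :=
      Z.mul_mem (St_le hk) (Z.mul_mem (Z.mul_mem (Z.inv_mem hg) (St_le ht)) hg)
    have ua : (k * (g⁻¹ * t * g)) • a = k • b := by
      rw [mul_smul, mul_smul, mul_smul, hga, t1, ← hgb, inv_smul_smul]
    have ub : (k * (g⁻¹ * t * g)) • b = a := by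
      rw [mul_smul, mul_smul, mul_smul, hgb, t2, ← hga, inv_smul_smul, (mem_St.1 hk).2]
    generalize k * (g⁻¹ * t * g) = u at mu ua ub
    have im : insert a A = (insert a A).image (u • ·) := by
      refine eq_of_subset_of_card_le (fun y hy => ?_) card_image_le
      rcases mem_insert.1 hy with rfl | hy
      · exact mem_image.2 ⟨b, mem_insert_of_mem bA, ub⟩
      by_cases c : k • b = y
      · exact mem_image.2 ⟨a, mem_insert_self _ _, ua.trans c⟩
      obtain ⟨t', ht', e1, e2⟩ := tr d hd e he _ hδ y hy hde c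
      refine mem_image.2 ⟨(u⁻¹ * t' * g) • b, mem_insert_of_mem (mem_orb.2 ⟨_, mem_St.2
        ⟨Z.mul_mem (Z.mul_mem (Z.inv_mem mu) (St_le ht')) hg, ?_⟩, rfl⟩), ?_⟩
      · rw [mul_smul, mul_smul, hga, e1, ← ua, inv_smul_smul]
      · rw [mul_smul, mul_smul, smul_inv_smul, hgb, e2]
    refine ⟨u, mu, ua, fun y => ?_⟩
    rw [mem_coe, mem_coe]
    refine ⟨fun c => ?_, fun c => im ▸ mem_image_of_mem _ c⟩
    rw [im] at c
    obtain ⟨y', c1, c2⟩ := mem_image.1 c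
    rwa [← MulAction.injective u c2]
  have hK : K ≤ Z ⊓ SS G ((insert a A : Finset Ω) : Set Ω) :=
    le_inf h.1 (le_SS fun k hk y hy => by
      rcases mem_insert.1 (mem_coe.1 hy) with rfl | hy
      · rw [hf k hk]; exact hy
      · exact mem_coe.2 (mem_insert_of_mem (orb_inv b k ((h.st hf).1 hk) y hy)))
  have hO : orb (Z ⊓ SS G ((insert a A : Finset Ω) : Set Ω)) a = insert a A := by
    refine Subset.antisymm (orb_sub (fun k hk y hy => (hk.2 y).2 hy) (mem_insert_self _ _))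
      fun y hy => ?_
    rcases mem_insert.1 hy with rfl | hy
    · exact self_mem _
    · obtain ⟨u, u1, u2, u3⟩ := key y hy
      exact mem_orb.2 ⟨u, ⟨u1, u3⟩, u2⟩
  have := (ih.orb (h.mono hK inf_le_left) a (by rw [hO, card_insert_of_notMem aA]; omega)
    (by obtain ⟨y, y1, y2⟩ := hm; exact ⟨y, hO.ge (mem_insert_of_mem y1), y2⟩)).1
  rw [hO, dd_erase (mem_insert_self a A) hf, erase_insert aA, h1] at this
  omega

theorem ram (ih : IH n) {Z K : Subgroup G} (h : PN Z K) {x a : Ω} (hn : (orb Z x).card ≤ n)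
    (ha : a ∈ orb Z x) (hf : Fx K a)
    (hall : ∀ b ∈ (orb Z x).erase a, Mv K (orb (St Z a) b) ∧ dd K (orb (St Z a) b) = 1)
    (hne : ∃ b ∈ (orb Z x).erase a, orb (St Z a) b ≠ (orb Z x).erase a) : False := by
  obtain ⟨b, hb, hne⟩ := hne
  obtain ⟨hm, h1⟩ := hall b hb
  have tr := ram_tr ih h hn ha hf hb hm h1
  obtain ⟨δ, ε, ζ, m1, m2, m3, n1, n2, n3⟩ :=
    two_lt_card_iff.1 (three_le ((orb_inv b).mono (h.st hf).1) hm h1)
  obtain ⟨g, hg, hga⟩ := orb_tr ha (mem_of_mem_erase (ram_sub hb m1))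
  have hb' : g⁻¹ • ε ∈ (orb Z x).erase a := mem_erase.2 ⟨fun c => n1 (by rw [← hga, ← c, smul_inv_smul]),
    orb_inv x _ (Z.inv_mem hg) _ (mem_of_mem_erase (ram_sub hb m2))⟩
  obtain ⟨t, ht, t1, t2⟩ := tr δ m1 ε m2 δ m1 ζ m3 n1 n2
  obtain ⟨s, hs, s1, s2⟩ := tr δ m1 ε m2 ε m2 ζ m3 n1 n3
  refine r1 ih h hn ha hf hb' (hall _ hb').1 (hall _ hb').2
    (fun c => hne ((orb_eq (c ▸ hb)).trans c)) (self_mem _) (e := g⁻¹ • ζ)
    (mem_orb.2 ⟨g⁻¹ * t * g, mem_St.2 ⟨Z.mul_mem (Z.mul_mem (Z.inv_mem hg) (St_le ht)) hg, ?_⟩, ?_⟩)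
    (fun c => n3 (MulAction.injective _ c)) (g := g⁻¹ * s * g)
    (Z.mul_mem (Z.mul_mem (Z.inv_mem hg) (St_le hs)) hg) ?_ ?_
  · rw [mul_smul, mul_smul, hga, t1, ← hga, inv_smul_smul]
  · rw [mul_smul, mul_smul, smul_inv_smul, t2]
  · rw [mul_smul, mul_smul, hga, s1]
  · rw [mul_smul, mul_smul, smul_inv_smul, s2]

end Cfsg.Agent.PNF
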