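import Cfsg.Agent.PNF.Blk

/-! Fixed points of pronormal subgroups: the quadruple system case. -/

set_option autoImplicit false
set_option linter.unusedSectionVars false

namespace Cfsg.Agent.PNF

open Classical Finset Cfsg.Agent.FPS Pointwise

variable {G : Type} [Group G] [Fintype G] {Ω : Type} [Fintype Ω] [MulAction G Ω]
  {K : Subgroup G} {F : Finset Ω}

/-- an abstract quadruple system -/
structure SqsR {Ω : Type} (R : Ω → Ω → Ω → Ω → Prop) : Prop where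
  ne : ∀ {x y z w}, R x y z w → w ≠ x ∧ w ≠ y ∧ w ≠ z
  ex : ∀ {x y z}, x ≠ y → x ≠ z → y ≠ z → ∃ w, R x y z w
  uq : ∀ {x y z w w'}, R x y z w → R x y z w' → w = w'
  s12 : ∀ {x y z w}, R x y z w → R y x z w
  s23 : ∀ {x y z w}, R x y z w → R x z y w
  s34 : ∀ {x y z w}, R x y z w → R x y w z

theorem sqs_xor {a b c d a' b' c' d' : Prop} (h1 : (a ↔ b) ↔ (c ↔ d)) (h2 : (a' ↔ b') ↔ (c' ↔ d')) :
    (¬ (a ↔ a') ↔ ¬ (b ↔ b')) ↔ (¬ (c ↔ c') ↔ ¬ (d ↔ d')) := by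
  grind

namespace SqsR

variable {R : Ω → Ω → Ω → Ω → Prop} (h : SqsR R)
include h

theorem fn {x y : Ω} (hxy : x ≠ y) : ∃ s : Ω → Ω, (∀ z, z ≠ x → z ≠ y → R x y z (s z)) ∧
    ∀ z, z ≠ x → z ≠ y → ∀ z', z' ≠ x → z' ≠ y → s z = s z' → z = z' := by
  have : ∀ z, ∃ w, z ≠ x → z ≠ y → R x y z w := fun z => by
    by_cases e : z ≠ x ∧ z ≠ y
    · obtain ⟨w, hw⟩ := h.ex hxy e.1.symm e.2.symm
      exact ⟨w, fun _ _ => hw⟩
    · exact ⟨z, fun a b => absurd ⟨a, b⟩ e⟩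
  choose s hs using this
  exact ⟨s, hs, fun z a b z' a' b' e => h.uq (h.s34 (hs z a b)) (e ▸ h.s34 (hs z' a' b'))⟩

theorem key {B : Finset Ω} (hB : Fintype.card Ω = 2 * B.card)
    (hc : ∀ {x y z w}, R x y z w → x ∈ B → y ∈ B → z ∈ B → w ∈ B) {x y z w : Ω} (hx : x ∈ B)
    (hy : y ∉ B) (r : R x y z w) : z ∈ B ↔ w ∉ B := by
  have k1 : ∀ {z w}, R x y z w → z ∈ B → w ∉ B := fun r hz hw => hy (hc (h.s34 (h.s23 r)) hx hz hw)
  refine ⟨k1 r, fun hw => ?_⟩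
  have hxy : x ≠ y := fun e => hy (e ▸ hx)
  obtain ⟨s, hs, hi⟩ := h.fn hxy
  have m : ∀ z ∈ B.erase x, z ≠ x ∧ z ≠ y := fun z hz =>
    ⟨ne_of_mem_erase hz, fun e => hy (e ▸ mem_of_mem_erase hz)⟩
  obtain ⟨z0, h0, e⟩ := surj_on_of_inj_on_of_card_le (s := B.erase x) (t := Bᶜ.erase y) (fun z _ => s z)
    (fun z hz => mem_erase.2 ⟨(h.ne (hs z (m z hz).1 (m z hz).2)).2.1,
      mem_compl.2 (k1 (hs z (m z hz).1 (m z hz).2) (mem_of_mem_erase hz))⟩)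
    (fun z z' hz hz' e => hi z (m z hz).1 (m z hz).2 z' (m z' hz').1 (m z' hz').2 e)
    (by rw [card_erase_of_mem hx, card_erase_of_mem (mem_compl.2 hy), card_compl, hB]; omega)
    w (mem_erase.2 ⟨(h.ne r).2.1, mem_compl.2 hw⟩)
  rw [h.uq (h.s34 r) (e ▸ h.s34 (hs z0 (m z0 h0).1 (m z0 h0).2))]
  exact mem_of_mem_erase h0

theorem par {B : Finset Ω} (hB : Fintype.card Ω = 2 * B.card)
    (hc : ∀ {x y z w}, R x y z w → x ∈ B → y ∈ B → z ∈ B → w ∈ B) {x y z w : Ω} (r : R x y z w) :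
    (x ∈ B ↔ y ∈ B) ↔ (z ∈ B ↔ w ∈ B) := by
  have r' : R z w x y := h.s23 (h.s34 (h.s12 (h.s23 r)))
  have k1 := fun a b => h.key hB hc a b r
  have k2 := fun a b => h.key hB hc a b (h.s12 r)
  have k3 := fun a b => h.key hB hc a b r'
  have k4 := fun a b => h.key hB hc a b (h.s12 r')
  by_cases a : x ∈ B <;> by_cases b : y ∈ B <;> by_cases c : z ∈ B <;> by_cases d : w ∈ B <;> simp_all

theorem bal {A : Finset Ω} (hp : ∀ {x y z w}, R x y z w → ((x ∈ A ↔ y ∈ A) ↔ (z ∈ A ↔ w ∈ A)))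
    {x y : Ω} (hx : x ∈ A) (hy : y ∉ A) : A.card ≤ Aᶜ.card := by
  have hxy : x ≠ y := fun e => hy (e ▸ hx)
  obtain ⟨s, hs, hi⟩ := h.fn hxy
  have m : ∀ z ∈ A.erase x, z ≠ x ∧ z ≠ y := fun z hz =>
    ⟨ne_of_mem_erase hz, fun e => hy (e ▸ mem_of_mem_erase hz)⟩
  have := card_le_card_of_injOn (s := A.erase x) (t := Aᶜ.erase y) s (fun z hz => by
    have r := hs z (m z hz).1 (m z hz).2
    have h1 := hp r
    have h2 := mem_of_mem_erase (mem_coe.1 hz)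
    exact mem_coe.2 (mem_erase.2 ⟨(h.ne r).2.1, mem_compl.2 (by tauto)⟩))
    fun z hz z' hz' e => hi z (m z hz).1 (m z hz).2 z' (m z' hz').1 (m z' hz').2 e
  rw [card_erase_of_mem hx, card_erase_of_mem (mem_compl.2 hy)] at this
  have h1 := card_pos.2 ⟨y, mem_compl.2 hy⟩
  omega

theorem half {B B' : Finset Ω} (hB : Fintype.card Ω = 2 * B.card) (hB' : B'.card = B.card)
    (hc : ∀ {x y z w}, R x y z w → x ∈ B → y ∈ B → z ∈ B → w ∈ B)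
    (hc' : ∀ {x y z w}, R x y z w → x ∈ B' → y ∈ B' → z ∈ B' → w ∈ B') (hne : B' ≠ B)
    (hm : (B ∩ B').Nonempty) : 2 * (B ∩ B').card = B.card := by
  set A := (B ∪ B') \ (B ∩ B') with hA
  have mA : ∀ x, x ∈ A ↔ ¬ (x ∈ B ↔ x ∈ B') := fun x => by
    rw [hA, mem_sdiff, mem_union, mem_inter]; tauto
  have hp : ∀ {x y z w}, R x y z w → ((x ∈ A ↔ y ∈ A) ↔ (z ∈ A ↔ w ∈ A)) := fun {x y z w} r => by
    have h1 := h.par hB hc r
    have h2 := h.par (hB'.symm ▸ hB) hc' r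
    simp only [mA]
    exact sqs_xor h1 h2
  obtain ⟨x, hx⟩ : ∃ x, x ∈ A := by
    by_contra! h0
    exact hne (Finset.ext fun x => (not_not.1 (mt (mA x).2 (h0 x))).symm)
  obtain ⟨y, hy⟩ := hm
  have hy' : y ∉ A := fun e => (mem_sdiff.1 e).2 hy
  have h1 := h.bal hp hx hy'
  have h2 := h.bal (A := Aᶜ) (fun r => by have := hp r; simp only [mem_compl]; tauto) (mem_compl.2 hy')
    (fun e => mem_compl.1 e hx)
  rw [compl_compl] at h2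
  have h3 := card_compl_add_card A
  have h4 := card_sdiff_add_card_eq_card (inter_subset_union (s := B) (t := B'))
  have h5 := card_union_add_card_inter B B'
  rw [← hA] at h4
  omega

end SqsR

/-- closure relation of the blocks -/
def sqsQ (G : Type) [Group G] [MulAction G Ω] (F : Finset Ω) (x y z w : Ω) : Prop :=
  ∀ g : G, x ∈ g • F → y ∈ g • F → z ∈ g • F → w ∈ g • F

theorem sqsQ_sm (g : G) {x y z w : Ω} (h : sqsQ G F x y z w) :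
    sqsQ G F (g • x) (g • y) (g • z) (g • w) := fun k a b c => by
  have e : k • F = g • (g⁻¹ * k) • F := by rw [smul_smul, mul_inv_cancel_left]
  rw [e, sm_mem_bl] at a b c ⊢
  exact h _ a b c

theorem MC.sqs (h : MC K F) {a b c : Ω} (ha : a ∈ F) (hb : b ∈ F) (hc : c ∈ F) (hab : a ≠ b)
    (hac : a ≠ c) (hbc : b ≠ c)
    (h2 : (Dc (St (St (⊤ : Subgroup G) a) b) K ((univ.erase a).erase b) c).card = 2) :
    False := by
  have mD : ∀ y, y ∈ Dc (St (St (⊤ : Subgroup G) a) b) K ((univ.erase a).erase b) c ↔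
      y ≠ a ∧ y ≠ b ∧ sqsQ G F a b c y := fun y => by
    rw [mem_Dc', mem_erase, mem_erase]
    refine ⟨fun ⟨⟨h1, h3, _⟩, h4⟩ => ⟨h3, h1, fun g a1 a2 a3 => ?_⟩,
      fun ⟨h1, h3, h4⟩ => ⟨⟨h3, h1, mem_univ _⟩, fun g hg a1 => ?_⟩⟩
    · obtain ⟨w, e, hw⟩ := h.witt g
      rw [← e] at a3 ⊢
      exact ((h.conj w).fix y).2 (h4 w (mem_St.2 ⟨mem_St.2 ⟨trivial, hw a ha a1⟩, hw b hb a2⟩)
        (((h.conj w).fix c).1 a3))
    · obtain ⟨g1, g2⟩ := mem_St.1 hg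
      exact ((h.conj g).fix y).1 (h4 g ((mem_St.1 g1).2 ▸ sm_mem_bl.2 ha) (g2 ▸ sm_mem_bl.2 hb)
        (((h.conj g).fix c).2 a1))
  have hcD := (mD c).2 ⟨hac.symm, hbc.symm, fun _ _ _ e => e⟩
  obtain ⟨d, hd⟩ := card_eq_one.1 (show ((Dc (St (St (⊤ : Subgroup G) a) b) K ((univ.erase a).erase b)
    c).erase c).card = 1 by rw [card_erase_of_mem hcD, h2])
  have md : ∀ y, (y ≠ a ∧ y ≠ b ∧ y ≠ c) ∧ sqsQ G F a b c y ↔ y = d := fun y => by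
    rw [← mem_singleton, ← hd, mem_erase, mD]; tauto
  have ex : ∀ {x y z : Ω}, x ≠ y → x ≠ z → y ≠ z →
      ∃ w, ∀ w', (w' ≠ x ∧ w' ≠ y ∧ w' ≠ z) ∧ sqsQ G F x y z w' ↔ w' = w := fun {x y z} e1 e2 e3 => by
    obtain ⟨g, -, rfl, rfl, rfl⟩ := h.tr3 a (mem_univ _) b (mem_univ _) c (mem_univ _) x (mem_univ _)
      y (mem_univ _) z (mem_univ _) hab hac hbc e1 e2 e3
    refine ⟨g • d, fun w' => ?_⟩
    obtain ⟨w, rfl⟩ := MulAction.surjective g w'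
    simp only [ne_eq, smul_left_cancel_iff, ← md]
    refine and_congr_right fun _ => ⟨fun q => ?_, sqsQ_sm g⟩
    simpa using sqsQ_sm g⁻¹ q
  let R : Ω → Ω → Ω → Ω → Prop := fun x y z w =>
    (x ≠ y ∧ x ≠ z ∧ y ≠ z) ∧ (w ≠ x ∧ w ≠ y ∧ w ≠ z) ∧ sqsQ G F x y z w
  have uq : ∀ {x y z w w'}, R x y z w → R x y z w' → w = w' := fun r r' => by
    obtain ⟨w0, h0⟩ := ex r.1.1 r.1.2.1 r.1.2.2
    rw [(h0 _).1 r.2, (h0 _).1 r'.2]
  have hR : SqsR R := by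
    refine ⟨fun r => r.2.1, fun e1 e2 e3 => ?_, uq,
      fun ⟨⟨a1, a2, a3⟩, ⟨b1, b2, b3⟩, q⟩ => ⟨⟨a1.symm, a3, a2⟩, ⟨b2, b1, b3⟩, fun g i j k => q g j i k⟩,
      fun ⟨⟨a1, a2, a3⟩, ⟨b1, b2, b3⟩, q⟩ => ⟨⟨a2, a1, a3.symm⟩, ⟨b1, b3, b2⟩, fun g i j k => q g i k j⟩,
      fun {x y z w} r => ?_⟩
    · obtain ⟨w, h0⟩ := ex e1 e2 e3
      exact ⟨w, ⟨e1, e2, e3⟩, (h0 w).2 rfl⟩
    · obtain ⟨z', h0⟩ := ex r.1.1 r.2.1.1.symm r.2.1.2.1.symm
      obtain ⟨⟨b1, b2, b3⟩, q⟩ := (h0 z').2 rfl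
      obtain rfl : z' = z := by
        by_contra e
        exact b3 (uq ⟨r.1, ⟨b1, b2, e⟩, fun g i j k => q g i j (r.2.2 g i j k)⟩ r)
      exact ⟨⟨r.1.1, r.2.1.1.symm, r.2.1.2.1.symm⟩, ⟨b1, b2, b3⟩, q⟩
  have cl : ∀ g : G, ∀ {x y z w}, R x y z w → x ∈ g • F → y ∈ g • F → z ∈ g • F → w ∈ g • F :=
    fun g _ _ _ _ r => r.2.2 g
  have hO : ∀ B ∈ (orb (⊤ : Subgroup G) F).erase F, 2 * (F ∩ B).card = F.card := fun B hB => by
    obtain ⟨g, -, rfl⟩ := mem_orb.1 (mem_of_mem_erase hB)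
    exact hR.half h.half (card_bl g F) (by simpa using @cl 1) (cl g) (ne_of_mem_erase hB) (h.meet g)
  have s1 := sum_card_inter (s := F) (B := orb (⊤ : Subgroup G) F)
    (n := ((orb (⊤ : Subgroup G) F).filter (a ∈ ·)).card) fun x _ => by
      have e1 := h.half_bl a
      have e2 := h.half_bl x
      convert (show ((orb (⊤ : Subgroup G) F).filter (x ∈ ·)).card =
        ((orb (⊤ : Subgroup G) F).filter (a ∈ ·)).card by omega)
  have hF : F ∈ orb (⊤ : Subgroup G) F := self_mem F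
  rw [← add_sum_erase _ _ hF, inter_self] at s1
  have s2 := sum_congr rfl hO
  rw [← mul_sum, sum_const, smul_eq_mul, card_erase_of_mem hF, h.half_bl a] at s2
  have s3 := card_pos.2 ⟨a, ha⟩
  have s4 : 0 < ((orb (⊤ : Subgroup G) F).filter (a ∈ ·)).card := card_pos.2 ⟨F, mem_filter.2 ⟨hF, ha⟩⟩
  obtain ⟨l, hl⟩ := Nat.exists_eq_succ_of_ne_zero s4.ne'
  rw [hl] at s1 s2
  rw [show 2 * l.succ - 1 = 2 * l + 1 by omega] at s2
  simp only [Nat.succ_eq_add_one] at s1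
  nlinarith

end Cfsg.Agent.PNF
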