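import Cfsg.Agent.PNF.Blk
import Cfsg.Agent.PNF.Ram

set_option autoImplicit false
set_option linter.unusedSectionVars false

namespace Cfsg.Agent.PNF

open Classical Finset Cfsg.Agent.FPS Pointwise

variable {G : Type} [Group G] [Fintype G] {Ω : Type} [Fintype Ω] [MulAction G Ω]
  {K : Subgroup G} {F : Finset Ω}

namespace Two1

variable (G) in
/-- four distinct points whose pointwise stabilizer has order `s` -/
def Cn (s : ℕ) (x y z w : Ω) : Prop := (x ≠ y ∧ x ≠ z ∧ y ≠ z ∧ w ≠ x ∧ w ≠ y ∧ w ≠ z) ∧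
  Nat.card (St (St (St (St (⊤ : Subgroup G) x) y) z) w) = s

variable {s : ℕ} {a b c d x y z w : Ω}

theorem St_comm (Z : Subgroup G) (x y : Ω) : St (St Z x) y = St (St Z y) x := inf_right_comm _ _ _

theorem Cn.s12 (h : Cn G s x y z w) : Cn G s y x z w :=
  ⟨by have := h.1; tauto, by rw [St_comm _ y x]; exact h.2⟩

theorem Cn.s23 (h : Cn G s x y z w) : Cn G s x z y w :=
  ⟨by have := h.1; tauto, by rw [St_comm _ z y]; exact h.2⟩

theorem Cn.s34 (h : Cn G s x y z w) : Cn G s x y w z :=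
  ⟨by have := h.1; tauto, by rw [St_comm _ w z]; exact h.2⟩

theorem cn_smul (g : G) : Cn G s (g • x) (g • y) (g • z) (g • w) ↔ Cn G s x y z w := by
  unfold Cn
  rw [← sm_self (g := g) (H := ⊤) (Subgroup.mem_top g), ← St_sm, ← St_sm, ← St_sm, ← St_sm, card_sm,
    sm_self (Subgroup.mem_top g)]
  simp only [ne_eq, smul_left_cancel_iff]

theorem mem3 {g : G} : g ∈ St (St (St (⊤ : Subgroup G) a) b) c ↔ g • a = a ∧ g • b = b ∧ g • c = c := by
  simp only [mem_St, Subgroup.mem_top, true_and, and_assoc]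

theorem cn_fix {g : G} (hg : g ∈ St (St (St (⊤ : Subgroup G) a) b) c) :
    Cn G s a b c (g • w) ↔ Cn G s a b c w := by
  obtain ⟨h1, h2, h3⟩ := mem3.1 hg
  have := cn_smul (s := s) (x := a) (y := b) (z := c) (w := w) g
  rwa [h1, h2, h3] at this

theorem cn_orb (h : Cn G s a b c d) (hw : w ∈ orb (St (St (St (⊤ : Subgroup G) a) b) c) d) :
    Cn G s a b c w := by
  obtain ⟨g, hg, rfl⟩ := mem_orb.1 hw
  exact (cn_fix hg).2 h

theorem trans (h3 : Tr3 (⊤ : Subgroup G) (univ : Finset Ω)) (h : Cn G s a b c d)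
    (ho : ∀ w, Cn G s a b c w → w ∈ orb (St (St (St (⊤ : Subgroup G) a) b) c) d) (k : Cn G s x y z w) :
    ∃ g : G, g • a = x ∧ g • b = y ∧ g • c = z ∧ g • d = w := by
  obtain ⟨g, -, rfl, rfl, rfl⟩ := h3 a (mem_univ _) b (mem_univ _) c (mem_univ _) x (mem_univ _)
    y (mem_univ _) z (mem_univ _) h.1.1 h.1.2.1 h.1.2.2.1 k.1.1 k.1.2.1 k.1.2.2.1
  obtain ⟨w, rfl⟩ := MulAction.surjective g w
  obtain ⟨v, hv, rfl⟩ := mem_orb.1 (ho w ((cn_smul g).1 k))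
  obtain ⟨h1, h2, h3⟩ := mem3.1 hv
  exact ⟨g * v, by rw [mul_smul, h1], by rw [mul_smul, h2], by rw [mul_smul, h3], mul_smul _ _ _⟩

theorem card_sm' (g : G) (P Q : Ω → Prop) (h : ∀ v, Q (g • v) ↔ P v) :
    (univ.filter P).card = (univ.filter Q).card :=
  card_equiv (MulAction.toPerm g) fun v => by simp [h]

variable (G) in
/-- common neighbours -/
noncomputable def Cm (s : ℕ) (x y z w : Ω) : Finset Ω :=
  univ.filter fun v => Cn G s x y z v ∧ Cn G s x y w v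

theorem mem_Cm {v : Ω} : v ∈ Cm G s x y z w ↔ Cn G s x y z v ∧ Cn G s x y w v := by simp [Cm]

theorem card_Cm (g : G) : (Cm G s (g • x) (g • y) (g • z) (g • w)).card = (Cm G s x y z w).card :=
  (card_equiv (MulAction.toPerm g) fun v => by simp [mem_Cm, cn_smul]).symm

theorem cm_inv {g : G} (h1 : g • x = x) (h2 : g • y = y) (h3 : g • z = z) (h4 : g • w = w) {v : Ω}
    (hv : v ∈ Cm G s x y z w) : g • v ∈ Cm G s x y z w := by
  rw [mem_Cm] at hv ⊢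
  have k1 := (cn_smul g).2 hv.1
  have k2 := (cn_smul g).2 hv.2
  rw [h1, h2] at k1 k2
  exact ⟨h3 ▸ k1, h4 ▸ k2⟩

theorem num {k l α β m N p q : ℕ} (hk : k = 2 * α + 1) (hl : l = 2 * β + 2) (h3 : 3 * (k - 1) ≤ l)
    (k3 : 3 ≤ k) (hm : 3 * m ≤ k) (h1 : l * p = N * β) (h2 : k * q = N * α) (hp : p ≤ q) (hN : 0 < N) :
    α = 1 ∧ m ≤ 1 := by
  have e : N * (β * k) ≤ N * (α * l) := by
    calc _ = l * p * k := by rw [h1]; ring
      _ ≤ l * q * k := by gcongr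
      _ = _ := by rw [mul_assoc, mul_comm q, h2]; ring
  have e2 := Nat.le_of_mul_le_mul_left e hN
  subst hk hl
  have : β ≤ 2 * α := by nlinarith
  omega

end Two1

open Two1 in
theorem MC.two1 (h : MC K F) {a b c d e : Ω} (ha : a ∈ F) (hb : b ∈ F) (hc : c ∈ F) (hab : a ≠ b)
    (hac : a ≠ c) (hbc : b ≠ c) (hd : d ≠ a ∧ d ≠ b ∧ d ≠ c) (he : e ≠ a ∧ e ≠ b ∧ e ≠ c)
    (hm : Mv K (orb (St (St (St (⊤ : Subgroup G) a) b) c) d))
    (hA : dd K (orb (St (St (St (⊤ : Subgroup G) a) b) c) d) = 1)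
    (hB : dd K (orb (St (St (St (⊤ : Subgroup G) a) b) c) e) = 2)
    (hcov : ∀ y, y ≠ a → y ≠ b → y ≠ c → y ∈ orb (St (St (St (⊤ : Subgroup G) a) b) c) d ∨
      y ∈ orb (St (St (St (⊤ : Subgroup G) a) b) c) e) : False := by
  have pZ : PN (St (St (⊤ : Subgroup G) a) b) K := (h.pn.st ((h.fix a).1 ha)).st ((h.fix b).1 hb)
  have pV := pZ.st ((h.fix c).1 hc)
  have k3 := three_le ((orb_inv d).mono pV.1) hm hA
  have hk := hA
  have hl := hB
  rw [dd, h.fx_eq] at hk hl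
  obtain ⟨s, hs⟩ : ∃ s, Cn G s a b c d := ⟨_, ⟨hab, hac, hbc, hd⟩, rfl⟩
  obtain ⟨t, ht⟩ : ∃ t, Cn G t a b c e := ⟨_, ⟨hab, hac, hbc, he⟩, rfl⟩
  have st : s ≠ t := fun k => by
    have e1 := orbstab (St (St (St (⊤ : Subgroup G) a) b) c) d
    have e2 := orbstab (St (St (St (⊤ : Subgroup G) a) b) c) e
    rw [hs.2, e2, ht.2, k] at e1
    have := Nat.eq_of_mul_eq_mul_right (ht.2 ▸ Nat.card_pos) e1
    omega
  have mA : ∀ w, w ∈ orb (St (St (St (⊤ : Subgroup G) a) b) c) d ↔ Cn G s a b c w := fun w =>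
    ⟨cn_orb hs, fun k => (hcov w k.1.2.2.2.1 k.1.2.2.2.2.1 k.1.2.2.2.2.2).resolve_right
      fun m => st (k.2.symm.trans (cn_orb ht m).2)⟩
  have mB : ∀ w, w ∈ orb (St (St (St (⊤ : Subgroup G) a) b) c) e ↔ Cn G t a b c w := fun w =>
    ⟨cn_orb ht, fun k => (hcov w k.1.2.2.2.1 k.1.2.2.2.2.1 k.1.2.2.2.2.2).resolve_left
      fun m => st ((cn_orb hs m).2.symm.trans k.2)⟩
  have tA := fun {x y z w : Ω} => trans (x := x) (y := y) (z := z) (w := w) h.tr3 hs fun w => (mA w).2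
  have tB := fun {x y z w : Ω} => trans (x := x) (y := y) (z := z) (w := w) h.tr3 ht fun w => (mB w).2
  have oZ : ∀ y, y ≠ a → y ≠ b → y ≠ c → y ∈ (orb (St (St (⊤ : Subgroup G) a) b) c).erase c :=
    fun y h1 h2 h3 => by
      obtain ⟨g, -, k1, k2, k3⟩ := h.tr3 a (mem_univ _) b (mem_univ _) c (mem_univ _) a (mem_univ _)
        b (mem_univ _) y (mem_univ _) hab hac hbc hab h1.symm h2.symm
      exact mem_erase.2 ⟨h3, mem_orb.2 ⟨g, mem_St.2 ⟨mem_St.2 ⟨trivial, k1⟩, k2⟩, k3⟩⟩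
  have tri : ∀ {x y z w v : Ω}, Cn G s x y z w → Cn G s x y z v → Cn G s x y w v → False := by
    intro x y z w v h1 h2 h3
    obtain ⟨g, rfl, rfl, rfl, rfl⟩ := tA h1
    obtain ⟨v, rfl⟩ := MulAction.surjective g v
    rw [cn_smul] at h2 h3
    obtain ⟨u, k1, k2, k3, k4⟩ := tA h3
    exact r1 h.ih pZ (card_le_univ _) (self_mem c) ((h.fix c).1 hc) (oZ d hd.1 hd.2.1 hd.2.2) hm hA
      (fun k => st (((mA e).1 (k ▸ oZ e he.1 he.2.1 he.2.2)).2.symm.trans ht.2)) (self_mem d)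
      ((mA v).2 h2) h3.1.2.2.2.2.2.symm (mem_St.2 ⟨mem_St.2 ⟨trivial, k1⟩, k2⟩) k3 k4
  obtain ⟨μ, hμ⟩ : ∃ μ, ∀ {x y z w : Ω}, Cn G t x y z w → (Cm G s x y z w).card = μ :=
    ⟨(Cm G s a b c e).card, fun k => by
      obtain ⟨g, rfl, rfl, rfl, rfl⟩ := tB k
      exact card_Cm g⟩
  generalize hA' : orb (St (St (St (⊤ : Subgroup G) a) b) c) d = A at *
  generalize hB' : orb (St (St (St (⊤ : Subgroup G) a) b) c) e = B at *
  have cnt : A.card * (A.card - 1) = B.card * μ := by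
    refine card_mul_eq_card_mul (fun v w => Cn G s a b v w) (fun v hv => ?_) fun w hw => ?_
    · have hv := (mA v).1 hv
      obtain ⟨g, k1, k2, k3, -⟩ := tA hv.s34
      have e1 : A = univ.filter (Cn G s a b c) := by ext w; simp [mA]
      rw [e1, card_sm' g _ (Cn G s a b v) fun u => by rw [← k1, ← k2, ← k3, cn_smul, k1, k2],
        ← card_erase_of_mem (mem_filter.2 ⟨mem_univ c, hv.s34⟩)]
      congr 1
      ext w
      rw [mem_bipartiteAbove, mem_erase, mem_filter, mB]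
      refine ⟨fun k => ⟨k.1.1.2.2.2.2.2, mem_univ _, k.2⟩, fun k => ⟨(mB w).1 ?_, k.2.2⟩⟩
      exact (hcov w k.2.2.1.2.2.2.1 k.2.2.1.2.2.2.2.1 k.1).resolve_left
        fun m => tri hv ((mA w).1 m) k.2.2
    · rw [← hμ ((mB w).1 hw)]
      congr 1
      ext v
      rw [mem_bipartiteBelow, mem_Cm, mA]
      exact and_congr_right fun _ => ⟨Cn.s34, Cn.s34⟩
  have μ1 : 1 ≤ μ := Nat.pos_of_ne_zero fun k => by
    rw [k, mul_zero, mul_eq_zero] at cnt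
    omega
  have s1 : ∀ δ, Cm G s a b c δ ⊆ A := fun δ v hv => (mA v).2 (mem_Cm.1 hv).1
  have s2 : ∀ δ, Cm G s a c b δ ⊆ A := fun δ v hv => (mA v).2 (mem_Cm.1 hv).1.s23
  have s3 : ∀ δ, Cm G s b c a δ ⊆ A := fun δ v hv => (mA v).2 (mem_Cm.1 hv).1.s23.s12
  have dj : ∀ {x y z δ : Ω}, Disjoint (Cm G s x y z δ) (Cm G s x z y δ) := by
    intro x y z δ
    exact disjoint_left.2 fun v h1 h2 => tri (mem_Cm.1 h1).1.s34.s23 (mem_Cm.1 h1).2.s34.s23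
      (mem_Cm.1 h2).2.s34.s23
  have sw : ∀ {x y z δ : Ω}, Cm G s x y z δ = Cm G s y x z δ := by
    intro x y z δ
    ext v
    rw [mem_Cm, mem_Cm]
    exact ⟨fun k => ⟨k.1.s12, k.2.s12⟩, fun k => ⟨k.1.s12, k.2.s12⟩⟩
  have μ3 : 3 * μ ≤ A.card := by
    have := card_le_card (union_subset (union_subset (s1 e) (s2 e)) (s3 e))
    rw [card_union_of_disjoint (disjoint_union_left.2 ⟨sw ▸ dj, by rw [sw, @sw b]; exact dj⟩),
      card_union_of_disjoint dj, hμ ht, hμ ht.s23, hμ ht.s12.s23] at this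
    omega
  have l3 : 3 * (A.card - 1) ≤ B.card := Nat.le_of_mul_le_mul_left (c := A.card) (by
    calc _ = 3 * (A.card * (A.card - 1)) := by ring
      _ = B.card * (3 * μ) := by rw [cnt]; ring
      _ ≤ B.card * A.card := by gcongr
      _ = _ := mul_comm _ _) (by omega)
  obtain ⟨δ, hδ⟩ : (F ∩ B).Nonempty := card_pos.1 (by omega)
  obtain ⟨δF, δB⟩ := mem_inter.1 hδ
  have nδ := (mB δ).1 δB
  have pW := pV.st ((h.fix δ).1 δF)
  have i1 : Inv (St (St (St (St (⊤ : Subgroup G) a) b) c) δ) (Cm G s a b c δ) := fun g hg v hv => by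
    obtain ⟨k1, k2, k3⟩ := mem3.1 (mem_St.1 hg).1
    exact cm_inv k1 k2 k3 (mem_St.1 hg).2 hv
  have i2 : Inv (St (St (St (St (⊤ : Subgroup G) a) b) c) δ) (Cm G s a c b δ) := fun g hg v hv => by
    obtain ⟨k1, k2, k3⟩ := mem3.1 (mem_St.1 hg).1
    exact cm_inv k1 k3 k2 (mem_St.1 hg).2 hv
  have iA : Inv (St (St (St (St (⊤ : Subgroup G) a) b) c) δ) A := hA' ▸ (orb_inv d).mono St_le
  have lt : A.card < Fintype.card Ω := card_lt_card (ssubset_univ_iff.2 fun k =>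
    ((mA a).1 (k ▸ mem_univ a)).1.2.2.2.1 rfl)
  obtain ⟨p, hp⟩ : (Cm G s a b c δ).Nonempty := card_pos.1 (by rw [hμ nδ]; exact μ1)
  obtain ⟨q, hq⟩ : (Cm G s a c b δ).Nonempty := card_pos.1 (by rw [hμ nδ.s23]; exact μ1)
  obtain ⟨ε, εA, hε⟩ : ∃ ε ∈ A, ¬ Mv K (orb (St (St (St (St (⊤ : Subgroup G) a) b) c) δ) ε) := by
    by_contra! k
    have e1 := h.ih.pos pW i1 ((card_le_card (s1 δ)).trans_lt lt) (fun y hy => k y (s1 δ hy)) ⟨p, hp⟩
    have e2 := h.ih.pos pW (iA.sdiff i1) ((card_le_card sdiff_subset).trans_lt lt)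
      (fun y hy => k y (mem_sdiff.1 hy).1) ⟨q, mem_sdiff.2 ⟨s2 δ hq, disjoint_right.1 dj hq⟩⟩
    rw [dd_split K (s1 δ)] at hA
    omega
  have b1 := bridge (St (St (St (⊤ : Subgroup G) a) b) c) F δ
  have b2 := bridge (St (St (St (⊤ : Subgroup G) a) b) c) F ε
  rw [orb_eq (hB' ▸ δB), hB'] at b1
  rw [orb_eq (hA' ▸ εA), hA'] at b2
  obtain ⟨α1, m1⟩ := num (m := μ) (by omega) (by omega) l3 k3 μ3 b1 b2 (card_le_card fun X hX => by
    rw [mem_filter] at hX ⊢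
    refine ⟨hX.1, ?_⟩
    obtain ⟨v, hv, rfl⟩ := mem_orb.1 hX.1
    obtain ⟨k1, k2, k3⟩ := mem3.1 hv
    obtain ⟨w, hw, fw⟩ := h.witt v
    rw [← hw, mem_bl, h.fix]
    by_contra k
    exact hε ⟨_, mem_orb.2 ⟨w⁻¹, inv_mem (mem_St.2 ⟨mem3.2 ⟨fw a ha (k1 ▸ sm_mem_bl.2 ha),
      fw b hb (k2 ▸ sm_mem_bl.2 hb), fw c hc (k3 ▸ sm_mem_bl.2 hc)⟩, fw δ δF hX.2⟩), rfl⟩, k⟩)
    (card_pos.2 ⟨F, self_mem F⟩)
  have pF : p ∈ F := (h.fix p).2 fun k hk =>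
    card_le_one.1 ((hμ nδ).le.trans m1) _ (i1 k (pW.1 hk) p hp) _ hp
  have qF : q ∈ F := (h.fix q).2 fun k hk =>
    card_le_one.1 ((hμ nδ.s23).le.trans m1) _ (i2 k (pW.1 hk) q hq) _ hq
  exact disjoint_left.1 dj hp (card_le_one.1 α1.le _ (mem_inter.2 ⟨qF, s2 δ hq⟩) _
    (mem_inter.2 ⟨pF, s1 δ hp⟩) ▸ hq)

end Cfsg.Agent.PNF
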