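import Cfsg.Agent.PNF.Cls
import Cfsg.Agent.PNF.Ram
import Cfsg.Agent.PNF.Sqs
import Cfsg.Agent.PNF.Two1
import Cfsg.Agent.PNF.Bo
import Cfsg.Agent.PNF.Alt
import Cfsg.Agent.PNF.Parg

/-! The critical configuration does not exist. -/

set_option autoImplicit false
set_option linter.unusedSectionVars false

namespace Cfsg.Agent.PNF

open Classical Finset Cfsg.Agent.FPS Pointwise

variable {G : Type} [Group G] [Fintype G] {Ω : Type} [Fintype Ω] [MulAction G Ω]
  {K : Subgroup G} {F : Finset Ω}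

theorem main_min {Z : Subgroup G} {C : Finset Ω} (hC : Inv Z C) (h4 : Tr4 Z C)
    (hs : ∀ g ∈ Z, mv g C ≠ 0 → 4 ≤ mv g C) {g : G} (hg : g ∈ Z) (h0 : mv g C ≠ 0) :
    C.card ≤ 2 * mv g C + 3 := by
  obtain ⟨u, hu, hmin⟩ := exists_min_image (univ.filter fun u : G => u ∈ Z ∧ mv u C ≠ 0)
    (fun u => mv u C) ⟨g, mem_filter.2 ⟨mem_univ _, hg, h0⟩⟩
  rw [mem_filter] at hu
  have h1 := bochert hC h4 (hs u hu.2.1 hu.2.2)
    (fun v hv hv0 => hmin v (mem_filter.2 ⟨mem_univ _, hv, hv0⟩)) hu.2.1 rfl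
  have h2 := hmin g (mem_filter.2 ⟨mem_univ _, hg, h0⟩)
  omega

theorem main_four (h : MC K F) (h4 : Tr4 (⊤ : Subgroup G) (univ : Finset Ω)) : False := by
  refine M4.false (K := K) (F := F) ⟨h, fun g hg => ?_, fun g hg h0 => ?_⟩
  · have h1 := h.small hg
    have := main_min (Z := ⊤) (C := (univ : Finset Ω)) (fun _ _ _ _ => mem_univ _) h4
      (fun u _ hu => h.small (by
        rintro rfl
        exact hu (by simp [mv]))) (Subgroup.mem_top g) (by omega)
    rw [card_univ, h.half] at this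
    omega
  · have h1 := h.alt (h.five h4) hg h0
    have := main_min (Z := MulAction.stabilizer G F) (C := F)
      (fun u hu x hx => by rw [← MulAction.mem_stabilizer_iff.1 hu]; exact sm_mem_bl.2 hx)
      (h.tr4N h4) (fun u hu hu0 => h.alt (h.five h4) hu hu0) hg h0
    omega

theorem main_tr4 (h3 : Tr3 (⊤ : Subgroup G) (univ : Finset Ω)) {a b c d : Ω} (hab : a ≠ b)
    (hac : a ≠ c) (hbc : b ≠ c)
    (hd : ∀ y, y ≠ a → y ≠ b → y ≠ c → y ∈ orb (St (St (St (⊤ : Subgroup G) a) b) c) d) :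
    Tr4 (⊤ : Subgroup G) (univ : Finset Ω) := by
  have key : ∀ x y z w : Ω, x ≠ y → x ≠ z → x ≠ w → y ≠ z → y ≠ w → z ≠ w →
      ∃ g : G, g • a = x ∧ g • b = y ∧ g • c = z ∧ g • d = w := by
    intro x y z w k1 k2 k3 k4 k5 k6
    obtain ⟨g, -, m1, m2, m3⟩ := h3 a (mem_univ _) b (mem_univ _) c (mem_univ _) x (mem_univ _)
      y (mem_univ _) z (mem_univ _) hab hac hbc k1 k2 k4
    obtain ⟨s, hs, e⟩ := mem_orb.1 (hd (g⁻¹ • w)
      (fun e => k3 (by rw [← m1, ← e, smul_inv_smul]))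
      (fun e => k5 (by rw [← m2, ← e, smul_inv_smul]))
      (fun e => k6 (by rw [← m3, ← e, smul_inv_smul])))
    simp only [mem_St] at hs
    exact ⟨g * s, by rw [mul_smul, hs.1.1.2, m1], by rw [mul_smul, hs.1.2, m2],
      by rw [mul_smul, hs.2, m3], by rw [mul_smul, e, smul_inv_smul]⟩
  intro x _ y _ z _ w _ x' _ y' _ z' _ w' _ k1 k2 k3 k4 k5 k6 l1 l2 l3 l4 l5 l6
  obtain ⟨g, m1, m2, m3, m4⟩ := key x y z w k1 k2 k3 k4 k5 k6
  obtain ⟨g', n1, n2, n3, n4⟩ := key x' y' z' w' l1 l2 l3 l4 l5 l6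
  refine ⟨g' * g⁻¹, Subgroup.mem_top _, ?_, ?_, ?_, ?_⟩
  · rw [mul_smul, ← m1, inv_smul_smul, n1]
  · rw [mul_smul, ← m2, inv_smul_smul, n2]
  · rw [mul_smul, ← m3, inv_smul_smul, n3]
  · rw [mul_smul, ← m4, inv_smul_smul, n4]

theorem MC.false (h : MC K F) : False := by
  by_cases h4 : Tr4 (⊤ : Subgroup G) (univ : Finset Ω)
  · exact main_four h h4
  have hF := h.four
  obtain ⟨a, ha, b, hb, c, hc, hab, hac, hbc, -⟩ := blk_three (s := ∅) (t := F) (by simp)
    (empty_subset _) (by omega)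
  have fa := (h.fix a).1 ha
  have fb := (h.fix b).1 hb
  have fc := (h.fix c).1 hc
  set Z : Subgroup G := St (St ⊤ a) b with hZ
  have pZ : PN Z K := (h.pn.st fa).st fb
  have pV : PN (St Z c) K := pZ.st fc
  have hΔ : orb Z c = ((univ : Finset Ω).erase a).erase b := by
    ext y
    rw [mem_orb, mem_erase, mem_erase]
    constructor
    · rintro ⟨g, hg, rfl⟩
      simp only [hZ, mem_St] at hg
      refine ⟨fun e => hbc ?_, fun e => hac ?_, mem_univ _⟩
      · rw [← hg.2] at e; exact (MulAction.injective g e).symm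
      · rw [← hg.1.2] at e; exact (MulAction.injective g e).symm
    · rintro ⟨h1, h2, -⟩
      obtain ⟨g, -, m1, m2, m3⟩ := h.tr3 a (mem_univ _) b (mem_univ _) c (mem_univ _) a (mem_univ _)
        b (mem_univ _) y (mem_univ _) hab hac hbc hab (Ne.symm h2) (Ne.symm h1)
      exact ⟨g, mem_St.2 ⟨mem_St.2 ⟨Subgroup.mem_top g, m1⟩, m2⟩, m3⟩
  have d0 : dd K (univ : Finset Ω) = 0 := by
    unfold dd
    rw [h.fx_eq, inter_univ, card_univ, h.half]; push_cast; ring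
  have d2 : dd K (orb Z c) = 2 := by
    rw [dd_erase (mem_univ a) fa, dd_erase (mem_erase.2 ⟨Ne.symm hab, mem_univ b⟩) fb] at d0
    rw [hΔ]; omega
  have hle : ∀ C : Finset Ω, C.card ≤ Fintype.card Ω := fun C => card_le_univ C
  have hlt : ∀ C : Finset Ω, C ⊆ (orb Z c).erase c → C.card < Fintype.card Ω := fun C hC =>
    (card_le_card hC).trans_lt ((card_erase_lt_of_mem (self_mem c)).trans_le (hle _))
  have hm : Mv K (orb Z c) := by
    obtain ⟨y, hy⟩ := blk_mv h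
    refine ⟨y, ?_, fun hf => hy ((h.fix y).2 hf)⟩
    rw [hΔ, mem_erase, mem_erase]
    exact ⟨fun e => hy (e ▸ hb), fun e => hy (e ▸ ha), mem_univ _⟩
  by_cases h2 : 2 ≤ (Dc Z K (orb Z c) c).card
  · have := cls h.ih pZ (hle _) hm (self_mem c) fc h2
    refine h.sqs ha hb hc hab hac hbc ?_
    rw [← hΔ, ← hZ]; omega
  have hlive : ∀ y ∈ (orb Z c).erase c, Mv K (orb (St Z c) y) := by
    intro y hy
    rw [mem_erase] at hy
    by_contra hn
    apply h2
    have hsub : ({y, c} : Finset Ω) ⊆ Dc Z K (orb Z c) c := by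
      intro z hz
      rw [mem_insert, mem_singleton] at hz
      rcases hz with rfl | rfl
      · exact (mem_Dc pZ fc).2 ⟨hy.2, hn⟩
      · exact mem_Dc'.2 ⟨self_mem _, fun _ _ h => h⟩
    have := card_le_card hsub
    rwa [card_pair hy.1] at this
  have d3 : dd K ((orb Z c).erase c) = 3 := by
    rw [dd_erase (self_mem c) fc] at d2; omega
  have hI : Inv (St Z c) ((orb Z c).erase c) := ((orb_inv c).mono St_le).erase Fx_St
  have hmem : ∀ y, y ∈ (orb Z c).erase c ↔ y ≠ a ∧ y ≠ b ∧ y ≠ c := by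
    intro y
    rw [hΔ, mem_erase, mem_erase, mem_erase]
    exact ⟨fun h => ⟨h.2.2.1, h.2.1, h.1⟩, fun h => ⟨h.2.2, h.2.1, h.1, mem_univ _⟩⟩
  have hne : ∀ y, orb (St Z c) y ≠ (orb Z c).erase c := fun y e =>
    h4 (main_tr4 h.tr3 hab hac hbc (d := y) fun z z1 z2 z3 => by
      rw [← hZ, e, hmem]; exact ⟨z1, z2, z3⟩)
  by_cases hall : ∀ y ∈ (orb Z c).erase c, dd K (orb (St Z c) y) = 1
  · obtain ⟨y, hy⟩ : ((orb Z c).erase c).Nonempty := by
      rw [nonempty_iff_ne_empty]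
      intro e
      rw [e, dd_empty] at d3; omega
    exact ram h.ih pZ (hle _) (self_mem c) fc (fun y hy => ⟨hlive y hy, hall y hy⟩) ⟨y, hy, hne y⟩
  push Not at hall
  obtain ⟨e, he, he1⟩ := hall
  have se := orb_sub hI he
  have de := (h.ih.orb pV e (hlt _ se) (hlive e he)).1
  have hR : Inv (St Z c) ((orb Z c).erase c \ orb (St Z c) e) := hI.sdiff (orb_inv e)
  obtain ⟨d, hd⟩ : ((orb Z c).erase c \ orb (St Z c) e).Nonempty :=
    sdiff_nonempty.2 fun hs => hne e (Subset.antisymm se hs)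
  have sd := orb_sub hR hd
  have hd' := (mem_sdiff.1 hd).1
  have dd1 := (h.ih.orb pV d (hlt _ (sd.trans sdiff_subset)) (hlive d hd')).1
  have hR' := hR.sdiff (orb_inv d)
  have hsub : ((orb Z c).erase c \ orb (St Z c) e) \ orb (St Z c) d ⊆ (orb Z c).erase c :=
    sdiff_subset.trans sdiff_subset
  have d4 := h.ih.nonneg pV _ hR' (hlt _ hsub) fun y hy => hlive y (hsub hy)
  rw [dd_split K se, dd_split K sd] at d3
  refine h.two1 ha hb hc hab hac hbc ((hmem d).1 hd') ((hmem e).1 he) (hlive d hd') (by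
    rw [← hZ]; omega) (by rw [← hZ]; omega) fun y y1 y2 y3 => ?_
  by_contra hn
  rw [not_or, ← hZ] at hn
  have := h.ih.pos pV hR' (hlt _ hsub) (fun y hy => hlive y (hsub hy))
    ⟨y, mem_sdiff.2 ⟨mem_sdiff.2 ⟨(hmem y).2 ⟨y1, y2, y3⟩, hn.2⟩, hn.1⟩⟩
  omega

end Cfsg.Agent.PNF
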