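import Cfsg.Agent.PNF.Main

/-! The induction. -/

set_option autoImplicit false
set_option linter.unusedSectionVars false

namespace Cfsg.Agent.PNF

open Classical Finset Cfsg.Agent.FPS Pointwise

section
variable {G H : Type*} [Group G] [Group H]

theorem step_map (φ : G →* H) (g : G) (K : Subgroup G) : (g • K).map φ = φ g • K.map φ := by
  ext x
  rw [mem_sm, Subgroup.mem_map, Subgroup.mem_map]
  constructor
  · rintro ⟨y, hy, rfl⟩
    exact ⟨_, mem_sm.1 hy, by simp⟩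
  · rintro ⟨y, hy, e⟩
    refine ⟨_, sm_mem (g := g) hy, ?_⟩
    simp [e, mul_assoc]

theorem PN.map {K : Subgroup G} (h : PN ⊤ K) (φ : G →* H) (hφ : Function.Surjective φ) :
    PN ⊤ (K.map φ) := by
  refine ⟨le_top, fun g _ => ?_⟩
  obtain ⟨g, rfl⟩ := hφ g
  obtain ⟨w, hw, he⟩ := h.2 g (Subgroup.mem_top g)
  refine ⟨φ w, ?_, by rw [← step_map, he, step_map]⟩
  rw [← step_map, ← Subgroup.map_sup]
  exact Subgroup.mem_map_of_mem φ hw

theorem PN.sub {Z K : Subgroup G} (h : PN Z K) : PN ⊤ (K.subgroupOf Z) := by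
  have key : ∀ (g : Z) (V : Subgroup G), g • V.subgroupOf Z = ((g : G) • V).subgroupOf Z := by
    intro g V
    ext x
    rw [mem_sm, Subgroup.mem_subgroupOf, Subgroup.mem_subgroupOf, mem_sm]
    rfl
  refine ⟨le_top, fun g _ => ?_⟩
  obtain ⟨w, hw, he⟩ := h.2 g g.2
  have hle : (g : G) • K ≤ Z := sm_le g.2 h.1
  refine ⟨⟨w, sup_le h.1 hle hw⟩, ?_, by rw [key, key, he]⟩
  rw [key, ← Subgroup.subgroupOf_sup h.1 hle, Subgroup.mem_subgroupOf]
  exact hw

end

section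
variable {G : Type} [Group G] [Fintype G] {Ω : Type} [Fintype Ω] [MulAction G Ω]

/-- the critical case for a faithful action -/
theorem step_faith (ih : IH (Fintype.card Ω)) (hf : ∀ g : G, (∀ x : Ω, g • x = x) → g = 1)
    {K : Subgroup G} (h : PN ⊤ K) (hm : Mv K (univ : Finset Ω)) (h0 : dd K (univ : Finset Ω) = 0)
    (h3 : Tr3 (⊤ : Subgroup G) (univ : Finset Ω)) : False := by
  let F : Finset Ω := univ.filter (Fx K)
  have hF : ∀ x, x ∈ F ↔ Fx K x := fun x => by simp [F]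
  let M : Subgroup G := fixingSubgroup G (F : Set Ω)
  have hM : ∀ g, g ∈ M ↔ ∀ x : Ω, Fx K x → g • x = x := fun g => by
    simp only [M, mem_fixingSubgroup_iff, mem_coe, hF]
  have hKM : K ≤ M := fun k hk => (hM k).2 fun x hx => hx k hk
  have hs : ∀ g w : G, w • K = g • K → w • M ≤ g • M := by
    intro g w e k hk
    rw [mem_sm, hM] at hk ⊢
    intro x hx
    have h1 : Fx K (w⁻¹ • g • x) := by
      rw [← Fx_sm w, smul_inv_smul, e, Fx_sm]; exact hx
    have h2 := hk _ h1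
    rw [mul_smul, mul_smul, smul_inv_smul] at h2
    rw [mul_smul, mul_smul, MulAction.injective w⁻¹ h2, inv_smul_smul]
  refine MC.false (K := M) (F := F) ⟨ih, hf, ⟨le_top, fun g _ => ?_⟩, fun x => ?_, fun g hg => ?_,
    fun e => ?_, ?_, h3⟩
  · obtain ⟨w, hw, he⟩ := h.2 g (Subgroup.mem_top g)
    exact ⟨w, sup_le_sup hKM (sm_mono hKM) hw, le_antisymm (hs g w he) (hs w g he.symm)⟩
  · rw [hF]
    exact ⟨fun hx g hg => (hM g).1 hg x hx, fun hx => hx.mono hKM⟩
  · exact (hM g).2 fun x hx => hg x ((hF x).2 hx)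
  · obtain ⟨y, -, hy⟩ := hm
    refine hy fun k hk => ?_
    have := hKM hk
    rw [e, Subgroup.mem_bot] at this
    rw [this, one_smul]
  · unfold dd fx at h0
    rw [card_univ] at h0
    change _ = 2 * (univ.filter (Fx K)).card
    omega

end

variable {G : Type} [Group G] [Fintype G] {Ω : Type} [MulAction G Ω] {n : ℕ}

/-- the critical case -/
theorem step_crit (ih : IH n) {Z K : Subgroup G} (h : PN Z K) {C : Finset Ω} (hC : Inv Z C)
    (hn : C.card = n) (hm : Mv K C) (h0 : dd K C = 0) (h3 : Tr3 Z C) : False := by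
  letI act : MulAction Z C :=
    { smul := fun g x => ⟨(g : G) • (x : Ω), hC g g.2 x x.2⟩
      one_smul := fun x => Subtype.ext (one_smul G (x : Ω))
      mul_smul := fun g h x => Subtype.ext (mul_smul (g : G) (h : G) (x : Ω)) }
  let φ := (MulAction.toPermHom Z C).rangeRestrict
  have hφ : ∀ (g : Z) (x : C), ((φ g • x : C) : Ω) = (g : G) • (x : Ω) := fun _ _ => rfl
  have hK : ∀ x : C, Fx ((K.subgroupOf Z).map φ) x ↔ Fx K (x : Ω) := by
    intro x
    constructor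
    · intro hx k hk
      have := hx (φ ⟨k, h.1 hk⟩) (Subgroup.mem_map_of_mem φ hk)
      exact congrArg Subtype.val this
    · rintro hx _ ⟨k, hk, rfl⟩
      exact Subtype.ext (hx k hk)
  have hc : Fintype.card C = n := by rw [Fintype.card_coe, hn]
  refine step_faith (G := (MulAction.toPermHom Z C).range) (Ω := C) (hc ▸ ih)
    (fun g hg => Subtype.ext (Equiv.ext hg)) (h.sub.map φ (MonoidHom.rangeRestrict_surjective _))
    ?_ ?_ ?_
  · obtain ⟨y, hy, hy'⟩ := hm
    exact ⟨⟨y, hy⟩, mem_univ _, fun e => hy' ((hK _).1 e)⟩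
  · have e : fx ((K.subgroupOf Z).map φ) (univ : Finset C) = fx K C := by
      unfold fx
      apply card_bij (fun (x : C) _ => (x : Ω))
      · intro x hx
        exact mem_filter.2 ⟨x.2, (hK x).1 (mem_filter.1 hx).2⟩
      · intro a _ b _ e; exact Subtype.ext e
      · intro y hy
        rw [mem_filter] at hy
        exact ⟨⟨y, hy.1⟩, mem_filter.2 ⟨mem_univ _, (hK _).2 hy.2⟩, rfl⟩
    unfold dd at h0 ⊢
    rw [e, card_univ, hc, ← hn]; exact h0
  · intro a _ b _ c _ a' _ b' _ c' _ k1 k2 k3 l1 l2 l3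
    obtain ⟨g, hg, m1, m2, m3⟩ := h3 a a.2 b b.2 c c.2 a' a'.2 b' b'.2 c' c'.2
      (fun e => k1 (Subtype.ext e)) (fun e => k2 (Subtype.ext e)) (fun e => k3 (Subtype.ext e))
      (fun e => l1 (Subtype.ext e)) (fun e => l2 (Subtype.ext e)) (fun e => l3 (Subtype.ext e))
    exact ⟨φ ⟨g, hg⟩, Subgroup.mem_top _, Subtype.ext m1, Subtype.ext m2, Subtype.ext m3⟩

theorem step_tr2 {Z : Subgroup G} {x a b : Ω} (ha : a ∈ orb Z x)
    (he : orb (St Z a) b = (orb Z x).erase a) : Tr2 Z (orb Z x) := by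
  have key : ∀ y ∈ orb Z x, ∀ z ∈ orb Z x, y ≠ z → ∃ g ∈ Z, g • a = y ∧ g • b = z := by
    intro y hy z hz hyz
    obtain ⟨g, hg, rfl⟩ := orb_tr ha hy
    have : g⁻¹ • z ∈ orb (St Z a) b := by
      rw [he, mem_erase]
      exact ⟨fun e => hyz (by rw [← e, smul_inv_smul]), orb_inv x _ (Z.inv_mem hg) _ hz⟩
    obtain ⟨s, hs, e⟩ := mem_orb.1 this
    rw [mem_St] at hs
    exact ⟨g * s, Z.mul_mem hg hs.1, by rw [mul_smul, hs.2], by rw [mul_smul, e, smul_inv_smul]⟩
  intro y hy z hz y' hy' z' hz' k l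
  obtain ⟨g, hg, m1, m2⟩ := key y hy z hz k
  obtain ⟨g', hg', n1, n2⟩ := key y' hy' z' hz' l
  exact ⟨g' * g⁻¹, Z.mul_mem hg' (Z.inv_mem hg), by rw [mul_smul, ← m1, inv_smul_smul, n1],
    by rw [mul_smul, ← m2, inv_smul_smul, n2]⟩

theorem step_tr3 {Z : Subgroup G} {x a : Ω} (ha : a ∈ orb Z x)
    (h2 : Tr2 (St Z a) ((orb Z x).erase a)) : Tr3 Z (orb Z x) := by
  intro y hy z hz w hw y' hy' z' hz' w' hw' k1 k2 k3 l1 l2 l3
  obtain ⟨g, hg, rfl⟩ := orb_tr ha hy
  obtain ⟨g', hg', rfl⟩ := orb_tr ha hy'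
  have key : ∀ s ∈ Z, ∀ v ∈ orb Z x, s • a ≠ v → s⁻¹ • v ∈ (orb Z x).erase a :=
    fun s hs v hv e => mem_erase.2 ⟨fun e' => e (by rw [← e', smul_inv_smul]),
      orb_inv x _ (Z.inv_mem hs) _ hv⟩
  obtain ⟨s, hs, m1, m2⟩ := h2 _ (key g hg z hz k1) _ (key g hg w hw k2) _ (key g' hg' z' hz' l1)
    _ (key g' hg' w' hw' l2) (fun e => k3 (MulAction.injective _ e))
    (fun e => l3 (MulAction.injective _ e))
  rw [mem_St] at hs
  refine ⟨g' * s * g⁻¹, Z.mul_mem (Z.mul_mem hg' hs.1) (Z.inv_mem hg), ?_, ?_, ?_⟩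
  · rw [mul_smul, mul_smul, inv_smul_smul, hs.2]
  · rw [mul_smul, mul_smul, m1, smul_inv_smul]
  · rw [mul_smul, mul_smul, m2, smul_inv_smul]

theorem step (ih : IH n) : St1 n := by
  intro G _ _ Ω _ Z K x h hn hm
  by_cases hf : ∃ a ∈ orb Z x, Fx K a
  swap
  · have e : fx K (orb Z x) = 0 := by
      by_contra e; exact hf (fx_pos.1 (Nat.pos_of_ne_zero e))
    have h1 := card_pos.2 ⟨x, self_mem (Z := Z) x⟩
    refine ⟨by unfold dd; rw [e]; omega, fun h1 => ?_⟩
    have := three_le ((orb_inv x).mono h.1) hm h1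
    unfold dd at h1; rw [e] at h1; omega
  obtain ⟨a, ha, fa⟩ := hf
  by_cases h2 : 2 ≤ (Dc Z K (orb Z x) a).card
  · have := cls ih h hn.le hm ha fa h2
    exact ⟨by omega, fun h1 => by omega⟩
  have pV : PN (St Z a) K := h.st fa
  have hlive : ∀ y ∈ (orb Z x).erase a, Mv K (orb (St Z a) y) := by
    intro y hy
    rw [mem_erase] at hy
    by_contra hn
    apply h2
    have hsub : ({y, a} : Finset Ω) ⊆ Dc Z K (orb Z x) a := by
      intro z hz
      rw [mem_insert, mem_singleton] at hz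
      rcases hz with rfl | rfl
      · exact (mem_Dc h fa).2 ⟨hy.2, hn⟩
      · exact mem_Dc'.2 ⟨ha, fun _ _ h => h⟩
    have := card_le_card hsub
    rwa [card_pair hy.1] at this
  have hlt : ∀ C : Finset Ω, C ⊆ (orb Z x).erase a → C.card < n := fun C hC =>
    (card_le_card hC).trans_lt ((card_erase_lt_of_mem ha).trans_le hn.le)
  have hI : Inv (St Z a) ((orb Z x).erase a) := ((orb_inv x).mono St_le).erase Fx_St
  obtain ⟨b, hb⟩ : ((orb Z x).erase a).Nonempty := by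
    obtain ⟨y, hy, hy'⟩ := hm
    exact ⟨y, mem_erase.2 ⟨fun e => hy' (e ▸ fa), hy⟩⟩
  have hd := dd_erase ha fa
  by_cases he : orb (St Z a) b = (orb Z x).erase a
  · refine ⟨?_, fun _ => step_tr2 ha he⟩
    have h1 := ih.orb pV b (hlt _ he.le) (hlive b hb)
    rw [he] at h1
    by_contra h0
    exact step_crit ih h (orb_inv x) hn hm (by omega) (step_tr3 ha (h1.2 (by omega)))
  have two : ∀ y ∈ (orb Z x).erase a, 1 ≤ dd K (orb (St Z a) y) ∧
      dd K (orb (St Z a) y) + 1 ≤ dd K ((orb Z x).erase a) := by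
    intro y hy
    have sy := orb_sub hI hy
    refine ⟨(ih.orb pV y (hlt _ sy) (hlive y hy)).1, ?_⟩
    have := ih.pos pV (hI.sdiff (orb_inv y)) (hlt _ sdiff_subset)
      (fun z hz => hlive z (mem_sdiff.1 hz).1) (sdiff_nonempty.2 fun hs => he (by
        rw [orb_eq (hs hb)]; exact Subset.antisymm sy hs))
    rw [dd_split K sy]; omega
  have hb2 := two b hb
  refine ⟨by omega, fun h1 => (ram ih h hn.le ha fa (fun y hy => ⟨hlive y hy, ?_⟩)
    ⟨b, hb, he⟩).elim⟩
  have := two y hy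
  omega

theorem st1 (n : ℕ) : St1 n := Nat.strong_induction_on n fun _ ih => step ih

end Cfsg.Agent.PNF
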